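import Mathlib
import Cfsg.Agent.SymSylow.PSLTwoFour
import Cfsg.Agent.SymSylow.Normalizer

/-!
The Sylow 2-subgroups of `SL₂(q)`, `q` odd, and their normalizers.
-/

set_option autoImplicit false
set_option linter.unusedSectionVars false
set_option linter.style.haveILetI false

namespace CfsgLib.PronSymp

open CfsgLib.SL2
open scoped commutatorElement

variable {F : Type*} [Field F] [Fintype F]

local notation "SLF" => Matrix.SpecialLinearGroup (Fin 2) F
local notation "M₂" => Matrix (Fin 2) (Fin 2) F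

/-- A pair of anticommuting square roots of `-1` in `Q`. -/
structure QPair (Q : Subgroup SLF) where
  u : SLF
  w : SLF
  hu : u ∈ Q
  hw : w ∈ Q
  uu : u * u = -1
  ww : w * w = -1
  uw : u * w = -(w * u)

theorem adj_coe (x : SLF) : Matrix.adjugate (x : M₂) = ((x⁻¹ : SLF) : M₂) :=
  (Matrix.SpecialLinearGroup.coe_inv x).symm

/-- Any element whose square is `-1` is not scalar and has inverse equal to its negative. -/
theorem inv_of_sq {x : SLF} (h : x * x = -1) : x⁻¹ = -x :=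
  inv_eq_of_mul_eq_one_right (by rw [mul_neg, h, neg_neg])

theorem coe_sq {x : SLF} (h : x * x = -1) : (x : M₂) * x = -1 := by
  have := congrArg (fun z : SLF => (z : M₂)) h
  simpa using this

theorem not_scalar_of_sq (h2 : (2 : F) ≠ 0) {x : SLF} (h : x * x = -1) (c : F) : (x : M₂) ≠ c • 1 := by
  intro hc
  have h1 := coe_sq h
  rw [hc] at h1
  have h3 : c * c = -1 := by
    have := congrFun (congrFun h1 0) 0
    simpa using this
  have hd := x.2
  rw [hc, Matrix.det_smul] at hd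
  simp at hd
  rcases hd with rfl | rfl <;> exact h2 (by linear_combination h3)

/-- The quaternion decomposition of `M₂`. -/
theorem decomp (h2 : (2 : F) ≠ 0) {Q : Subgroup SLF} (P : QPair Q) (X : M₂) :
    ∃ a b c d : F, X = a • 1 + b • (P.u : M₂) + c • (P.w : M₂) + d • ((P.u : M₂) * P.w) := by
  set u : M₂ := (P.u : M₂) with hu
  set w : M₂ := (P.w : M₂) with hw
  have uu : u * u = -1 := coe_sq P.uu
  have ww : w * w = -1 := coe_sq P.ww
  have uw : u * w = -(w * u) := by
    have := congrArg (fun z : SLF => (z : M₂)) P.uw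
    simpa [hu, hw] using this
  have ns := fun c => not_scalar_of_sq h2 P.uu c
  set Xp : M₂ := X - u * X * u with hXp
  set Xm : M₂ := (X + u * X * u) * w with hXm
  have uuX : ∀ Y : M₂, u * (u * Y) = -Y := fun Y => by rw [← mul_assoc, uu, neg_one_mul]
  have c1 : Xp * u = u * Xp := by
    rw [hXp, sub_mul, mul_sub, mul_assoc (u * X) u u, uu, mul_assoc u X u, uuX]
    simp only [mul_neg, mul_one, sub_neg_eq_add]
    abel
  have wu : w * u = -(u * w) := by rw [uw, neg_neg]
  have c2 : Xm * u = u * Xm := by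
    rw [hXm, mul_assoc, wu, mul_neg, ← mul_assoc, ← mul_assoc u, ← neg_mul]
    congr 1
    rw [add_mul, mul_add, mul_assoc (u * X) u u, uu, mul_assoc u X u, uuX]
    simp only [mul_neg, mul_one]
    abel
  obtain ⟨a, b, e1⟩ := CfsgLib.SymSylow.WreathNorm.exists_poly ns c1
  obtain ⟨c, d, e2⟩ := CfsgLib.SymSylow.WreathNorm.exists_poly ns c2
  refine ⟨a / 2, b / 2, -c / 2, -d / 2, ?_⟩
  have e3 : X + u * X * u = -((c • 1 + d • u) * w) := by
    rw [← e2, hXm, mul_assoc (X + u * X * u) w w, ww, mul_neg, mul_one, neg_neg]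
  have hX : (2 : F) • X = (a • 1 + b • u) + -((c • 1 + d • u) * w) := by
    rw [← e1, ← e3, hXp, two_smul]; abel
  calc X = (2 : F)⁻¹ • ((2 : F) • X) := by rw [smul_smul, inv_mul_cancel₀ h2, one_smul]
    _ = _ := by
      rw [hX, add_mul, smul_mul_assoc, smul_mul_assoc, one_mul]
      simp only [smul_add, smul_neg, smul_smul, neg_div, neg_smul, div_eq_inv_mul, mul_neg]
      abel

/-- A matrix commuting with the pair is scalar. -/
theorem scalar_of_commute (h2 : (2 : F) ≠ 0) {Q : Subgroup SLF} (P : QPair Q) {X : M₂}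
    (h1 : X * (P.u : M₂) = P.u * X) (h2' : X * (P.w : M₂) = P.w * X) : ∃ c : F, X = c • 1 := by
  obtain ⟨a, b, e⟩ := CfsgLib.SymSylow.WreathNorm.exists_poly (fun c => not_scalar_of_sq h2 P.uu c) h1
  refine ⟨a, ?_⟩
  have uw : (P.u : M₂) * P.w = -(P.w * P.u) := by
    have := congrArg (fun z : SLF => (z : M₂)) P.uw
    simpa using this
  rw [e, add_mul, mul_add, smul_mul_assoc, mul_smul_comm, one_mul, mul_one, smul_mul_assoc,
    mul_smul_comm, uw, smul_neg, add_right_inj] at h2'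
  have h4 : (2 * b) • ((P.w : M₂) * P.u) = 0 := by
    rw [mul_smul, two_smul]
    nth_rewrite 1 [← h2']
    exact neg_add_cancel _
  rcases eq_or_ne b 0 with rfl | hb
  · simp [e]
  · exfalso
    rw [smul_eq_zero_iff_right (mul_ne_zero h2 hb)] at h4
    have := congrArg Matrix.det h4
    simp [Matrix.det_mul] at this

theorem commute_Q_eq (h2 : (2 : F) ≠ 0) {Q : Subgroup SLF} (P : QPair Q) {x : SLF}
    (h1 : x * P.u = P.u * x) (h2' : x * P.w = P.w * x) : x = 1 ∨ x = -1 := by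
  obtain ⟨c, hc⟩ := scalar_of_commute h2 P (congrArg (fun z : SLF => (z : M₂)) h1)
    (congrArg (fun z : SLF => (z : M₂)) h2')
  have hd := x.2
  rw [hc, Matrix.det_smul] at hd
  simp only [Fintype.card_fin, Matrix.det_one, mul_one] at hd
  rcases sq_eq_one_iff.1 hd with rfl | rfl
  · exact Or.inl (Subtype.ext (by rw [hc, one_smul]; rfl))
  · exact Or.inr (Subtype.ext (by rw [hc, neg_one_smul]; rfl))

/-- The trace form is nondegenerate on the pair. -/
theorem eq_zero_of_trace (h2 : (2 : F) ≠ 0) {Q : Subgroup SLF} (P : QPair Q) {X : M₂}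
    (h : ∀ b : SLF, b ∈ Q → (X * (b : M₂)).trace = 0) : X = 0 := by
  refine Matrix.ext fun i j => ?_
  obtain ⟨a, b, c, d, e⟩ := decomp h2 P (Matrix.single j i (1 : F))
  have h1 : (X * Matrix.single j i (1 : F)).trace = 0 := by
    rw [e]
    have := h 1 Q.one_mem
    have := h _ P.hu
    have := h _ P.hw
    have := h _ (Q.mul_mem P.hu P.hw)
    simp_all [mul_add, Matrix.trace_add, mul_smul_comm, Matrix.trace_smul]
  simpa [Matrix.trace, Matrix.mul_apply, Matrix.single_apply, Finset.sum_ite_eq, ite_and,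
    Finset.sum_comm] using h1

/-- An element of order four of a Sylow 2-subgroup. -/
theorem exists_sq_neg_one (h2 : (2 : F) ≠ 0) (Q : Sylow 2 SLF) :
    ∃ a ∈ (Q : Subgroup SLF), a * a = -1 := by
  obtain ⟨k, hk, ⟨e⟩⟩ := sylow_two_quaternion h2 Q
  haveI : NeZero (2 ^ k) := ⟨by positivity⟩
  set t := e.symm (QuaternionGroup.xa 0) with ht
  have ho : orderOf (t : SLF) = 4 := by
    rw [Subgroup.orderOf_coe, ht, MulEquiv.orderOf_eq, QuaternionGroup.orderOf_xa]
  refine ⟨(t : SLF), t.2, eq_neg_one_of_mul_self h2 (fun h => ?_) ?_⟩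
  · have := Nat.le_of_dvd (by norm_num) (orderOf_dvd_of_pow_eq_one (show (t : SLF) ^ 2 = 1 by rw [pow_two, h]))
    omega
  · rw [← pow_two, ← pow_two, ← pow_mul, show 2 * 2 = orderOf (t : SLF) by rw [ho], pow_orderOf_eq_one]

theorem neg_one_mem (h2 : (2 : F) ≠ 0) (Q : Sylow 2 SLF) : (-1 : SLF) ∈ (Q : Subgroup SLF) := by
  obtain ⟨a, ha, e⟩ := exists_sq_neg_one h2 Q
  exact e ▸ mul_mem ha ha

theorem mem_sylow_of_pow_mem (Q : Sylow 2 SLF) {m : SLF}
    (hm : m ∈ Subgroup.normalizer ((Q : Subgroup SLF) : Set SLF)) {k : ℕ}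
    (hk : m ^ 2 ^ k ∈ (Q : Subgroup SLF)) : m ∈ (Q : Subgroup SLF) := by
  haveI : Fact (Nat.Prime 2) := ⟨Nat.prime_two⟩
  obtain ⟨l, hl⟩ := Q.isPGroup' ⟨_, hk⟩
  have h1 : m ^ 2 ^ (k + l) = 1 := by
    rw [pow_add, pow_mul]; exact congrArg Subtype.val hl
  have hz : IsPGroup 2 (Subgroup.zpowers m) := by
    obtain ⟨i, -, hi⟩ := (Nat.dvd_prime_pow Nat.prime_two).1 (orderOf_dvd_of_pow_eq_one h1)
    exact IsPGroup.of_card (by rw [Nat.card_zpowers, hi])
  exact ((IsPGroup.inf_normalizer_sylow hz Q).le ⟨Subgroup.mem_zpowers m, hm⟩).2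

section eight

variable (hq : Fintype.card F % 8 = 3 ∨ Fintype.card F % 8 = 5)
include hq

theorem sylow_pmk (Q : Sylow 2 SLF) :
    Nat.card ((Q : Subgroup SLF).map pmk) = 4 ∧ ∀ v ∈ (Q : Subgroup SLF).map pmk, v * v = 1 :=
  SymSylow.PSLTwoFour.sylow_four hq (Q.mapSurjective pmk_surjective)

theorem exists_qPair (Q : Sylow 2 SLF) : Nonempty (QPair (Q : Subgroup SLF)) := by
  have h2 := SymSylow.PSLTwoFour.two_ne hq
  obtain ⟨hc, hexp⟩ := sylow_pmk hq Q
  obtain ⟨v, w, hv, hw, hv1, hw1, hvw⟩ := SymSylow.PSLTwoFour.exists_two _ hc hexp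
  obtain ⟨u, hu, rfl⟩ := hv
  obtain ⟨w, hw', rfl⟩ := hw
  have sq : ∀ x ∈ (Q : Subgroup SLF), pmk x ≠ 1 → x * x = -1 := by
    intro x hx hx1
    rcases pmk_eq_one_iff.1 (show pmk (x * x) = 1 by rw [map_mul]; exact hexp _ ⟨x, hx, rfl⟩) with e | e
    · exfalso
      by_cases h1 : x = 1
      · exact hx1 (by rw [h1, map_one])
      · exact hx1 (by rw [eq_neg_one_of_mul_self h2 h1 e]; exact pmk_eq_one_iff.2 (Or.inr rfl))
    · exact e
  have uu := sq u hu hv1
  have ww := sq w hw' hw1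
  have huw : pmk (u * w) ≠ 1 := by
    rw [map_mul]
    intro e
    refine hvw ((eq_inv_of_mul_eq_one_left e).trans ?_)
    exact inv_eq_of_mul_eq_one_right (hexp _ ⟨w, hw', rfl⟩)
  have uwuw := sq (u * w) (mul_mem hu hw') huw
  refine ⟨⟨u, w, hu, hw', uu, ww, ?_⟩⟩
  have e1 : (u * w)⁻¹ = -(u * w) := inv_of_sq uwuw
  rw [_root_.mul_inv_rev, inv_of_sq uu, inv_of_sq ww, neg_mul_neg] at e1
  rw [e1, neg_neg]

theorem mem_cases (Q : Sylow 2 SLF) (P : QPair (Q : Subgroup SLF)) {x : SLF}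
    (hx : x ∈ (Q : Subgroup SLF)) : x = 1 ∨ x = -1 ∨ x = P.u ∨ x = -P.u ∨ x = P.w ∨ x = -P.w ∨
      x = P.u * P.w ∨ x = -(P.u * P.w) := by
  have h2 := SymSylow.PSLTwoFour.two_ne hq
  obtain ⟨hc, hexp⟩ := sylow_pmk hq Q
  have hne : ∀ y : SLF, y * y = -1 → pmk y ≠ 1 := fun y hy e => by
    rcases pmk_eq_one_iff.1 e with rfl | rfl <;> exact neg_one_ne_one h2 (by simpa using hy.symm)
  have huw : pmk P.u ≠ pmk P.w := fun e => by
    rcases pmk_eq_iff.1 e with h | h
    · exact neg_one_ne_one h2 (by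
        have := P.uw
        rw [h, P.ww, neg_neg] at this
        exact this)
    · exact neg_one_ne_one h2 (by
        have := P.uw
        rw [h] at this
        simp only [neg_mul, mul_neg, P.ww, neg_neg] at this
        exact this.symm)
  rcases SymSylow.PSLTwoFour.four_elems _ hc ⟨P.u, P.hu, rfl⟩ ⟨P.w, P.hw, rfl⟩ (hne _ P.uu) (hne _ P.ww)
    huw (hexp _ ⟨P.u, P.hu, rfl⟩) (pmk x) ⟨x, hx, rfl⟩ with e | e | e | e
  · rcases pmk_eq_one_iff.1 e with h | h
    · exact Or.inl h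
    · exact Or.inr (Or.inl h)
  · rcases pmk_eq_iff.1 e with h | h
    · exact Or.inr (Or.inr (Or.inl h))
    · exact Or.inr (Or.inr (Or.inr (Or.inl h)))
  · rcases pmk_eq_iff.1 e with h | h
    · exact Or.inr (Or.inr (Or.inr (Or.inr (Or.inl h))))
    · exact Or.inr (Or.inr (Or.inr (Or.inr (Or.inr (Or.inl h)))))
  · rw [← map_mul] at e
    rcases pmk_eq_iff.1 e with h | h
    · exact Or.inr (Or.inr (Or.inr (Or.inr (Or.inr (Or.inr (Or.inl h))))))
    · exact Or.inr (Or.inr (Or.inr (Or.inr (Or.inr (Or.inr (Or.inr h))))))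

theorem card_sylow (Q : Sylow 2 SLF) : Nat.card (Q : Subgroup SLF) ∣ 8 := by
  have h2 := SymSylow.PSLTwoFour.two_ne hq
  have := card_map_pmk h2 (Q : Subgroup SLF) (neg_one_mem h2 Q)
  obtain ⟨hc, -⟩ := sylow_pmk hq Q
  rw [hc] at this
  exact ⟨1, by omega⟩

/-- Elements fixing a pair of axes normalize `Q`. -/
theorem mem_normalizer_of (Q : Sylow 2 SLF) (P : QPair (Q : Subgroup SLF)) {n : SLF}
    (hu : n * P.u * n⁻¹ ∈ (Q : Subgroup SLF)) (hw : n * P.w * n⁻¹ ∈ (Q : Subgroup SLF)) :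
    n ∈ Subgroup.normalizer ((Q : Subgroup SLF) : Set SLF) := by
  refine CfsgLib.SymSylow.mem_normalizer_of_conj_mem fun x hx => ?_
  have hm := neg_one_mem (SymSylow.PSLTwoFour.two_ne hq) Q
  have key : ∀ y : SLF, n * y * n⁻¹ ∈ (Q : Subgroup SLF) → n * (-y) * n⁻¹ ∈ (Q : Subgroup SLF) :=
    fun y hy => by
      rw [mul_neg, neg_mul, ← neg_one_mul (n * y * n⁻¹)]
      exact mul_mem hm hy
  have huw : n * (P.u * P.w) * n⁻¹ ∈ (Q : Subgroup SLF) := by
    rw [show n * (P.u * P.w) * n⁻¹ = n * P.u * n⁻¹ * (n * P.w * n⁻¹) by group]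
    exact mul_mem hu hw
  have h1 : n * 1 * n⁻¹ ∈ (Q : Subgroup SLF) := by simp
  rcases mem_cases hq Q P hx with rfl | rfl | rfl | rfl | rfl | rfl | rfl | rfl
  exacts [h1, key _ h1, hu, key _ hu, hw, key _ hw, huw, key _ huw]

/-- An element outside `Q` normalizing it. -/
theorem exists_omega (Q : Sylow 2 SLF) (P : QPair (Q : Subgroup SLF)) :
    ∃ ω : SLF, (ω : M₂) = (2 : F)⁻¹ • ((1 + (P.u : M₂)) * (1 + (P.w : M₂))) ∧
      ω ∈ Subgroup.normalizer ((Q : Subgroup SLF) : Set SLF) ∧ ω ∉ (Q : Subgroup SLF) := by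
  have h2 := SymSylow.PSLTwoFour.two_ne hq
  have dd : ∀ x : SLF, x * x = -1 → (1 + (x : M₂)).det = 2 := by
    intro x hx
    have ht : tr x = 0 := mul_self_eq_neg_one_iff.1 hx
    rw [tr_eq_trace] at ht
    have hd := x.2
    simp only [Matrix.trace_fin_two] at ht
    simp only [Matrix.det_fin_two] at hd
    simp [Matrix.det_fin_two]
    linear_combination ht + hd
  set u : M₂ := (P.u : M₂) with hu
  set w : M₂ := (P.w : M₂) with hw
  have uu : u * u = -1 := coe_sq P.uu
  have ww : w * w = -1 := coe_sq P.ww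
  have uw : u * w = -(w * u) := by
    have := congrArg (fun z : SLF => (z : M₂)) P.uw
    simpa [hu, hw] using this
  have hdet : ((2 : F)⁻¹ • ((1 + u) * (1 + w))).det = 1 := by
    rw [Matrix.det_smul, Matrix.det_mul, dd _ P.uu, dd _ P.ww]
    simp only [Fintype.card_fin]
    field_simp
  set ω : SLF := ⟨_, hdet⟩ with hω
  have cu : ω * P.u = P.w * ω := by
    refine Subtype.ext ?_
    show (2 : F)⁻¹ • ((1 + u) * (1 + w)) * u = w * ((2 : F)⁻¹ • ((1 + u) * (1 + w)))
    rw [smul_mul_assoc, mul_smul_comm]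
    congr 1
    have wu : w * u = -(u * w) := by rw [uw, neg_neg]
    have e1 : (1 + u) * (1 + w) * u = u + w - u * w - 1 := by
      rw [mul_assoc, add_mul 1 w u, one_mul, wu, add_mul 1 u, one_mul, mul_add u, uu, mul_neg,
        ← mul_assoc u u w, uu, neg_one_mul, neg_neg]
      abel
    have e2 : w * ((1 + u) * (1 + w)) = u + w - u * w - 1 := by
      rw [← mul_assoc, mul_add w 1 u, mul_one, wu, add_mul w, mul_add, mul_add, mul_one, mul_one, ww,
        neg_mul, mul_assoc u w w, ww, mul_neg_one, neg_neg]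
      abel
    rw [e1, e2]
  have cw : ω * P.w = (P.u * P.w) * ω := by
    refine Subtype.ext ?_
    show (2 : F)⁻¹ • ((1 + u) * (1 + w)) * w = (u * w) * ((2 : F)⁻¹ • ((1 + u) * (1 + w)))
    rw [smul_mul_assoc, mul_smul_comm]
    congr 1
    have wu : w * u = -(u * w) := by rw [uw, neg_neg]
    have e1 : (1 + u) * (1 + w) * w = w + u * w - (1 + u) := by
      rw [mul_assoc, add_mul 1 w w, one_mul, ww, mul_add, add_mul, one_mul, mul_neg_one]
      abel
    have e2 : u * w * ((1 + u) * (1 + w)) = w + u * w - (1 + u) := by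
      have e3 : u * w * u = w := by rw [mul_assoc, wu, mul_neg, ← mul_assoc, uu, neg_one_mul, neg_neg]
      rw [← mul_assoc, mul_add (u * w) 1 u, mul_one, e3, mul_add, mul_one, add_mul, mul_assoc u w w, ww,
        mul_neg_one]
      abel
    rw [e1, e2]
  refine ⟨ω, rfl, mem_normalizer_of hq Q P ?_ ?_, ?_⟩
  · rw [cu, mul_inv_cancel_right]; exact P.hw
  · rw [cw, mul_inv_cancel_right]; exact mul_mem P.hu P.hw
  · intro hQ
    have h1 : pmk P.u = pmk P.w := by
      obtain ⟨hc, hexp⟩ := sylow_pmk hq Q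
      have hcomm : ∀ a ∈ (Q : Subgroup SLF).map pmk, ∀ b ∈ (Q : Subgroup SLF).map pmk, a * b = b * a := by
        intro a ha b hb
        calc a * b = (a * b)⁻¹ := eq_inv_of_mul_eq_one_left (hexp _ (mul_mem ha hb))
          _ = b * a := by
            rw [_root_.mul_inv_rev, inv_eq_of_mul_eq_one_right (hexp _ ha), inv_eq_of_mul_eq_one_right (hexp _ hb)]
      have := congrArg (pmk (F := F)) cu
      rw [map_mul, map_mul, hcomm _ ⟨ω, hQ, rfl⟩ _ ⟨_, P.hu, rfl⟩] at this
      exact mul_right_cancel this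
    rcases pmk_eq_iff.1 h1 with h | h
    · exact neg_one_ne_one h2 (by
        have := P.uw
        rw [h, P.ww, neg_neg] at this
        exact this)
    · exact neg_one_ne_one h2 (by
        have := P.uw
        rw [h] at this
        simp only [neg_mul, mul_neg, P.ww, neg_neg] at this
        exact this.symm)

/-- `N(Q)/Q` has order at most three. -/
theorem normalizer_quot_card (Q : Sylow 2 SLF) :
    Nat.card (↥(Subgroup.normalizer ((Q : Subgroup SLF) : Set SLF)) ⧸
      (Q : Subgroup SLF).subgroupOf (Subgroup.normalizer ((Q : Subgroup SLF) : Set SLF))) ≤ 3 := by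
  classical
  have h2 := SymSylow.PSLTwoFour.two_ne hq
  obtain ⟨P⟩ := exists_qPair hq Q
  obtain ⟨hc, hexp⟩ := sylow_pmk hq Q
  set N := Subgroup.normalizer ((Q : Subgroup SLF) : Set SLF)
  set S := (Q : Subgroup SLF).map (pmk (F := F)) with hS
  have hcomm : ∀ a ∈ S, ∀ b ∈ S, a * b = b * a := by
    intro a ha b hb
    calc a * b = (a * b)⁻¹ := eq_inv_of_mul_eq_one_left (hexp _ (mul_mem ha hb))
      _ = b * a := by
        rw [_root_.mul_inv_rev, inv_eq_of_mul_eq_one_right (hexp _ ha), inv_eq_of_mul_eq_one_right (hexp _ hb)]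
  set v := pmk P.u
  have hvS : v ∈ S := ⟨_, P.hu, rfl⟩
  have hv1 : v ≠ 1 := fun e => by
    rcases pmk_eq_one_iff.1 e with h | h <;>
      exact neg_one_ne_one h2 (by simpa [h] using P.uu.symm)
  have hN : ∀ n : N, pmk (n : SLF) * v * (pmk (n : SLF))⁻¹ ∈ S ∧ pmk (n : SLF) * v * (pmk (n : SLF))⁻¹ ≠ 1 := by
    intro n
    refine ⟨⟨(n : SLF) * P.u * (n : SLF)⁻¹, (Subgroup.mem_normalizer_iff.1 n.2 _).1 P.hu, by simp [v]⟩, fun e => hv1 ?_⟩
    simpa [mul_assoc] using congrArg (fun z => (pmk (n : SLF))⁻¹ * z * pmk (n : SLF)) e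
  let f : N ⧸ (Q : Subgroup SLF).subgroupOf N → {x : S // (x : _) ≠ (1 : Matrix.ProjectiveSpecialLinearGroup (Fin 2) F)} :=
    Quotient.lift (fun n : N => ⟨⟨_, (hN n).1⟩, (hN n).2⟩) (by
      intro a b hab
      have hab' : (a⁻¹ * b : N) ∈ (Q : Subgroup SLF).subgroupOf N := QuotientGroup.leftRel_apply.1 hab
      refine Subtype.ext (Subtype.ext ?_)
      show pmk (a : SLF) * v * (pmk (a : SLF))⁻¹ = pmk (b : SLF) * v * (pmk (b : SLF))⁻¹
      have hq' : pmk ((a : SLF)⁻¹ * (b : SLF)) ∈ S := ⟨_, hab', rfl⟩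
      have := hcomm _ hq' _ hvS
      rw [map_mul, map_inv] at this
      calc pmk (a : SLF) * v * (pmk (a : SLF))⁻¹
          = pmk (a : SLF) * (((pmk (a : SLF))⁻¹ * pmk (b : SLF)) * v) * (pmk (b : SLF))⁻¹ := by
            rw [this]; group
        _ = _ := by group)
  have hf : Function.Injective f := by
    rintro ⟨a⟩ ⟨b⟩ h
    have h' : pmk (a : SLF) * v * (pmk (a : SLF))⁻¹ = pmk (b : SLF) * v * (pmk (b : SLF))⁻¹ :=
      congrArg (fun z => ((z.1 : S) : Matrix.ProjectiveSpecialLinearGroup (Fin 2) F)) h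
    refine Quotient.sound (QuotientGroup.leftRel_apply.2 ?_)
    show (a : SLF)⁻¹ * (b : SLF) ∈ (Q : Subgroup SLF)
    have hm : pmk ((a : SLF)⁻¹ * (b : SLF)) ∈ S := by
      refine SymSylow.PSLTwoFour.mem_of_fix hq (Q.mapSurjective pmk_surjective) ?_ hvS hv1 ?_
      · refine CfsgLib.SymSylow.mem_normalizer_of_conj_mem ?_
        rintro _ ⟨s, hs, rfl⟩
        exact ⟨_, (Subgroup.mem_normalizer_iff.1 (N.mul_mem (N.inv_mem a.2) b.2) s).1 hs, by simp⟩
      · rw [map_mul, map_inv, show (pmk (a : SLF))⁻¹ * pmk (b : SLF) * v * ((pmk (a : SLF))⁻¹ * pmk (b : SLF))⁻¹ =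
          (pmk (a : SLF))⁻¹ * (pmk (b : SLF) * v * (pmk (b : SLF))⁻¹) * pmk (a : SLF) by group, ← h']
        group
    obtain ⟨s, hs, e⟩ := hm
    rcases pmk_eq_iff.1 e.symm with h | h
    · rw [h]; exact hs
    · rw [h, ← neg_one_mul s]; exact mul_mem (neg_one_mem h2 Q) hs
  haveI : Finite S := Nat.finite_of_card_ne_zero (by omega)
  refine (Nat.card_le_card_of_injective f hf).trans ?_
  haveI := Fintype.ofFinite S
  rw [Nat.card_eq_fintype_card]
  rw [Nat.card_eq_fintype_card] at hc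
  have := Fintype.card_subtype_lt (p := fun x : S => (x : Matrix.ProjectiveSpecialLinearGroup (Fin 2) F) ≠ 1)
    (x := 1) (by simp)
  omega

/-- Commutators in `N(Q)` lie in `Q`. -/
theorem commutator_mem (Q : Sylow 2 SLF) {a b : SLF}
    (ha : a ∈ Subgroup.normalizer ((Q : Subgroup SLF) : Set SLF))
    (hb : b ∈ Subgroup.normalizer ((Q : Subgroup SLF) : Set SLF)) : ⁅a, b⁆ ∈ (Q : Subgroup SLF) := by
  set N := Subgroup.normalizer ((Q : Subgroup SLF) : Set SLF)
  set K := (Q : Subgroup SLF).subgroupOf N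
  have hle : Nat.card (N ⧸ K) ≤ 3 := normalizer_quot_card hq Q
  have hpos : 0 < Nat.card (N ⧸ K) := Nat.card_pos
  haveI : IsCyclic (N ⧸ K) := by
    rcases (by omega : Nat.card (N ⧸ K) = 1 ∨ Nat.card (N ⧸ K) = 2 ∨ Nat.card (N ⧸ K) = 3) with h | h | h
    · haveI : Subsingleton (N ⧸ K) := (Nat.card_eq_one_iff_unique.1 h).1
      infer_instance
    · haveI : Fact (Nat.Prime 2) := ⟨Nat.prime_two⟩
      exact isCyclic_of_prime_card h
    · haveI : Fact (Nat.Prime 3) := ⟨Nat.prime_three⟩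
      exact isCyclic_of_prime_card h
  letI := IsCyclic.commGroup (α := N ⧸ K)
  have h1 : QuotientGroup.mk' K ⁅(⟨a, ha⟩ : N), (⟨b, hb⟩ : N)⁆ = 1 := by
    rw [map_commutatorElement, commutatorElement_eq_one_iff_mul_comm]
    exact mul_comm _ _
  have h3 := (QuotientGroup.eq_one_iff (N := K) _).1 h1
  exact h3

/-- An element of order four normalizing `Q` lies in `Q`. -/
theorem mem_of_sq (Q : Sylow 2 SLF) {α : SLF}
    (hn : α ∈ Subgroup.normalizer ((Q : Subgroup SLF) : Set SLF)) (h : α * α = -1) :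
    α ∈ (Q : Subgroup SLF) :=
  mem_sylow_of_pow_mem Q hn (k := 1) (by
    rw [pow_one, pow_two, h]; exact neg_one_mem (SymSylow.PSLTwoFour.two_ne hq) Q)

end eight

/-- For `q ≡ ±1 (mod 8)` the Sylow 2-subgroups are self-normalizing. -/
theorem normalizer_eq (hodd : Odd (Fintype.card F))
    (hq : ¬ (Fintype.card F % 8 = 3 ∨ Fintype.card F % 8 = 5)) (Q : Sylow 2 SLF) {n : SLF}
    (hn : n ∈ Subgroup.normalizer ((Q : Subgroup SLF) : Set SLF)) : n ∈ (Q : Subgroup SLF) := by
  haveI : Fact (Nat.Prime 2) := ⟨Nat.prime_two⟩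
  have h2 : (2 : F) ≠ 0 := two_ne_zero_iff_odd.2 hodd
  obtain ⟨k, hk, ⟨e⟩⟩ := sylow_two_quaternion h2 Q
  haveI : NeZero (2 ^ k) := ⟨by positivity⟩
  have hk2 : 2 ≤ k := by
    by_contra hlt
    have h16 : 2 ^ 4 ∣ Nat.card SLF := by
      have ho := Nat.odd_iff.1 hodd
      rw [card_SL]
      refine Dvd.dvd.mul_left ?_ _
      obtain ⟨j, hj⟩ : ∃ j, Fintype.card F = 8 * j + 1 ∨ Fintype.card F = 8 * j + 7 :=
        ⟨Fintype.card F / 8, by omega⟩
      rcases hj with hj | hj <;> rw [hj]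
      · exact ⟨4 * j * j + j, by
          rw [Nat.sub_eq_iff_eq_add (Nat.one_le_pow _ _ (by omega))]; ring⟩
      · exact ⟨4 * j * j + 7 * j + 3, by
          rw [Nat.sub_eq_iff_eq_add (Nat.one_le_pow _ _ (by omega))]; ring⟩
    have h := Q.pow_dvd_card_of_pow_dvd_card h16
    rw [Nat.card_congr e.toEquiv, Nat.card_eq_fintype_card, QuaternionGroup.card,
      show k = 1 by omega] at h
    norm_num at h
  set x : SLF := (e.symm (QuaternionGroup.a 1) : SLF) with hx
  have hxQ : x ∈ (Q : Subgroup SLF) := (e.symm _).2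
  set y : SLF := (e.symm (QuaternionGroup.xa 0) : SLF) with hy
  have hyQ : y ∈ (Q : Subgroup SLF) := (e.symm _).2
  have ho : orderOf x = 2 * 2 ^ k := by
    rw [hx, Subgroup.orderOf_coe, MulEquiv.orderOf_eq, QuaternionGroup.orderOf_a_one]
  have h8 : 8 ≤ orderOf x := by
    rw [ho]
    have := Nat.pow_le_pow_right (show 0 < 2 by norm_num) hk2
    omega
  have hns : ∀ c : F, (x : M₂) ≠ c • 1 := by
    intro c hc
    have hd := x.2
    rw [hc, Matrix.det_smul] at hd
    simp only [Fintype.card_fin, Matrix.det_one, mul_one] at hd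
    have hxx : x ^ 2 = 1 := Subtype.ext (by
      rw [Matrix.SpecialLinearGroup.coe_pow, hc, smul_pow, one_pow, hd, one_smul,
        Matrix.SpecialLinearGroup.coe_one])
    have := Nat.le_of_dvd (by norm_num) (orderOf_dvd_of_pow_eq_one hxx)
    omega
  have ht4 : tr x ^ 2 ≠ 4 := by
    intro h
    obtain ⟨p, hp⟩ := CharP.exists F
    haveI : Fact p.Prime := ⟨CharP.char_is_prime F p⟩
    have hd := orderOf_dvd_of_pow_eq_one (pow_two_mul_char_eq_one (p := p) h)
    rw [ho] at hd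
    have h2p : 2 ^ k ∣ p := Nat.dvd_of_mul_dvd_mul_left (by norm_num) hd
    rcases (Nat.dvd_prime (Fact.out : p.Prime)).1 h2p with h' | h'
    · have := Nat.pow_le_pow_right (show 0 < 2 by norm_num) hk2; omega
    · have hp2 : 2 ∣ p := h' ▸ dvd_pow_self 2 (by omega)
      have : p = 2 := ((Nat.prime_dvd_prime_iff_eq Nat.prime_two (Fact.out : p.Prime)).1 hp2).symm
      subst this
      exact h2 CharTwo.two_eq_zero
  have yxy : y * x * y⁻¹ = x⁻¹ := by
    have : QuaternionGroup.xa (0 : ZMod (2 * 2 ^ k)) * QuaternionGroup.a 1 * (QuaternionGroup.xa 0)⁻¹ =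
        (QuaternionGroup.a 1)⁻¹ := by
      rw [mul_inv_eq_iff_eq_mul, eq_inv_mul_iff_mul_eq, ← mul_assoc]
      simp
    have h := congrArg (fun z => ((e.symm z : (Q : Subgroup SLF)) : SLF)) this
    simpa only [map_mul, map_inv, Subgroup.coe_mul, Subgroup.coe_inv, hx, hy] using h
  -- conjugates of `x` inside `Q`
  set z := n * x * n⁻¹ with hz
  have hzQ : z ∈ (Q : Subgroup SLF) := (Subgroup.mem_normalizer_iff.1 hn x).1 hxQ
  have hzo : orderOf z = orderOf x := (MulAut.conj n).orderOf_eq x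
  have hzc : (z : M₂) * x = x * z := by
    have hz' : orderOf (e ⟨z, hzQ⟩) = orderOf x := by
      rw [MulEquiv.orderOf_eq, Subgroup.orderOf_mk, hzo]
    cases hez : e ⟨z, hzQ⟩ with
    | xa i => rw [hez, QuaternionGroup.orderOf_xa] at hz'; omega
    | a i =>
      have hc : (⟨z, hzQ⟩ : (Q : Subgroup SLF)) * e.symm (QuaternionGroup.a 1) =
          e.symm (QuaternionGroup.a 1) * ⟨z, hzQ⟩ := by
        apply e.injective
        rw [map_mul, map_mul, hez, MulEquiv.apply_symm_apply]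
        simp [add_comm]
      have := congrArg (fun t : (Q : Subgroup SLF) => ((t : SLF) : M₂)) hc
      simpa using this
  obtain ⟨a, b, eab⟩ := SymSylow.WreathNorm.exists_poly hns hzc
  have hcases : z = x ∨ z = x⁻¹ := by
    have t1 : (z : M₂).trace = (x : M₂).trace := by
      rw [hz, Matrix.SpecialLinearGroup.coe_mul, Matrix.trace_mul_comm, ← Matrix.SpecialLinearGroup.coe_mul,
        show n⁻¹ * (n * x) = x by group]
    rw [tr_eq_trace] at ht4
    have d1 := z.2
    have d2 := x.2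
    rw [eab] at t1 d1
    simp only [Matrix.trace_fin_two, Matrix.det_fin_two, Matrix.add_apply, Matrix.smul_apply,
      Matrix.one_apply, smul_eq_mul] at t1 d1 d2 ht4
    simp at t1 d1
    have hb : b * b = 1 := by
      refine mul_right_cancel₀ (sub_ne_zero.2 ht4) ?_
      linear_combination (-4 : F) * d1 + (4 * b * b) * d2 +
        (2 * a + ((x : M₂) 0 0 + (x : M₂) 1 1) * (b + 1)) * t1
    rcases mul_self_eq_one_iff.1 hb with rfl | rfl
    · have ha : a = 0 := mul_left_cancel₀ h2 (by linear_combination t1)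
      exact Or.inl (Subtype.ext (by rw [eab, ha, zero_smul, zero_add, one_smul]))
    · have ha : a = (x : M₂) 0 0 + (x : M₂) 1 1 := mul_left_cancel₀ h2 (by linear_combination t1)
      refine Or.inr (Subtype.ext ?_)
      rw [eab, ha, Matrix.SpecialLinearGroup.coe_inv, Matrix.adjugate_fin_two]
      ext i j
      fin_cases i <;> fin_cases j <;> simp
  -- reduce to an element commuting with `x`
  obtain ⟨m, hm, hmn, hmx⟩ : ∃ m, m ∈ Subgroup.normalizer ((Q : Subgroup SLF) : Set SLF) ∧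
      (m ∈ (Q : Subgroup SLF) → n ∈ (Q : Subgroup SLF)) ∧ m * x = x * m := by
    rcases hcases with h | h
    · exact ⟨n, hn, id, mul_inv_eq_iff_eq_mul.1 (hz ▸ h)⟩
    · refine ⟨y * n, mul_mem (Subgroup.le_normalizer hyQ) hn, fun h' => ?_, mul_inv_eq_iff_eq_mul.1 ?_⟩
      · simpa using mul_mem (inv_mem hyQ) h'
      · calc y * n * x * (y * n)⁻¹ = y * z * y⁻¹ := by rw [hz]; group
          _ = (y * x * y⁻¹)⁻¹ := by rw [h]; group
          _ = x := by rw [yxy, inv_inv]
  refine hmn (mem_sylow_of_pow_mem Q hm (k := 1) ?_)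
  obtain ⟨a', b', em⟩ := SymSylow.WreathNorm.exists_poly hns
    (congrArg (fun t : SLF => (t : M₂)) hmx)
  have hym : y * m * y⁻¹ = m⁻¹ := by
    have e1 : (y : M₂) * x * ((y⁻¹ : SLF) : M₂) = ((x⁻¹ : SLF) : M₂) := by
      rw [← Matrix.SpecialLinearGroup.coe_mul, ← Matrix.SpecialLinearGroup.coe_mul, yxy]
    have e2 : (y : M₂) * ((y⁻¹ : SLF) : M₂) = 1 := by
      rw [← Matrix.SpecialLinearGroup.coe_mul, mul_inv_cancel, Matrix.SpecialLinearGroup.coe_one]
    refine Subtype.ext ?_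
    rw [Matrix.SpecialLinearGroup.coe_mul, Matrix.SpecialLinearGroup.coe_mul, Matrix.SpecialLinearGroup.coe_inv m,
      em, mul_add, add_mul, mul_smul_comm, mul_smul_comm, smul_mul_assoc, smul_mul_assoc, mul_one, e1, e2,
      Matrix.SpecialLinearGroup.coe_inv x, Matrix.adjugate_fin_two, Matrix.adjugate_fin_two]
    ext i j
    fin_cases i <;> fin_cases j <;> simp [Matrix.one_apply]
  have h1 : m * y * m⁻¹ = m ^ 2 * y := by
    have : y * m⁻¹ = m * y := by
      rw [← hym]
      have h5 : y * (y * m * y⁻¹) = y * y * m * y⁻¹ := by group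
      rw [h5]
      have hyy : y * y = -1 := by
        have ho4 : orderOf y = 4 := by
          rw [hy, Subgroup.orderOf_coe, MulEquiv.orderOf_eq, QuaternionGroup.orderOf_xa]
        refine eq_neg_one_of_mul_self h2 (fun h => ?_) ?_
        · have := Nat.le_of_dvd (by norm_num) (orderOf_dvd_of_pow_eq_one (show y ^ 2 = 1 by rw [pow_two, h]))
          omega
        · rw [← pow_two, ← pow_two, ← pow_mul, show 2 * 2 = orderOf y by rw [ho4], pow_orderOf_eq_one]
      rw [hyy, inv_of_sq hyy]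
      simp
    rw [mul_assoc, this, ← mul_assoc, pow_two]
  have h2' := (Subgroup.mem_normalizer_iff.1 hm y).1 hyQ
  rw [h1] at h2'
  rw [pow_one]
  simpa using mul_mem h2' (inv_mem hyQ)

end CfsgLib.PronSymp
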