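import Mathlib

/-!
Matrices over `M₂(F)` with the adjugate as involution: vectors, reflections, and the pair of
reflections in a dihedral group generated by two non-conjugate reflections.
-/

set_option autoImplicit false
set_option linter.unusedSectionVars false
set_option linter.style.haveILetI false

namespace CfsgLib.PronSymp

open Matrix

variable {F : Type*} [Field F]

local notation "M₂" => Matrix (Fin 2) (Fin 2) F

/-- The adjugate as an additive map. -/
def adjHom : M₂ →+ M₂ where
  toFun := Matrix.adjugate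
  map_zero' := Matrix.adjugate_zero
  map_add' A B := by
    simp only [Matrix.adjugate_fin_two]
    ext i j
    fin_cases i <;> fin_cases j <;> simp <;> ring

theorem adj_add (A B : M₂) : adjugate (A + B) = adjugate A + adjugate B := adjHom.map_add A B

theorem adj_sub (A B : M₂) : adjugate (A - B) = adjugate A - adjugate B := adjHom.map_sub A B

theorem adj_smul (c : F) (A : M₂) : adjugate (c • A) = c • adjugate A := by
  rw [Matrix.adjugate_smul]; simp

theorem adj_adj (A : M₂) : adjugate (adjugate A) = A := by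
  rw [Matrix.adjugate_adjugate' A]; simp

section ads

variable {ι κ μ : Type*}

/-- The adjugate transpose. -/
def ads (A : Matrix ι κ M₂) : Matrix κ ι M₂ := fun j i => adjugate (A i j)

@[simp] theorem ads_apply (A : Matrix ι κ M₂) (j : κ) (i : ι) : ads A j i = adjugate (A i j) := rfl

theorem ads_ads (A : Matrix ι κ M₂) : ads (ads A) = A := by
  funext i j; exact adj_adj _

theorem ads_mul [Fintype κ] (A : Matrix ι κ M₂) (B : Matrix κ μ M₂) : ads (A * B) = ads B * ads A := by
  funext k i
  show adjugate ((A * B) i k) = _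
  rw [Matrix.mul_apply, Matrix.mul_apply]
  show adjHom _ = _
  rw [map_sum]
  exact Finset.sum_congr rfl fun l _ => Matrix.adjugate_mul_distrib _ _

theorem ads_add (A B : Matrix ι κ M₂) : ads (A + B) = ads A + ads B := by
  funext j i; exact adj_add _ _

theorem ads_sub (A B : Matrix ι κ M₂) : ads (A - B) = ads A - ads B := by
  funext j i; exact adj_sub _ _

theorem ads_smul (c : F) (A : Matrix ι κ M₂) : ads (c • A) = c • ads A := by
  funext j i; exact adj_smul _ _

theorem ads_diagonal [DecidableEq ι] (d : ι → M₂) :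
    ads (Matrix.diagonal d) = Matrix.diagonal fun i => adjugate (d i) := by
  funext i j
  rcases eq_or_ne j i with rfl | h
  · simp
  · rw [ads_apply, Matrix.diagonal_apply_ne _ h, Matrix.diagonal_apply_ne _ h.symm, Matrix.adjugate_zero]

@[simp] theorem ads_one [DecidableEq ι] : ads (1 : Matrix ι ι M₂) = 1 := by
  rw [← Matrix.diagonal_one, ads_diagonal]; simp

end ads

/-- A `1 × 1` matrix. -/
def sc (t : M₂) : Matrix (Fin 1) (Fin 1) M₂ := fun _ _ => t

@[simp] theorem sc_apply (t : M₂) (i j : Fin 1) : sc t i j = t := rfl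

theorem eq_sc (A : Matrix (Fin 1) (Fin 1) M₂) : A = sc (A 0 0) := by
  funext i j
  rw [Subsingleton.elim i 0, Subsingleton.elim j 0]
  rfl

theorem sc_mul (s t : M₂) : sc s * sc t = sc (s * t) := by
  funext i j; simp [Matrix.mul_apply]

theorem sc_one : sc (1 : M₂) = 1 := by
  funext i j; rw [Subsingleton.elim j i]; simp

theorem sc_smul (c : F) (t : M₂) : sc (c • t) = c • sc t := rfl

theorem ads_sc (t : M₂) : ads (sc t) = sc (adjugate t) := rfl

theorem sc_mul_adj (t : M₂) : sc t * sc (adjugate t) = t.det • (1 : Matrix (Fin 1) (Fin 1) M₂) := by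
  rw [sc_mul, Matrix.mul_adjugate, sc_smul, sc_one]

theorem sc_adj_mul (t : M₂) : sc (adjugate t) * sc t = t.det • (1 : Matrix (Fin 1) (Fin 1) M₂) := by
  rw [sc_mul, Matrix.adjugate_mul, sc_smul, sc_one]

variable {m : ℕ}

variable (F m) in
/-- Column vectors over `M₂(F)`. -/
abbrev Vec := Matrix (Fin m) (Fin 1) (Matrix (Fin 2) (Fin 2) F)

variable (F m) in
/-- The block matrix units. -/
abbrev BU := (Matrix (Fin m) (Fin m) (Matrix (Fin 2) (Fin 2) F))ˣ

theorem mul_sc_apply (v : Vec F m) (t : M₂) (i : Fin m) : (v * sc t) i 0 = v i 0 * t := by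
  rw [Matrix.mul_apply, Fin.sum_univ_one, sc_apply]

/-- The orthogonal projection to a vector. -/
def proj (v : Vec F m) : Matrix (Fin m) (Fin m) M₂ := v * ads v

theorem proj_apply (v : Vec F m) (i j : Fin m) : proj v i j = v i 0 * adjugate (v j 0) := by
  rw [proj, Matrix.mul_apply, Fin.sum_univ_one, ads_apply]

/-- The reflection in a vector. -/
def refl (v : Vec F m) : Matrix (Fin m) (Fin m) M₂ := 1 - (2 : F) • proj v

theorem proj_mul_self {v : Vec F m} (hv : ads v * v = 1) : proj v * proj v = proj v := by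
  rw [proj, Matrix.mul_assoc, ← Matrix.mul_assoc (ads v), hv, Matrix.one_mul]

theorem proj_mul_vec {v : Vec F m} (hv : ads v * v = 1) : proj v * v = v := by
  rw [proj, Matrix.mul_assoc, hv, Matrix.mul_one]

theorem refl_mul_self {v : Vec F m} (hv : ads v * v = 1) : refl v * refl v = 1 := by
  rw [refl, sub_mul, one_mul, mul_sub, mul_one, smul_mul_smul_comm, proj_mul_self hv]
  module

theorem ads_proj (v : Vec F m) : ads (proj v) = proj v := by rw [proj, ads_mul, ads_ads]

theorem ads_refl (v : Vec F m) : ads (refl v) = refl v := by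
  rw [refl, ads_sub, ads_one, ads_smul, ads_proj]

/-- The reflection as a unit. -/
def rU (v : Vec F m) (hv : ads v * v = 1) : BU F m :=
  ⟨refl v, refl v, refl_mul_self hv, refl_mul_self hv⟩

@[simp] theorem rU_val (v : Vec F m) (hv : ads v * v = 1) : (rU v hv : Matrix (Fin m) (Fin m) M₂) = refl v := rfl

theorem rU_mul_self (v : Vec F m) (hv : ads v * v = 1) : rU v hv * rU v hv = 1 :=
  Units.ext (refl_mul_self hv)

theorem proj_mul_sc {v : Vec F m} {t : M₂} : proj (v * sc t) = t.det • proj v := by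
  rw [proj, ads_mul, ads_sc, Matrix.mul_assoc, ← Matrix.mul_assoc (sc t), sc_mul_adj, Matrix.smul_mul,
    Matrix.one_mul, Matrix.mul_smul]
  rfl

theorem proj_eq_of_refl_eq (h2 : (2 : F) ≠ 0) {v w : Vec F m} (h : refl v = refl w) : proj v = proj w := by
  rw [refl, refl, sub_right_inj] at h
  have := congrArg (fun X => (2 : F)⁻¹ • X) h
  simpa [smul_smul, inv_mul_cancel₀ h2] using this

section pair

variable {u v : Vec F m}

/-- A combination of `1` and products of two projections. -/
def comb (u v : Vec F m) (b c d e : F) : Matrix (Fin m) (Fin m) M₂ :=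
  1 + b • proj u + c • proj v + d • (proj u * proj v) + e • (proj v * proj u)

variable (hu : ads u * u = 1) (hv : ads v * v = 1)

/-- The inner product. -/
def inner' (u v : Vec F m) : M₂ := (ads u * v) 0 0

theorem ads_mul_eq (u v : Vec F m) : ads u * v = sc (inner' u v) := eq_sc _

theorem ads_mul_eq' (u v : Vec F m) : ads v * u = sc (adjugate (inner' u v)) := by
  rw [← ads_sc, ← ads_mul_eq u v, ads_mul, ads_ads]

include hu hv

theorem proj_right (X : Vec F m) : proj u * X = u * (ads u * X) := Matrix.mul_assoc _ _ _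

theorem aba : proj u * proj v * proj u = (inner' u v).det • proj u := by
  calc proj u * proj v * proj u = u * ((ads u * v) * (ads v * u)) * ads u := by
        simp only [proj, Matrix.mul_assoc]
    _ = _ := by
      rw [ads_mul_eq u v, ads_mul_eq' u v, sc_mul_adj, Matrix.mul_smul, Matrix.mul_one, Matrix.smul_mul, proj]

theorem bab : proj v * proj u * proj v = (inner' u v).det • proj v := by
  calc proj v * proj u * proj v = v * ((ads v * u) * (ads u * v)) * ads v := by
        simp only [proj, Matrix.mul_assoc]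
    _ = _ := by
      rw [ads_mul_eq u v, ads_mul_eq' u v, sc_adj_mul, Matrix.mul_smul, Matrix.mul_one, Matrix.smul_mul, proj]

theorem comb_mul_left_refl (b c d e : F) :
    comb u v b c d e * refl u =
      comb u v (-2 - b - 2 * d * (inner' u v).det) c d (-2 * c - e) := by
  have aa := proj_mul_self hu
  have h := aba hu hv
  simp only [comb, refl, add_mul, mul_sub, mul_one, smul_mul_assoc, Matrix.mul_smul, one_mul, aa, h,
    Matrix.mul_assoc (proj v) (proj u) (proj u)]
  module

theorem comb_mul_right_refl (b c d e : F) :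
    comb u v b c d e * refl v =
      comb u v b (-2 - c - 2 * e * (inner' u v).det) (-2 * b - d) e := by
  have bb := proj_mul_self hv
  have h := bab hu hv
  simp only [comb, refl, add_mul, mul_sub, mul_one, smul_mul_assoc, Matrix.mul_smul, one_mul, bb, h,
    Matrix.mul_assoc (proj u) (proj v) (proj v)]
  module

theorem exists_comb_pow (n : ℕ) :
    ∃ b c d e : F, (refl u * refl v) ^ n = comb u v b c d e := by
  induction n with
  | zero => exact ⟨0, 0, 0, 0, by simp [comb]⟩
  | succ n ih =>
    obtain ⟨b, c, d, e, h⟩ := ih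
    have e' : (refl u * refl v) ^ (n + 1) = comb u v b c d e * refl u * refl v := by
      rw [pow_succ, h, mul_assoc]
    rw [comb_mul_left_refl hu hv, comb_mul_right_refl hu hv] at e'
    exact ⟨_, _, _, _, e'⟩

theorem comb_mul_u (b c d e : F) :
    comb u v b c d e * u =
      (1 + b + d * (inner' u v).det) • u + (c + e) • (v * sc (adjugate (inner' u v))) := by
  have h1 := proj_mul_vec hu
  have h2 : proj v * u = v * sc (adjugate (inner' u v)) := by rw [proj, Matrix.mul_assoc, ads_mul_eq' u v]
  have h3 : proj u * proj v * u = (inner' u v).det • u := by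
    rw [Matrix.mul_assoc, h2, proj, Matrix.mul_assoc, ← Matrix.mul_assoc (ads u), ads_mul_eq u v, sc_mul_adj,
      Matrix.mul_smul, Matrix.mul_one]
  have h4 : proj v * proj u * u = v * sc (adjugate (inner' u v)) := by rw [Matrix.mul_assoc, h1, h2]
  simp only [comb, Matrix.add_mul, Matrix.smul_mul, Matrix.one_mul, h1, h2, h3, h4]
  module

theorem comb_mul_v (b c d e : F) :
    comb u v b c d e * v =
      (1 + c + e * (inner' u v).det) • v + (b + d) • (u * sc (inner' u v)) := by
  have h1 := proj_mul_vec hv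
  have h2 : proj u * v = u * sc (inner' u v) := by rw [proj, Matrix.mul_assoc, ads_mul_eq u v]
  have h3 : proj v * proj u * v = (inner' u v).det • v := by
    rw [Matrix.mul_assoc, h2, proj, Matrix.mul_assoc, ← Matrix.mul_assoc (ads v), ads_mul_eq' u v, sc_adj_mul,
      Matrix.mul_smul, Matrix.mul_one]
  have h4 : proj u * proj v * v = u * sc (inner' u v) := by rw [Matrix.mul_assoc, h1, h2]
  simp only [comb, Matrix.add_mul, Matrix.smul_mul, Matrix.one_mul, h1, h2, h3, h4]
  module

end pair

/-- In a dihedral group: the central involution and the two classes. -/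
theorem dihedral_central {G : Type*} [Group G] [Finite G] (H : Subgroup G) {x y : G} (hx : x ∈ H)
    (hy : y ∈ H) (hxx : x * x = 1) (hyy : y * y = 1) (hne : ∀ h ∈ H, h * x * h⁻¹ ≠ y) :
    ∃ s : ℕ, (x * y) ^ s ≠ 1 ∧ (x * y) ^ s * (x * y) ^ s = 1 ∧ Commute ((x * y) ^ s) x ∧
      Commute ((x * y) ^ s) y ∧
      (((∃ h ∈ H, h * x * h⁻¹ = x * (x * y) ^ s) ∧ ∃ h ∈ H, h * y * h⁻¹ = y * (x * y) ^ s) ∨
        ((∃ h ∈ H, h * y * h⁻¹ = x * (x * y) ^ s) ∧ ∃ h ∈ H, h * x * h⁻¹ = y * (x * y) ^ s)) := by
  set r := x * y with hr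
  have xi : x⁻¹ = x := inv_eq_of_mul_eq_one_right hxx
  have yi : y⁻¹ = y := inv_eq_of_mul_eq_one_right hyy
  have hrH : r ∈ H := H.mul_mem hx hy
  have key : ∀ k : ℕ, (∃ h ∈ H, h * x * h⁻¹ = r ^ (2 * k) * x) ∧ (∃ h ∈ H, h * y * h⁻¹ = r ^ (2 * k + 1) * x) := by
    intro k
    have step : ∀ (z : G), ∀ h, h * z * h⁻¹ = r ^ k * z * (r ^ k)⁻¹ → h * z * h⁻¹ = r ^ k * z * (r ^ k)⁻¹ :=
      fun _ _ e => e
    have hrx : ∀ j : ℕ, x * (r ^ j)⁻¹ = r ^ j * x := by
      intro j
      have e1 : x * r⁻¹ = r * x := by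
        rw [hr, _root_.mul_inv_rev, xi, yi]; simp only [mul_assoc]
      induction j with
      | zero => simp
      | succ j ih =>
        rw [pow_succ', _root_.mul_inv_rev, ← mul_assoc, ih, mul_assoc, e1, ← mul_assoc, ← pow_succ, pow_succ']
    refine ⟨⟨r ^ k, H.pow_mem hrH k, ?_⟩, ⟨r ^ k * x, H.mul_mem (H.pow_mem hrH k) hx, ?_⟩⟩
    · rw [mul_assoc, hrx, ← mul_assoc, ← pow_add, two_mul]
    · rw [_root_.mul_inv_rev, xi, show r ^ k * x * y * (x * (r ^ k)⁻¹) = r ^ k * (x * y) * (x * (r ^ k)⁻¹) by
        simp only [mul_assoc], hrx, ← hr, ← pow_succ, ← mul_assoc, ← pow_add]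
      congr 2
      omega
  have heven : Even (orderOf r) := by
    rw [← Nat.not_odd_iff_even]
    rintro ⟨l, hl⟩
    obtain ⟨⟨h, hh, he⟩, -⟩ := key l
    refine hne h hh ?_
    rw [he]
    have e1 : r ^ (2 * l) = r⁻¹ := by
      refine eq_inv_of_mul_eq_one_left ?_
      rw [← pow_succ, ← hl, pow_orderOf_eq_one]
    rw [e1, hr, _root_.mul_inv_rev, xi, yi, mul_assoc, hxx, mul_one]
  obtain ⟨s, hs⟩ := heven
  have hpos := orderOf_pos r
  have hz2 : r ^ s * r ^ s = 1 := by rw [← pow_add, ← hs, pow_orderOf_eq_one]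
  have hzi : (r ^ s)⁻¹ = r ^ s := inv_eq_of_mul_eq_one_right hz2
  have hzr : Commute (r ^ s) r := Commute.pow_self r s
  have hzx : r ^ s * x = x * r ^ s := by
    have : ∀ j : ℕ, x * r ^ j = (r ^ j)⁻¹ * x := by
      intro j
      have e1 : x * r = r⁻¹ * x := by
        rw [hr, _root_.mul_inv_rev, xi, yi]
        rw [mul_assoc y x x, hxx, mul_one, ← mul_assoc, hxx, one_mul]
      induction j with
      | zero => simp
      | succ j ih => rw [pow_succ, ← mul_assoc, ih, mul_assoc, e1, ← mul_assoc, ← _root_.mul_inv_rev, ← pow_succ', pow_succ]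
    rw [this s, hzi]
  have hy' : y = x * r := by rw [hr, ← mul_assoc, hxx, one_mul]
  have hzy : r ^ s * y = y * r ^ s := by
    rw [hy', ← mul_assoc, hzx, mul_assoc, hzr.eq, ← mul_assoc]
  refine ⟨s, fun h => ?_, hz2, hzx, hzy, ?_⟩
  · have := Nat.le_of_dvd (by omega) (orderOf_dvd_of_pow_eq_one h)
    omega
  have e1 : x * r ^ s = r ^ s * x := hzx.symm
  obtain ⟨s', rfl⟩ : ∃ s', s = s' + 1 := ⟨s - 1, by omega⟩
  have e2 : y * r ^ (s' + 1) = r ^ s' * x := by
    rw [← hzy, pow_succ, hr, mul_assoc, mul_assoc x y y, hyy, mul_one]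
  rcases Nat.even_or_odd s' with ⟨k, hk⟩ | ⟨k, hk⟩
  · right
    refine ⟨?_, ?_⟩
    · obtain ⟨h, hh, he⟩ := (key k).2
      exact ⟨h, hh, by rw [he, e1, hk]; congr 2; omega⟩
    · obtain ⟨h, hh, he⟩ := (key k).1
      exact ⟨h, hh, by rw [he, e2, hk]; congr 2; omega⟩
  · left
    refine ⟨?_, ?_⟩
    · obtain ⟨h, hh, he⟩ := (key (k + 1)).1
      exact ⟨h, hh, by rw [he, e1, hk]; congr 2⟩
    · obtain ⟨h, hh, he⟩ := (key k).2
      exact ⟨h, hh, by rw [he, e2, hk]⟩

variable [Fintype F]

/-- Two non-conjugate, non-commuting reflections give two more. -/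
theorem pair_refl (h2 : (2 : F) ≠ 0) (H : Subgroup (BU F m)) {u v : Vec F m} (hu : ads u * u = 1)
    (hv : ads v * v = 1) (huH : rU u hu ∈ H) (hvH : rU v hv ∈ H)
    (hne : ∀ h ∈ H, h * rU u hu * h⁻¹ ≠ rU v hv) (ha : inner' u v ≠ 0) :
    (inner' u v).det ≠ 1 ∧ ∀ t : M₂, t.det * (1 - (inner' u v).det) = 1 →
      ∃ (h1 : ads ((v - u * sc (inner' u v)) * sc t) * ((v - u * sc (inner' u v)) * sc t) = 1)
        (h1' : ads ((u - v * sc (adjugate (inner' u v))) * sc t) *
          ((u - v * sc (adjugate (inner' u v))) * sc t) = 1),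
        rU _ h1 ∈ H ∧ rU _ h1' ∈ H ∧
          (((∃ h ∈ H, h * rU u hu * h⁻¹ = rU _ h1) ∧ ∃ h ∈ H, h * rU v hv * h⁻¹ = rU _ h1') ∨
            ((∃ h ∈ H, h * rU v hv * h⁻¹ = rU _ h1) ∧ ∃ h ∈ H, h * rU u hu * h⁻¹ = rU _ h1')) := by
  obtain ⟨s, hz1, hz2, hzx, hzy, hcl⟩ :=
    dihedral_central H huH hvH (rU_mul_self u hu) (rU_mul_self v hv) hne
  set z := (rU u hu * rU v hv) ^ s with hz
  have hzH : z ∈ H := H.pow_mem (H.mul_mem huH hvH) s
  obtain ⟨b, c, d, e, hcomb⟩ := exists_comb_pow hu hv s
  have hzv : (z : Matrix (Fin m) (Fin m) M₂) = comb u v b c d e := by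
    rw [hz, Units.val_pow_eq_pow_val, Units.val_mul, rU_val, rU_val, hcomb]
  set Z := (z : Matrix (Fin m) (Fin m) M₂) with hZ
  set a := inner' u v with ha'
  set γ := a.det with hγ
  have hA : Z * proj u = proj u * Z := by
    have h := congrArg Units.val hzx.eq
    simp only [Units.val_mul, rU_val, refl, mul_sub, sub_mul, mul_one, one_mul, sub_right_inj,
      Matrix.mul_smul, smul_mul_assoc] at h
    exact smul_right_injective _ h2 h
  have hB : Z * proj v = proj v * Z := by
    have h := congrArg Units.val hzy.eq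
    simp only [Units.val_mul, rU_val, refl, mul_sub, sub_mul, mul_one, one_mul, sub_right_inj,
      Matrix.mul_smul, smul_mul_assoc] at h
    exact smul_right_injective _ h2 h
  have hneP : proj u ≠ proj v := by
    intro e
    refine hne 1 H.one_mem ?_
    rw [one_mul, inv_one, mul_one]
    exact Units.ext (by simp [refl, e])
  have zu := comb_mul_u hu hv b c d e
  have zv := comb_mul_v hu hv b c d e
  rw [← hzv] at zu zv
  -- `z u` is a multiple of `u`
  have li : v * sc (adjugate a) ≠ γ • u := by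
    intro e
    have h := congrArg (fun X => ads v * X) e
    simp only [← Matrix.mul_assoc, hv, Matrix.one_mul, Matrix.mul_smul, ads_mul_eq' u v, ← ha'] at h
    have hγ1 : γ = 1 := by
      by_contra hne1
      have h' : (1 - γ) • sc (adjugate a) = 0 := by rw [sub_smul, one_smul, ← h, sub_self]
      rw [smul_eq_zero_iff_right (sub_ne_zero.2 (Ne.symm hne1))] at h'
      have h'' := congrArg (fun X : Matrix (Fin 1) (Fin 1) M₂ => adjugate (X 0 0)) h'
      simp [adj_adj] at h''
      exact ha h''
    rw [hγ1, one_smul] at e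
    refine hneP ?_
    rw [← e, proj_mul_sc, Matrix.det_adjugate]
    simp [← hγ, hγ1]
  have li' : u * sc a ≠ γ • v := by
    intro e
    have h := congrArg (fun X => ads u * X) e
    simp only [← Matrix.mul_assoc, hu, Matrix.one_mul, Matrix.mul_smul, ads_mul_eq u v, ← ha'] at h
    have hγ1 : γ = 1 := by
      by_contra hne1
      have h' : (1 - γ) • sc a = 0 := by rw [sub_smul, one_smul, ← h, sub_self]
      rw [smul_eq_zero_iff_right (sub_ne_zero.2 (Ne.symm hne1))] at h'
      exact ha (congrFun (congrFun h' 0) 0)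
    rw [hγ1, one_smul] at e
    refine hneP ?_
    rw [← e, proj_mul_sc]
    simp [← hγ, hγ1]
  have hce : c + e = 0 := by
    by_contra hne'
    have h : Z * u = proj u * (Z * u) := by
      rw [← Matrix.mul_assoc, ← hA, Matrix.mul_assoc, proj_mul_vec hu]
    rw [zu, Matrix.mul_add, Matrix.mul_smul, Matrix.mul_smul, proj_mul_vec hu, add_right_inj] at h
    refine li (smul_right_injective _ hne' ?_)
    show (c + e) • (v * sc (adjugate a)) = (c + e) • (γ • u)
    rw [h, proj, Matrix.mul_assoc, ← Matrix.mul_assoc (ads u), ads_mul_eq u v, sc_mul_adj, Matrix.mul_smul,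
      Matrix.mul_one]
  have hbd : b + d = 0 := by
    by_contra hne'
    have h : Z * v = proj v * (Z * v) := by
      rw [← Matrix.mul_assoc, ← hB, Matrix.mul_assoc, proj_mul_vec hv]
    rw [zv, Matrix.mul_add, Matrix.mul_smul, Matrix.mul_smul, proj_mul_vec hv, add_right_inj] at h
    refine li' (smul_right_injective _ hne' ?_)
    show (b + d) • (u * sc a) = (b + d) • (γ • v)
    rw [h, proj, Matrix.mul_assoc, ← Matrix.mul_assoc (ads v), ads_mul_eq' u v, sc_adj_mul, Matrix.mul_smul,
      Matrix.mul_one]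
  rw [hce, zero_smul, add_zero] at zu
  rw [hbd, zero_smul, add_zero] at zv
  set α := 1 + b + d * γ with hα
  set β := 1 + c + e * γ with hβ
  have hab : α = β := by
    have h1 : ads u * (Z * v) = β • sc a := by rw [zv, Matrix.mul_smul, ads_mul_eq u v]
    have h2 : ads u * (Z * v) = α • sc a := by
      have : ads u * Z = α • ads u := by
        have h3 : ads u * Z = ads u * (proj u * Z) := by
          rw [← Matrix.mul_assoc, proj, ← Matrix.mul_assoc, hu, Matrix.one_mul]
        rw [h3, ← hA, proj, ← Matrix.mul_assoc Z, zu, Matrix.smul_mul, Matrix.mul_smul, ← Matrix.mul_assoc,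
          hu, Matrix.one_mul]
      rw [← Matrix.mul_assoc, this, Matrix.smul_mul, ads_mul_eq u v]
    rw [h1] at h2
    by_contra hne'
    have h' : (β - α) • sc a = 0 := by rw [sub_smul, h2, sub_self]
    rw [smul_eq_zero_iff_right (sub_ne_zero.2 (Ne.symm hne'))] at h'
    exact ha (congrFun (congrFun h' 0) 0)
  have hα2 : α * α = 1 := by
    have h : Z * (Z * u) = u := by
      rw [← Matrix.mul_assoc, hZ, ← Units.val_mul, hz2, Units.val_one, Matrix.one_mul]
    rw [zu, Matrix.mul_smul, zu, smul_smul] at h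
    have h' := congrArg (fun X => (ads u * X) 0 0 0 0) h
    simpa [Matrix.mul_smul, hu] using h'
  have hαm : α = -1 := by
    rcases mul_self_eq_one_iff.1 hα2 with hp | hm
    · exfalso
      refine hz1 (Units.ext ?_)
      show Z = 1
      have hPu : Z * proj u = proj u := by rw [proj, ← Matrix.mul_assoc, zu, hp, one_smul]
      have hPv : Z * proj v = proj v := by rw [proj, ← Matrix.mul_assoc, zv, ← hab, hp, one_smul]
      have hN : Z * (Z - 1) = Z - 1 := by
        rw [hzv, comb]
        rw [hzv, comb] at hPu hPv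
        generalize hX : (1 + b • proj u + c • proj v + d • (proj u * proj v) + e • (proj v * proj u)) = X at *
        conv_lhs => rw [← hX, Matrix.mul_sub]
        simp only [← hX, mul_one]
        rw [hX]
        nth_rewrite 2 [← hX]
        simp only [mul_add, mul_one, Matrix.mul_smul, ← Matrix.mul_assoc, hPu, hPv]
        rw [← hX]
        abel
      rw [Matrix.mul_sub, Matrix.mul_one, hZ, ← Units.val_mul, hz2, Units.val_one, ← hZ] at hN
      have h4 : (2 : F) • (Z - 1) = 0 := by
        rw [two_smul]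
        nth_rewrite 1 [← hN]
        abel
      exact sub_eq_zero.1 ((smul_eq_zero_iff_right h2).1 h4)
    · exact hm
  -- the explicit form
  have e1 : b = -d := eq_neg_of_add_eq_zero_left hbd
  have e2 : c = -e := eq_neg_of_add_eq_zero_left hce
  have e3 : d * (1 - γ) = 2 := by linear_combination hαm.symm.trans hα + e1
  have hγ1 : γ ≠ 1 := fun h => h2 (by rw [← e3, h, sub_self, mul_zero])
  have e4 : e = d := mul_right_cancel₀ (sub_ne_zero.2 (Ne.symm hγ1))
    (by linear_combination hab + e2 - e1)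
  refine ⟨hγ1, fun t ht => ?_⟩
  have n1 : ads (v - u * sc a) * (v - u * sc a) = (1 - γ) • 1 := by
    simp only [ads_sub, ads_mul, ads_sc, Matrix.sub_mul, Matrix.mul_sub, hv, ← Matrix.mul_assoc (ads v),
      Matrix.mul_assoc (sc (adjugate a)) (ads u), ← Matrix.mul_assoc (ads u) u, hu, ads_mul_eq u v, ads_mul_eq' u v,
      ← ha', Matrix.one_mul, sc_adj_mul, ← hγ]
    module
  have n2 : ads (u - v * sc (adjugate a)) * (u - v * sc (adjugate a)) = (1 - γ) • 1 := by
    simp only [ads_sub, ads_mul, ads_sc, adj_adj, Matrix.sub_mul, Matrix.mul_sub, hu, ← Matrix.mul_assoc (ads u),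
      Matrix.mul_assoc (sc a) (ads v), ← Matrix.mul_assoc (ads v) v, hv, ads_mul_eq u v, ads_mul_eq' u v,
      ← ha', Matrix.one_mul, sc_mul_adj, ← hγ]
    module
  have unit : ∀ w : Vec F m, ads w * w = (1 - γ) • 1 → ads (w * sc t) * (w * sc t) = 1 := by
    intro w hw
    rw [ads_mul, ads_sc, Matrix.mul_assoc, ← Matrix.mul_assoc (ads w), hw, Matrix.smul_mul, Matrix.one_mul,
      Matrix.mul_smul, sc_adj_mul, smul_smul, mul_comm, ht, one_smul]
  refine ⟨unit _ n1, unit _ n2, ?_⟩
  have ba : v * sc (adjugate a) * ads u = proj v * proj u := by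
    rw [← ads_mul_eq' u v]; simp only [proj, Matrix.mul_assoc]
  have ab : u * sc a * ads v = proj u * proj v := by
    rw [← ads_mul_eq u v]; simp only [proj, Matrix.mul_assoc]
  have p1 : proj (v - u * sc a) =
      proj v - proj u * proj v - proj v * proj u + γ • proj u := by
    rw [proj, ads_sub, ads_mul, ads_sc, Matrix.sub_mul, Matrix.mul_sub, Matrix.mul_sub, ← Matrix.mul_assoc v,
      ba, ab, Matrix.mul_assoc u (sc a), ← Matrix.mul_assoc (sc a), sc_mul_adj, Matrix.smul_mul, Matrix.one_mul,
      Matrix.mul_smul, ← hγ]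
    show proj v - _ - (_ - γ • proj u) = _
    abel
  have p2 : proj (u - v * sc (adjugate a)) =
      proj u - proj u * proj v - proj v * proj u + γ • proj v := by
    rw [proj, ads_sub, ads_mul, ads_sc, adj_adj, Matrix.sub_mul, Matrix.mul_sub, Matrix.mul_sub,
      ← Matrix.mul_assoc u, ab, ba, Matrix.mul_assoc v (sc (adjugate a)), ← Matrix.mul_assoc (sc (adjugate a)),
      sc_adj_mul, Matrix.smul_mul, Matrix.one_mul, Matrix.mul_smul, ← hγ]
    show proj u - _ - (_ - γ • proj v) = _
    abel
  have htd : t.det = (1 - γ)⁻¹ := eq_inv_of_mul_eq_one_left ht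
  have hd' : d = 2 * t.det := by
    rw [htd, ← e3, mul_assoc, mul_inv_cancel₀ (sub_ne_zero.2 (Ne.symm hγ1)), mul_one]
  have hZ' : Z = comb u v (-d) (-d) d d := by rw [hzv, e1, e2, e4]
  have aa := proj_mul_self hu
  have bb := proj_mul_self hv
  have r1 : refl ((v - u * sc a) * sc t) = refl u * Z := by
    rw [refl, proj_mul_sc, p1, hZ', refl, comb]
    simp only [sub_mul, mul_add, mul_one, one_mul, Matrix.mul_smul, smul_mul_assoc, aa,
      ← Matrix.mul_assoc, aba hu hv, ← hγ, ← ha']
    rw [hd']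
    match_scalars <;> first | ring1 | linear_combination (-2 : F) * ht
  have r2 : refl ((u - v * sc (adjugate a)) * sc t) = refl v * Z := by
    rw [refl, proj_mul_sc, p2, hZ', refl, comb]
    simp only [sub_mul, mul_add, mul_one, one_mul, Matrix.mul_smul, smul_mul_assoc, bb,
      ← Matrix.mul_assoc, bab hu hv, ← hγ, ← ha']
    rw [hd']
    match_scalars <;> first | ring1 | linear_combination (-2 : F) * ht
  have u1 : rU _ (unit _ n1) = rU u hu * z := Units.ext r1
  have u2 : rU _ (unit _ n2) = rU v hv * z := Units.ext r2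
  rw [u1, u2]
  exact ⟨H.mul_mem huH hzH, H.mul_mem hvH hzH, hcl⟩

end CfsgLib.PronSymp
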