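import Mathlib
import Cfsg.Agent.PronSymp.Vec
import Cfsg.Agent.PronSymp.SL2Part

/-!
Coordinates: standard vectors, block diagonal and permutation units, supports.
-/

set_option autoImplicit false
set_option linter.unusedSectionVars false
set_option linter.style.haveILetI false

namespace CfsgLib.PronSymp

open Matrix

variable {F : Type*} [Field F] {m : ℕ}

local notation "SLF" => Matrix.SpecialLinearGroup (Fin 2) F
local notation "M₂" => Matrix (Fin 2) (Fin 2) F

/-- The standard vectors. -/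
def std (k : Fin m) : Vec F m := fun i _ => if i = k then 1 else 0

theorem std_apply (k i : Fin m) :
    (std k : Vec F m) i 0 = (if i = k then 1 else 0 : M₂) := rfl

theorem std_unit (k : Fin m) : ads (std k : Vec F m) * (std k : Vec F m) = 1 := by
  rw [eq_sc (ads (std k) * std k), ← sc_one]
  congr 1
  rw [Matrix.mul_apply, Finset.sum_eq_single k]
  · simp [std]
  · intro b _ hb; simp [std, hb]
  · simp

theorem proj_std (k : Fin m) :
    proj (std (F := F) k) = Matrix.diagonal fun i => if i = k then 1 else 0 := by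
  refine Matrix.ext fun i j => ?_
  rw [proj_apply, std_apply, std_apply]
  rcases eq_or_ne i j with rfl | h
  · rw [Matrix.diagonal_apply_eq]
    split_ifs <;> simp
  · rw [Matrix.diagonal_apply_ne _ h]
    split_ifs with h1 h2 <;> simp
    exact h (h1.trans h2.symm)

/-- Block diagonal matrices with entries in `SL₂`. -/
def diagM : (Fin m → SLF) →* Matrix (Fin m) (Fin m) M₂ where
  toFun a := Matrix.diagonal fun i => (a i : M₂)
  map_one' := by simp [← Matrix.diagonal_one]
  map_mul' a b := by simp [Matrix.diagonal_mul_diagonal]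

/-- Block diagonal units. -/
def diagU : (Fin m → SLF) →* BU F m := (diagM (F := F) (m := m)).toHomUnits

@[simp] theorem diagU_val (a : Fin m → SLF) :
    (diagU a : Matrix (Fin m) (Fin m) M₂) = Matrix.diagonal fun i => (a i : M₂) := rfl

/-- Permutation matrices. -/
def permM : Equiv.Perm (Fin m) →* Matrix (Fin m) (Fin m) M₂ where
  toFun σ := Matrix.of fun i j => if σ j = i then 1 else 0
  map_one' := Matrix.ext fun i j => by simp [Matrix.one_apply, eq_comm]
  map_mul' σ τ := Matrix.ext fun i j => by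
    rw [Matrix.mul_apply, Finset.sum_eq_single (τ j)]
    · simp only [Matrix.of_apply, Equiv.Perm.mul_apply, if_true, mul_one]
      by_cases h : σ (τ j) = i <;> simp [h]
    · intro b _ hb; simp [hb.symm]
    · simp

/-- Permutation units. -/
def permU : Equiv.Perm (Fin m) →* BU F m := (permM (F := F) (m := m)).toHomUnits

theorem permU_val (σ : Equiv.Perm (Fin m)) (i j : Fin m) :
    (permU (F := F) σ : Matrix (Fin m) (Fin m) M₂) i j = if σ j = i then 1 else 0 := rfl

theorem diagU_injective : Function.Injective (diagU (F := F) (m := m)) := by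
  intro a b h
  have h' := congrArg (fun x : BU F m => (x : Matrix (Fin m) (Fin m) M₂)) h
  funext i
  refine Subtype.ext ?_
  simpa using congrFun (congrFun h' i) i

theorem permU_mul_apply (σ : Equiv.Perm (Fin m)) {n : Type*} (X : Matrix (Fin m) n M₂) (i : Fin m) (j : n) :
    (((permU σ : BU F m) : Matrix (Fin m) (Fin m) M₂) * X) i j = X (σ.symm i) j := by
  rw [Matrix.mul_apply, Finset.sum_eq_single (σ.symm i)]
  · simp [permU_val]
  · intro b _ hb
    rw [permU_val, if_neg fun e => hb (by rw [← e, Equiv.symm_apply_apply]), zero_mul]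
  · simp

theorem mul_permU_apply (σ : Equiv.Perm (Fin m)) {n : Type*} (X : Matrix n (Fin m) M₂) (i : n) (j : Fin m) :
    (X * ((permU σ : BU F m) : Matrix (Fin m) (Fin m) M₂)) i j = X i (σ j) := by
  rw [Matrix.mul_apply, Finset.sum_eq_single (σ j)]
  · simp [permU_val]
  · intro b _ hb; rw [permU_val, if_neg hb.symm, mul_zero]
  · simp

/-- Permutations move the blocks of a diagonal matrix. -/
theorem permU_diagU (σ : Equiv.Perm (Fin m)) (a : Fin m → SLF) :
    permU σ * diagU a = diagU (fun i => a (σ.symm i)) * permU σ := by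
  refine Units.ext (Matrix.ext fun i j => ?_)
  rw [Units.val_mul, Units.val_mul, mul_permU_apply]
  rw [diagU_val, diagU_val, Matrix.mul_diagonal, permU_val]
  rcases eq_or_ne (σ j) i with rfl | h
  · simp
  · simp [Matrix.diagonal_apply_ne _ h.symm, h]

theorem diagU_mul_vec (a : Fin m → SLF) (v : Vec F m) (i : Fin m) :
    ((diagU a : Matrix (Fin m) (Fin m) M₂) * v) i 0 = (a i : M₂) * v i 0 := by
  rw [diagU_val, Matrix.diagonal_mul]

theorem mul_std (X : Matrix (Fin m) (Fin m) M₂) (k l : Fin m) : (X * (std k : Vec F m)) l 0 = X l k := by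
  rw [Matrix.mul_apply, Finset.sum_eq_single k]
  · simp [std]
  · intro b _ hb; simp [std, hb]
  · simp

/-- Determinant of a coordinate. -/
def cc (v : Vec F m) (i : Fin m) : F := (v i 0).det

theorem sum_cc {v : Vec F m} (hv : ads v * v = 1) : ∑ i, cc v i = 1 := by
  have h : (ads v * v) 0 0 0 0 = (1 : Matrix (Fin 1) (Fin 1) M₂) 0 0 0 0 := by rw [hv]
  rw [Matrix.mul_apply, Matrix.sum_apply] at h
  simpa [Matrix.adjugate_mul, cc] using h

/-- The support of a vector. -/
noncomputable def supp (v : Vec F m) : Finset (Fin m) :=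
  @Finset.filter _ (fun i => v i 0 ≠ 0) (_root_.Classical.decPred _) Finset.univ

theorem mem_supp {v : Vec F m} {i : Fin m} : i ∈ supp v ↔ v i 0 ≠ 0 := by
  classical
  simp [supp]

theorem notMem_supp {v : Vec F m} {i : Fin m} : i ∉ supp v ↔ v i 0 = 0 := by
  rw [mem_supp, not_not]

theorem cc_eq_zero_of_notMem {v : Vec F m} {i : Fin m} (h : i ∉ supp v) : cc v i = 0 := by
  rw [cc, notMem_supp.1 h]; simp

theorem mem_supp_of_cc {v : Vec F m} {i : Fin m} (h : cc v i ≠ 0) : i ∈ supp v := by
  by_contra hn; exact h (cc_eq_zero_of_notMem hn)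

theorem sum_supp_cc {v : Vec F m} (hv : ads v * v = 1) : ∑ i ∈ supp v, cc v i = 1 := by
  rw [Finset.sum_subset (Finset.subset_univ _) fun i _ hi => cc_eq_zero_of_notMem hi]
  exact sum_cc hv

/-- Vectors with the same projection differ by a scalar on the right. -/
theorem eq_mul_of_proj {v w : Vec F m} (hw : ads w * w = 1) (h : proj v = proj w) :
    w = v * sc (inner' v w) := by
  rw [← ads_mul_eq]
  calc w = proj w * w := (proj_mul_vec hw).symm
    _ = proj v * w := by rw [h]
    _ = v * (ads v * w) := Matrix.mul_assoc _ _ _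

theorem supp_eq_of_proj {v w : Vec F m} (hv : ads v * v = 1) (hw : ads w * w = 1)
    (h : proj v = proj w) : supp v = supp w := by
  ext i
  rw [mem_supp, mem_supp]
  refine not_congr ⟨fun h0 => ?_, fun h0 => ?_⟩
  · rw [eq_mul_of_proj hw h, mul_sc_apply, h0, zero_mul]
  · rw [eq_mul_of_proj hv h.symm, mul_sc_apply, h0, zero_mul]

theorem cc_eq_of_proj {v w : Vec F m} (hv : ads v * v = 1) (hw : ads w * w = 1)
    (h : proj v = proj w) (i : Fin m) : cc v i = cc w i := by
  have e := eq_mul_of_proj hw h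
  have hd : (inner' v w).det = 1 := by
    have h1 : proj w = (inner' v w).det • proj v := by
      conv_lhs => rw [e]
      rw [proj_mul_sc]
    rw [← h] at h1
    by_contra hne
    have h2 : ((inner' v w).det - 1) • proj v = 0 := by rw [sub_smul, one_smul, ← h1, sub_self]
    rw [smul_eq_zero_iff_right (sub_ne_zero.2 hne)] at h2
    have h3 := proj_mul_vec hv
    rw [h2, Matrix.zero_mul] at h3
    rw [← h3, Matrix.mul_zero] at hv
    simpa using congrArg (fun X : Matrix (Fin 1) (Fin 1) M₂ => X 0 0 0 0) hv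
  unfold cc
  rw [e, mul_sc_apply, Matrix.det_mul, hd, mul_one]

/-- A unit vector with one nonzero coordinate. -/
theorem proj_eq_std {v : Vec F m} (hv : ads v * v = 1) {k : Fin m} (h : ∀ i, i ≠ k → v i 0 = 0) :
    proj v = proj (std k) := by
  have e : v = (std k : Vec F m) * sc (v k 0) := by
    refine Matrix.ext fun i j => ?_
    rw [Subsingleton.elim j 0, mul_sc_apply, std_apply]
    rcases eq_or_ne i k with rfl | hi
    · simp
    · simp [hi, h i hi]
  have hc : (v k 0).det = 1 := by
    have := sum_cc hv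
    rwa [Finset.sum_eq_single k (fun b _ hb => by rw [cc, h b hb]; simp) (by simp)] at this
  rw [e, proj_mul_sc, hc, one_smul]

theorem conj_proj (h : BU F m) (hh : ads (h : Matrix (Fin m) (Fin m) M₂) = ((h⁻¹ : BU F m) : Matrix (Fin m) (Fin m) M₂))
    (v : Vec F m) :
    proj ((h : Matrix (Fin m) (Fin m) M₂) * v) =
      (h : Matrix (Fin m) (Fin m) M₂) * proj v * ((h⁻¹ : BU F m) : Matrix (Fin m) (Fin m) M₂) := by
  rw [proj, proj, ads_mul, hh]
  simp only [Matrix.mul_assoc]

theorem mul_unit_vec (h : BU F m) (hh : ads (h : Matrix (Fin m) (Fin m) M₂) = ((h⁻¹ : BU F m) : Matrix (Fin m) (Fin m) M₂))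
    {v : Vec F m} (hv : ads v * v = 1) :
    ads ((h : Matrix (Fin m) (Fin m) M₂) * v) * ((h : Matrix (Fin m) (Fin m) M₂) * v) = 1 := by
  rw [ads_mul, hh, Matrix.mul_assoc, ← Matrix.mul_assoc ((h⁻¹ : BU F m) : Matrix (Fin m) (Fin m) M₂),
    ← Units.val_mul, inv_mul_cancel, Units.val_one, Matrix.one_mul, hv]

theorem conj_rU (h : BU F m) (hh : ads (h : Matrix (Fin m) (Fin m) M₂) = ((h⁻¹ : BU F m) : Matrix (Fin m) (Fin m) M₂))
    {v : Vec F m} (hv : ads v * v = 1) :
    h * rU v hv * h⁻¹ = rU _ (mul_unit_vec h hh hv) := by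
  refine Units.ext ?_
  rw [Units.val_mul, Units.val_mul, rU_val, rU_val, refl, refl, conj_proj h hh]
  rw [mul_sub, sub_mul, mul_one, Matrix.mul_smul, Matrix.smul_mul, ← Units.val_mul h h⁻¹, mul_inv_cancel,
    Units.val_one]

theorem rU_congr {v w : Vec F m} (hv : ads v * v = 1) (hw : ads w * w = 1) (h : proj v = proj w) :
    rU v hv = rU w hw := Units.ext (by simp [refl, h])

theorem rU_std (k : Fin m) : rU (std (F := F) k) (std_unit k) = diagU (Pi.mulSingle k (-1)) := by
  refine Units.ext ?_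
  rw [rU_val, diagU_val, refl, proj_std, ← Matrix.diagonal_smul, ← Matrix.diagonal_one, Matrix.diagonal_sub]
  congr 1
  funext i
  rcases eq_or_ne i k with rfl | h
  · simp; module
  · simp [Pi.mulSingle_eq_of_ne h, h]

/-- The ambient data: a subgroup of the unitary block group containing `Q^m` and sibling swaps. -/
structure Setup (F : Type*) [Field F] [Fintype F] (m : ℕ) where
  hq : Fintype.card F % 8 = 3 ∨ Fintype.card F % 8 = 5
  Q : Sylow 2 (Matrix.SpecialLinearGroup (Fin 2) F)
  P : QPair (Q : Subgroup (Matrix.SpecialLinearGroup (Fin 2) F))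
  H : Subgroup (BU F m)
  hU : ∀ h ∈ H, ads (h : Matrix (Fin m) (Fin m) (Matrix (Fin 2) (Fin 2) F)) =
    ((h⁻¹ : BU F m) : Matrix (Fin m) (Fin m) (Matrix (Fin 2) (Fin 2) F))
  hdiag : ∀ a : Fin m → Matrix.SpecialLinearGroup (Fin 2) F, (∀ i, a i ∈ (Q : Subgroup _)) → diagU a ∈ H
  hX : ∀ i a, diagU (Pi.mulSingle i a) ∈ H → a ∈ (Q : Subgroup _)
  hswap : ∀ i : Fin m, ∃ j, j ≠ i ∧ permU (Equiv.swap i j) ∈ H

namespace Setup

variable [Fintype F] (S : Setup F m)

theorem h2 (S : Setup F m) : (2 : F) ≠ 0 := CfsgLib.SymSylow.PSLTwoFour.two_ne S.hq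

/-- The reflection in `v` lies in the group. -/
def IsR (v : Vec F m) : Prop := ∃ hv : ads v * v = 1, rU v hv ∈ S.H

/-- The reflection in `v` is conjugate to a standard one. -/
def IsD (v : Vec F m) : Prop :=
  ∃ hv : ads v * v = 1, ∃ h ∈ S.H, ∃ k, h * rU (std k) (std_unit k) * h⁻¹ = rU v hv

theorem neg_mem (S : Setup F m) : (-1 : SLF) ∈ (S.Q : Subgroup SLF) := neg_one_mem S.h2 S.Q

theorem single_mem {a : SLF} (ha : a ∈ (S.Q : Subgroup SLF)) (i : Fin m) :
    diagU (Pi.mulSingle i a) ∈ S.H := by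
  refine S.hdiag _ fun l => ?_
  rcases eq_or_ne l i with rfl | h
  · rw [Pi.mulSingle_eq_same]; exact ha
  · rw [Pi.mulSingle_eq_of_ne h]; exact one_mem _

theorem std_mem (k : Fin m) : rU (std k) (std_unit k) ∈ S.H := by
  rw [rU_std]; exact S.single_mem S.neg_mem k

theorem isR_std (k : Fin m) : S.IsR (std k) := ⟨std_unit k, S.std_mem k⟩

theorem isD_std (k : Fin m) : S.IsD (std k) := ⟨std_unit k, 1, S.H.one_mem, k, by simp⟩

theorem IsD.isR {S : Setup F m} {v : Vec F m} (h : S.IsD v) : S.IsR v := by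
  obtain ⟨hv, g, hg, k, e⟩ := h
  exact ⟨hv, e ▸ S.H.mul_mem (S.H.mul_mem hg (S.std_mem k)) (S.H.inv_mem hg)⟩

theorem isD_congr {v w : Vec F m} (hv : S.IsD v) (hw : ads w * w = 1) (h : proj v = proj w) :
    S.IsD w := by
  obtain ⟨hv', g, hg, k, e⟩ := hv
  exact ⟨hw, g, hg, k, e.trans (rU_congr hv' hw h)⟩

theorem isD_of_conj {v w : Vec F m} (hv : S.IsD v) (hv' : ads v * v = 1) (hw : ads w * w = 1)
    (h : ∃ g ∈ S.H, g * rU v hv' * g⁻¹ = rU w hw) : S.IsD w := by
  obtain ⟨_, g, hg, k, e⟩ := hv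
  obtain ⟨g', hg', e'⟩ := h
  refine ⟨hw, g' * g, S.H.mul_mem hg' hg, k, ?_⟩
  rw [← e', ← e]
  group

theorem isD_mul {v : Vec F m} (hv : S.IsD v) {g : BU F m} (hg : g ∈ S.H) :
    S.IsD ((g : Matrix (Fin m) (Fin m) M₂) * v) := by
  obtain ⟨hv', h⟩ := id hv
  exact S.isD_of_conj hv hv' _ ⟨g, hg, conj_rU g (S.hU g hg) hv'⟩

theorem isD_column {g : BU F m} (hg : g ∈ S.H) (k : Fin m) :
    S.IsD ((g : Matrix (Fin m) (Fin m) M₂) * std k) := S.isD_mul (S.isD_std k) hg

end Setup

end CfsgLib.PronSymp
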