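import Mathlib
import Cfsg.Agent.PronSymp.Basic
import Cfsg.Agent.ZStar.Theorem

/-!
Dimension four: the involution `diag(-1, 1)` is central modulo sign.
-/

set_option autoImplicit false
set_option linter.unusedSectionVars false
set_option linter.style.haveILetI false

namespace CfsgLib.PronSymp

open Matrix
open scoped commutatorElement

variable {F : Type*} [Field F] [Fintype F]

local notation "SLF" => Matrix.SpecialLinearGroup (Fin 2) F
local notation "M₂" => Matrix (Fin 2) (Fin 2) F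
local notation "Mat₂" => Matrix (Fin 2) (Fin 2) (Matrix (Fin 2) (Fin 2) F)

/-- `diag(-1, 1)`. -/
def eU : BU F 2 := diagU ![-1, 1]

theorem eU_mul_self : (eU : BU F 2) * eU = 1 := by
  rw [eU, ← map_mul]
  rw [show (![-1, 1] * ![-1, 1] : Fin 2 → SLF) = 1 by ext i : 1; fin_cases i <;> simp, map_one]

theorem neg_one_comm (g : BU F 2) : g * (-1) = (-1) * g := by rw [mul_neg_one, neg_one_mul]

/-- A matrix commuting with `diag(-1, 1)` is diagonal. -/
theorem offdiag_of_commute (h2 : (2 : F) ≠ 0) {g : BU F 2} (h : g * eU = eU * g) :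
    (g : Mat₂) 0 1 = 0 ∧ (g : Mat₂) 1 0 = 0 := by
  have h' := congrArg (fun x : BU F 2 => (x : Mat₂)) h
  simp only [Units.val_mul, eU, diagU_val] at h'
  have a := congrFun (congrFun h' 0) 1
  have b := congrFun (congrFun h' 1) 0
  rw [Matrix.mul_diagonal, Matrix.diagonal_mul] at a b
  simp at a b
  have hz : ∀ X : M₂, X = -X → X = 0 := fun X hX => by
    have : (2 : F) • X = 0 := by rw [two_smul]; nth_rewrite 1 [hX]; exact neg_add_cancel X
    exact (smul_eq_zero_iff_right h2).1 this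
  exact ⟨hz _ a, hz _ b.symm⟩

theorem det_of_unitary {g : BU F 2} (hg : ads (g : Mat₂) = ((g⁻¹ : BU F 2) : Mat₂))
    (h0 : (g : Mat₂) 0 1 = 0) (h1 : (g : Mat₂) 1 0 = 0) :
    ((g : Mat₂) 0 0).det = 1 ∧ ((g : Mat₂) 1 1).det = 1 := by
  have h : (g : Mat₂) * ads (g : Mat₂) = 1 := by rw [hg, ← Units.val_mul, mul_inv_cancel, Units.val_one]
  have a := congrFun (congrFun (congrFun (congrFun h 0) 0) 0) 0
  have b := congrFun (congrFun (congrFun (congrFun h 1) 1) 0) 0
  rw [Matrix.mul_apply, Fin.sum_univ_two, ads_apply, ads_apply, Matrix.mul_adjugate] at a b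
  rw [Matrix.mul_adjugate] at a b
  simp [h0, h1] at a b
  exact ⟨a, b⟩

theorem exists_diag (h2 : (2 : F) ≠ 0) {g : BU F 2} (hg : ads (g : Mat₂) = ((g⁻¹ : BU F 2) : Mat₂))
    (h : g * eU = eU * g) : ∃ a b : SLF, g = diagU ![a, b] := by
  obtain ⟨h0, h1⟩ := offdiag_of_commute h2 h
  obtain ⟨d0, d1⟩ := det_of_unitary hg h0 h1
  refine ⟨⟨_, d0⟩, ⟨_, d1⟩, Units.ext (Matrix.ext fun i j => ?_)⟩
  rw [diagU_val]
  fin_cases i <;> fin_cases j <;> simp [h0, h1]

set_option maxHeartbeats 2000000 in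
/-- In a group of unitary `2 × 2` block matrices normalised by `Q × Q`, with no conjugate of
`diag(-1, 1)` anticommuting with it, this involution is fixed up to sign. -/
theorem pair_central (hq : Fintype.card F % 8 = 3 ∨ Fintype.card F % 8 = 5) (Q : Sylow 2 SLF)
    (P : QPair (Q : Subgroup SLF)) (J : Subgroup (BU F 2))
    (hU : ∀ g ∈ J, ads (g : Mat₂) = ((g⁻¹ : BU F 2) : Mat₂))
    (hD : ∀ a b : SLF, a ∈ (Q : Subgroup SLF) → b ∈ (Q : Subgroup SLF) → diagU ![a, b] ∈ J)
    (hC : ∀ k1 k2 : SLF, diagU ![k1, k2] ∈ J →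
      k1 ∈ Subgroup.normalizer ((Q : Subgroup SLF) : Set SLF) ∧
        k2 ∈ Subgroup.normalizer ((Q : Subgroup SLF) : Set SLF))
    (hanti : ∀ g ∈ J, g * eU * g⁻¹ * eU ≠ -(eU * (g * eU * g⁻¹))) :
    ∀ g ∈ J, g * eU * g⁻¹ = eU ∨ g * eU * g⁻¹ = -(eU : BU F 2) := by
  classical
  haveI : Fact (Nat.Prime 2) := ⟨Nat.prime_two⟩
  have h2 : (2 : F) ≠ 0 := CfsgLib.SymSylow.PSLTwoFour.two_ne hq
  have hm1 := neg_one_mem h2 Q
  have heJ : eU ∈ J := hD _ _ hm1 (one_mem _)
  have hnegJ : (-1 : BU F 2) ∈ J := by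
    have h := hD _ _ hm1 hm1
    refine (congrArg (· ∈ J) (Units.ext (Matrix.ext fun i j => ?_))).mp h
    rw [diagU_val]
    fin_cases i <;> fin_cases j <;> simp
  -- basic facts
  have eone : ∀ a b c d : SLF, diagU ![a, b] = diagU ![c, d] → a = c ∧ b = d := by
    intro a b c d h
    have := diagU_injective h
    exact ⟨congrFun this 0, congrFun this 1⟩
  have dmul : ∀ a b c d : SLF, diagU ![a, b] * diagU ![c, d] = diagU ![a * c, b * d] := by
    intro a b c d
    rw [← map_mul]
    congr 1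
    ext i : 1
    fin_cases i <;> simp
  have dinv : ∀ a b : SLF, (diagU ![a, b])⁻¹ = diagU ![a⁻¹, b⁻¹] := by
    intro a b
    rw [← map_inv]
    congr 1
    ext i : 1
    fin_cases i <;> simp
  have done_ : diagU (![1, 1] : Fin 2 → SLF) = 1 := by
    rw [show (![1, 1] : Fin 2 → SLF) = 1 by ext i : 1; fin_cases i <;> simp, map_one]
  have dneg : diagU (![-1, -1] : Fin 2 → SLF) = -1 := by
    refine Units.ext (Matrix.ext fun i j => ?_)
    rw [diagU_val]
    fin_cases i <;> fin_cases j <;> simp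
  have slne : (-1 : SLF) ≠ 1 := CfsgLib.SL2.neg_one_ne_one h2
  have ne_e1 : (eU : BU F 2) ≠ 1 := fun h => slne (eone _ _ _ _ (h.trans done_.symm)).1
  have ne_em : (eU : BU F 2) ≠ -1 := fun h => slne (eone _ _ _ _ (h.trans dneg.symm)).2.symm
  have ne_1m : (1 : BU F 2) ≠ -1 := fun h => slne (eone _ _ _ _ (done_.trans (h.trans dneg.symm))).1.symm
  -- the quotient by sign
  let e' : J := ⟨eU, heJ⟩
  let n' : J := ⟨-1, hnegJ⟩
  let Z : Subgroup J := Subgroup.zpowers n'
  haveI : Z.Normal := ⟨fun x hx g => by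
    obtain ⟨k, rfl⟩ := Subgroup.mem_zpowers_iff.1 hx
    have hc : Commute g n' := Subtype.ext (neg_one_comm (g : BU F 2))
    rw [(hc.zpow_right k).eq, mul_inv_cancel_right]
    exact hx⟩
  let π : J →* J ⧸ Z := QuotientGroup.mk' Z
  have ker : ∀ x : J, π x = 1 ↔ (x : BU F 2) = 1 ∨ (x : BU F 2) = -1 := by
    intro x
    show QuotientGroup.mk' Z x = 1 ↔ _
    rw [← MonoidHom.mem_ker, QuotientGroup.ker_mk']
    constructor
    · intro h
      obtain ⟨k, rfl⟩ := Subgroup.mem_zpowers_iff.1 h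
      have hn2 : n' ^ (2 : ℤ) = 1 := Subtype.ext (by simp [n'])
      rcases Int.even_or_odd k with ⟨j, rfl⟩ | ⟨j, rfl⟩
      · left; rw [← two_mul, _root_.zpow_mul, hn2, _root_.one_zpow]; rfl
      · right; rw [_root_.zpow_add, _root_.zpow_mul, hn2, _root_.one_zpow, _root_.zpow_one, one_mul]
    · rintro (h | h)
      · rw [show x = 1 from Subtype.ext h]; exact one_mem _
      · rw [show x = n' from Subtype.ext h]; exact Subgroup.mem_zpowers _
  -- conjugates of `e` commuting with it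
  have comm_case : ∀ g ∈ J, g * eU * g⁻¹ * eU = eU * (g * eU * g⁻¹) →
      g * eU * g⁻¹ = eU ∨ g * eU * g⁻¹ = -(eU : BU F 2) := by
    intro g hg hc
    set y := g * eU * g⁻¹ with hy
    have hyy : y * y = 1 := by rw [hy, conj_mul, eU_mul_self]; simp
    obtain ⟨a, b, hab⟩ := exists_diag h2 (hU y (J.mul_mem (J.mul_mem hg heJ) (J.inv_mem hg))) hc
    rw [hab, dmul, ← done_] at hyy
    obtain ⟨haa, hbb⟩ := eone _ _ _ _ hyy
    have pm : ∀ x : SLF, x * x = 1 → x = 1 ∨ x = -1 := fun x hx => by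
      by_cases h : x = 1
      · exact Or.inl h
      · exact Or.inr (CfsgLib.SL2.eq_neg_one_of_mul_self h2 h hx)
    have y1 : y ≠ 1 := fun h => ne_e1 (by
      rw [hy, mul_inv_eq_one] at h; exact mul_left_cancel (h.trans (mul_one g).symm))
    have ym : y ≠ -1 := fun h => ne_em (by
      rw [hy, mul_inv_eq_iff_eq_mul, neg_one_mul, ← mul_neg_one] at h; exact mul_left_cancel h)
    rcases pm a haa with rfl | rfl <;> rcases pm b hbb with rfl | rfl
    · exact absurd (hab.trans done_) y1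
    · right
      rw [hab, eU]
      refine Units.ext (Matrix.ext fun i j => ?_)
      rw [Units.val_neg, Matrix.neg_apply, diagU_val, diagU_val]
      fin_cases i <;> fin_cases j <;> simp
    · exact Or.inl hab
    · exact absurd (hab.trans dneg) ym
  -- products with conjugates have odd order
  have hodd : CfsgLib.ZStar.OddComm (π e') := by
    refine ⟨orderOf_eq_prime ?_ ?_, ?_⟩
    · rw [← map_pow, pow_two, show e' * e' = 1 from Subtype.ext eU_mul_self, map_one]
    · intro h
      rcases (ker _).1 h with h' | h'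
      · exact ne_e1 h'
      · exact ne_em h'
    intro gq
    obtain ⟨g, rfl⟩ := QuotientGroup.mk'_surjective Z gq
    show Odd (orderOf (π e' * (π g * π e' * (π g)⁻¹)))
    rw [← map_inv, ← map_mul, ← map_mul, ← map_mul]
    set y : J := g * e' * g⁻¹ with hy
    rw [← Nat.not_even_iff_odd]
    rintro ⟨s, hs⟩
    set w : J := e' * y with hw
    have hpos := orderOf_pos (π w)
    have hws : (π w) ^ s ≠ 1 := fun h => by
      have := Nat.le_of_dvd (by omega) (orderOf_dvd_of_pow_eq_one h)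
      omega
    have hw2 : π (w ^ (s + s)) = 1 := by rw [map_pow, ← hs, pow_orderOf_eq_one]
    have eei : e'⁻¹ = e' := inv_eq_of_mul_eq_one_right (Subtype.ext eU_mul_self)
    have hyi : y⁻¹ = y := by rw [hy, _root_.mul_inv_rev, _root_.mul_inv_rev, eei, inv_inv, mul_assoc]
    have ewe : e' * w * e' = w⁻¹ := by
      rw [hw, _root_.mul_inv_rev, eei, hyi, ← mul_assoc, show e' * e' = 1 from Subtype.ext eU_mul_self,
        one_mul]
    have ewp : ∀ k : ℕ, e' * w ^ k = (w ^ k)⁻¹ * e' := by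
      intro k
      have h1 : e' * w ^ k * e'⁻¹ = (w ^ k)⁻¹ := by rw [← conj_pow, eei, ewe, inv_pow]
      exact mul_inv_eq_iff_eq_mul.1 h1
    have ewi : ∀ k : ℕ, e' * (w ^ k)⁻¹ = w ^ k * e' := by
      intro k
      calc e' * (w ^ k)⁻¹ = w ^ k * ((w ^ k)⁻¹ * e') * (w ^ k)⁻¹ := by group
        _ = w ^ k * (e' * w ^ k) * (w ^ k)⁻¹ := by rw [ewp]
        _ = w ^ k * e' := by group
    -- `w ^ k * e'` is a conjugate of `e'`
    have conjk : ∀ k : ℕ, ∃ h : J, h * e' * h⁻¹ = w ^ k * e' := by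
      intro k
      rcases Nat.even_or_odd k with ⟨j, rfl⟩ | ⟨j, rfl⟩
      · exact ⟨w ^ j, by rw [mul_assoc, ewi, ← mul_assoc, ← pow_add]⟩
      · refine ⟨w ^ j * e' * g, ?_⟩
        calc w ^ j * e' * g * e' * (w ^ j * e' * g)⁻¹ = w ^ j * (e' * y * e'⁻¹) * (w ^ j)⁻¹ := by
              rw [hy]; group
          _ = w ^ j * (w * e') * (w ^ j)⁻¹ := by rw [eei, hw]
          _ = w ^ (2 * j + 1) * e' := by
              rw [mul_assoc (w ^ j), mul_assoc w e', ewi, ← mul_assoc w, ← pow_succ', ← mul_assoc, ← pow_add]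
              congr 2
              omega
    obtain ⟨h, hh⟩ := conjk s
    have hye : w ^ s * e' * e' = w ^ s := by
      rw [mul_assoc, show e' * e' = 1 from Subtype.ext eU_mul_self, mul_one]
    have hey : e' * (w ^ s * e') = (w ^ s)⁻¹ := by
      rw [← mul_assoc, ewp, mul_assoc, show e' * e' = 1 from Subtype.ext eU_mul_self, mul_one]
    have hh' : (h : BU F 2) * eU * (h : BU F 2)⁻¹ = ((w ^ s * e' : J) : BU F 2) := congrArg Subtype.val hh
    rcases (ker _).1 hw2 with h1 | h1
    · have hinv : (w ^ s)⁻¹ = w ^ s :=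
        inv_eq_of_mul_eq_one_right (Subtype.ext (by rw [← pow_add]; exact h1))
      rcases comm_case h h.2 (by
          rw [hh']
          exact congrArg Subtype.val (hye.trans (hinv.symm.trans hey.symm))) with h3 | h3
      · rw [hh'] at h3
        refine hws ?_
        rw [← map_pow]
        exact (ker _).2 (Or.inl (mul_eq_right.1 h3))
      · rw [hh'] at h3
        refine hws ?_
        rw [← map_pow]
        refine (ker _).2 (Or.inr ?_)
        exact mul_right_cancel (h3.trans (neg_one_mul _).symm)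
    · refine hanti h h.2 ?_
      rw [hh']
      have a1 : ((w ^ s * e' : J) : BU F 2) * eU = ((w ^ s : J) : BU F 2) := congrArg Subtype.val hye
      have a2 : eU * ((w ^ s * e' : J) : BU F 2) = (((w ^ s : J) : BU F 2))⁻¹ := congrArg Subtype.val hey
      rw [a1, a2]
      have a3 : ((w ^ s : J) : BU F 2) * ((w ^ s : J) : BU F 2) = -1 := by
        rw [← Subgroup.coe_mul, ← pow_add]; exact h1
      have a4 : (((w ^ s : J) : BU F 2))⁻¹ = -((w ^ s : J) : BU F 2) :=
        inv_eq_of_mul_eq_one_right (by rw [mul_neg, a3, neg_neg])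
      rw [a4, neg_neg]
  -- the odd core
  set O := Cfsg.pPrimeCore 2 (J ⧸ Z) with hO
  have hOodd : ∀ x ∈ O, Odd (orderOf x) := fun x hx => by
    refine Odd.of_dvd_nat ?_ (Subgroup.orderOf_dvd_natCard _ hx)
    rw [← Nat.not_even_iff_odd, even_iff_two_dvd]
    exact Constrained.pPrimeCore_not_dvd
  have hn'2 : n' * n' = 1 := Subtype.ext (show (-1 : BU F 2) * (-1) = 1 by rw [neg_one_mul, neg_neg])
  have hlift : ∀ x ∈ O, ∃ k : J, π k = x ∧ Odd (orderOf k) := by
    intro x hx
    obtain ⟨k, rfl⟩ := QuotientGroup.mk'_surjective Z x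
    have ho := hOodd _ hx
    rcases (ker (k ^ orderOf (π k))).1 (by rw [map_pow, pow_orderOf_eq_one]) with h | h
    · exact ⟨k, rfl, ho.of_dvd_nat (orderOf_dvd_of_pow_eq_one (Subtype.ext h))⟩
    · refine ⟨k * n', ?_, ho.of_dvd_nat (orderOf_dvd_of_pow_eq_one ?_)⟩
      · show π (k * n') = π k
        rw [map_mul, (ker n').2 (Or.inr rfl), mul_one]
      · have hc : Commute k n' := Subtype.ext (neg_one_comm (k : BU F 2))
        obtain ⟨j, hj⟩ := ho
        have hkn : k ^ orderOf (π k) = n' := Subtype.ext h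
        rw [hc.mul_pow, hkn, hj, pow_succ, pow_mul, pow_two, hn'2, one_pow, one_mul, hn'2]
  have uniq : ∀ a b : J, Odd (orderOf a) → Odd (orderOf b) → π a = π b → a = b := by
    intro a b ha hb hab
    rcases (ker (a⁻¹ * b)).1 (by rw [map_mul, map_inv, hab, inv_mul_cancel]) with h | h
    · exact inv_mul_eq_one.1 (Subtype.ext h)
    · exfalso
      have hab' : b = a * n' := by
        rw [← show a⁻¹ * b = n' from Subtype.ext h, mul_inv_cancel_left]
      obtain ⟨j, hj⟩ := ha.mul hb
      have h1 : (a * n') ^ (orderOf a * orderOf b) = 1 := by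
        rw [← hab', mul_comm, pow_mul, pow_orderOf_eq_one, one_pow]
      rw [(show Commute a n' from Subtype.ext (neg_one_comm (a : BU F 2))).mul_pow, pow_mul, pow_orderOf_eq_one,
        one_pow, one_mul, hj, pow_succ, pow_mul, pow_two, hn'2, one_pow, one_mul] at h1
      exact ne_1m (congrArg Subtype.val h1).symm
  have oconj : ∀ (g k : J), Odd (orderOf k) → Odd (orderOf (g * k * g⁻¹)) := fun g k hk => by
    rwa [show g * k * g⁻¹ = MulAut.conj g k from rfl, MulEquiv.orderOf_eq]
  -- the involution has no fixed point on the core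
  have hfix : ∀ x ∈ O, Commute (π e') x → x = 1 := by
    intro x hx hc
    obtain ⟨k, rfl, hk⟩ := hlift x hx
    have hke : e' * k * e'⁻¹ = k := uniq _ _ (oconj _ _ hk) hk (by
      rw [map_mul, map_mul, map_inv, hc.eq, mul_inv_cancel_right])
    obtain ⟨k1, k2, hk12⟩ := exists_diag h2 (hU _ k.2)
      (congrArg Subtype.val (mul_inv_eq_iff_eq_mul.1 hke)).symm
    obtain ⟨hn1, hn2⟩ := hC k1 k2 (hk12 ▸ k.2)
    have key : ∀ a b : SLF, a ∈ (Q : Subgroup SLF) → b ∈ (Q : Subgroup SLF) →
        ⁅a, k1⁆ = 1 ∧ ⁅b, k2⁆ = 1 ∨ ⁅a, k1⁆ = -1 ∧ ⁅b, k2⁆ = -1 := by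
      intro a b ha hb
      set d : J := ⟨diagU ![a, b], hD a b ha hb⟩
      have hcO : π (d * k * d⁻¹ * k⁻¹) ∈ O := by
        rw [map_mul, map_mul, map_mul, map_inv, map_inv]
        exact O.mul_mem ((inferInstance : O.Normal).conj_mem _ hx _) (O.inv_mem hx)
      have hval : ((d * k * d⁻¹ * k⁻¹ : J) : BU F 2) = diagU ![⁅a, k1⁆, ⁅b, k2⁆] := by
        show diagU ![a, b] * (k : BU F 2) * (diagU ![a, b])⁻¹ * (k : BU F 2)⁻¹ = _
        rw [hk12, dinv, dinv, dmul, dmul, dmul]
        rfl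
      have q8 : ∀ c ∈ (Q : Subgroup SLF), c ^ 8 = 1 := fun c hc =>
        orderOf_dvd_iff_pow_eq_one.1 ((Subgroup.orderOf_dvd_natCard _ hc).trans (card_sylow hq Q))
      have inQ : ∀ a k : SLF, a ∈ (Q : Subgroup SLF) →
          k ∈ Subgroup.normalizer ((Q : Subgroup SLF) : Set SLF) → ⁅a, k⁆ ∈ (Q : Subgroup SLF) := by
        intro a k ha hk
        rw [commutatorElement_def, show a * k * a⁻¹ * k⁻¹ = a * (k * a⁻¹ * k⁻¹) by group]
        exact mul_mem ha ((Subgroup.mem_normalizer_iff.1 hk _).1 (inv_mem ha))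
      have h8 : (π (d * k * d⁻¹ * k⁻¹)) ^ 8 = 1 := by
        rw [← map_pow]
        refine (ker _).2 (Or.inl ?_)
        rw [Subgroup.coe_pow, hval, ← map_pow]
        rw [show (![⁅a, k1⁆, ⁅b, k2⁆] : Fin 2 → SLF) ^ 8 = 1 by
          ext i : 1
          fin_cases i
          · simpa using q8 _ (inQ a k1 ha hn1)
          · simpa using q8 _ (inQ b k2 hb hn2), map_one]
      have h1 : π (d * k * d⁻¹ * k⁻¹) = 1 := by
        have hd := orderOf_dvd_of_pow_eq_one h8
        obtain ⟨i, -, hi⟩ := (Nat.dvd_prime_pow Nat.prime_two (m := 3)).1 hd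
        have hod := hOodd _ hcO
        rw [hi] at hod
        rw [← orderOf_eq_one_iff, hi]
        rcases Nat.eq_zero_or_pos i with rfl | hi0
        · rfl
        · exact absurd hod (Nat.not_odd_iff_even.2 (even_two.pow_of_ne_zero hi0.ne'))
      rcases (ker _).1 h1 with e | e <;> rw [hval] at e
      · exact Or.inl (eone _ _ _ _ (e.trans done_.symm))
      · exact Or.inr (eone _ _ _ _ (e.trans dneg.symm))
    have c1 : ∀ a ∈ (Q : Subgroup SLF), k1 * a = a * k1 := fun a ha => by
      rcases key a 1 ha (one_mem _) with h | h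
      · exact (commutatorElement_eq_one_iff_mul_comm.1 h.1).symm
      · exact absurd (h.2.symm.trans (commutatorElement_one_left k2)) slne
    have c2 : ∀ b ∈ (Q : Subgroup SLF), k2 * b = b * k2 := fun b hb => by
      rcases key 1 b (one_mem _) hb with h | h
      · exact (commutatorElement_eq_one_iff_mul_comm.1 h.2).symm
      · exact absurd (h.1.symm.trans (commutatorElement_one_left k1)) slne
    have s1 := commute_Q_eq h2 P (c1 _ P.hu) (c1 _ P.hw)
    have s2 := commute_Q_eq h2 P (c2 _ P.hu) (c2 _ P.hw)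
    have hkk : k * k = 1 := Subtype.ext (by
      show (k : BU F 2) * k = 1
      rw [hk12, dmul]
      rcases s1 with rfl | rfl <;> rcases s2 with rfl | rfl <;> simpa using done_)
    have hd := orderOf_dvd_of_pow_eq_one ((pow_two k).trans hkk)
    rcases (Nat.dvd_prime Nat.prime_two).1 hd with h | h
    · rw [orderOf_eq_one_iff] at h; rw [h, map_one]
    · rw [h] at hk; exact absurd hk (by decide)
  -- so it inverts the core, which is abelian
  let φ : O →* O :=
    { toFun := fun x => ⟨π e' * x * (π e')⁻¹, (inferInstance : O.Normal).conj_mem _ x.2 _⟩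
      map_one' := Subtype.ext (by simp)
      map_mul' := fun x y => Subtype.ext (by
        show π e' * ((x : J ⧸ Z) * y) * (π e')⁻¹ = π e' * x * (π e')⁻¹ * (π e' * y * (π e')⁻¹)
        group) }
  have hfpf : MonoidHom.FixedPointFree φ := fun x hx => Subtype.ext
    (hfix x x.2 (mul_inv_eq_iff_eq_mul.1 (congrArg Subtype.val hx)))
  have hinvol : Function.Involutive φ := fun x => Subtype.ext (by
    show π e' * (π e' * (x : J ⧸ Z) * (π e')⁻¹) * (π e')⁻¹ = x
    rw [show π e' * (π e' * (x : J ⧸ Z) * (π e')⁻¹) * (π e')⁻¹ = (π e' * π e') * x * (π e' * π e')⁻¹ by group,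
      ← map_mul, show e' * e' = 1 from Subtype.ext eU_mul_self, map_one]
    simp)
  have hinvert : ∀ x : O, φ x = x⁻¹ := congrFun (hfpf.coe_eq_inv_of_involutive hinvol)
  have habel : ∀ x y : O, x * y = y * x := fun x y => by
    have h := map_mul φ x y
    rw [hinvert, hinvert, hinvert] at h
    have h' := congrArg (·⁻¹) h
    simpa using h'
  -- elements commuting with `diag(a, a)` are trivial
  have key2 : ∀ a b : SLF, a ∈ (Q : Subgroup SLF) → ∀ hb : b ∈ (Q : Subgroup SLF), a * a = -1 → b * b = -1 →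
      a * b = -(b * a) → ∀ ha : a ∈ (Q : Subgroup SLF), ∀ x ∈ O,
      Commute (π ⟨diagU ![a, a], hD a a ha ha⟩) x → x = 1 := by
    intro a b _ hb haa hbb hab ha x hx hc
    obtain ⟨k, rfl, hk⟩ := hlift x hx
    set da : J := ⟨diagU ![a, a], hD a a ha ha⟩
    set d1 : J := ⟨diagU ![a, 1], hD a 1 ha (one_mem _)⟩
    set db : J := ⟨diagU ![b, b], hD b b hb hb⟩
    have hka : da * k * da⁻¹ = k := uniq _ _ (oconj _ _ hk) hk (by
      rw [map_mul, map_mul, map_inv, hc.eq, mul_inv_cancel_right])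
    have hki : e' * k * e'⁻¹ = k⁻¹ := uniq _ _ (oconj _ _ hk) (by rwa [orderOf_inv]) (by
      rw [map_mul, map_mul, map_inv, map_inv]
      exact congrArg Subtype.val (hinvert ⟨_, hx⟩))
    have hcomm : ∀ g : J, (g * k * g⁻¹) * k = k * (g * k * g⁻¹) := by
      intro g
      refine mul_inv_eq_iff_eq_mul.1 (uniq _ _ (oconj _ _ hk) hk ?_)
      have hgO : π (g * k * g⁻¹) ∈ O := by
        rw [map_mul, map_mul, map_inv]; exact (inferInstance : O.Normal).conj_mem _ hx _
      have hcm := congrArg Subtype.val (habel ⟨_, hgO⟩ ⟨_, hx⟩)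
      simp only [Subgroup.coe_mul] at hcm
      rw [map_mul, map_mul, map_inv, hcm, mul_inv_cancel_right]
    -- pass to matrices
    have Ma : (a : M₂) * a = -1 := coe_sq haa
    have Mb : (b : M₂) * b = -1 := coe_sq hbb
    have Mab : (a : M₂) * b = -((b : M₂) * a) := by
      simpa using congrArg (fun z : SLF => (z : M₂)) hab
    have ia : ((a⁻¹ : SLF) : M₂) = -(a : M₂) := by
      rw [inv_of_sq haa, Matrix.SpecialLinearGroup.coe_neg]
    have ib : ((b⁻¹ : SLF) : M₂) = -(b : M₂) := by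
      rw [inv_of_sq hbb, Matrix.SpecialLinearGroup.coe_neg]
    set K : Mat₂ := ((k : BU F 2) : Mat₂) with hK
    have dconj : ∀ (c d : SLF) (i j : Fin 2),
        (((diagU ![c, d] * (k : BU F 2) * (diagU ![c, d])⁻¹ : BU F 2)) : Mat₂) i j =
          ((![c, d] i : SLF) : M₂) * K i j * (((![c, d] j)⁻¹ : SLF) : M₂) := by
      intro c d i j
      rw [← map_inv, Units.val_mul, Units.val_mul, diagU_val, diagU_val, Matrix.mul_diagonal,
        Matrix.diagonal_mul]
      rfl
    have eA := congrArg (fun z : J => ((z : BU F 2) : Mat₂)) hka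
    simp only [Subgroup.coe_mul, Subgroup.coe_inv] at eA
    have hpa := (dconj a a 0 0).symm.trans (congrFun (congrFun eA 0) 0)
    have hXa := (dconj a a 0 1).symm.trans (congrFun (congrFun eA 0) 1)
    simp only [Matrix.cons_val_zero, Matrix.cons_val_one, ia, mul_neg, ← hK] at hpa hXa
    have cp : K 0 0 * (a : M₂) = (a : M₂) * K 0 0 := by
      conv_lhs => rw [← hpa]
      rw [neg_mul, mul_assoc, Ma, mul_neg_one, neg_neg]
    have cX : K 0 1 * (a : M₂) = (a : M₂) * K 0 1 := by
      conv_lhs => rw [← hXa]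
      rw [neg_mul, mul_assoc, Ma, mul_neg_one, neg_neg]
    have hY : K 1 0 = -(adjugate (K 0 1)) := by
      have eE := congrArg (fun z : J => ((z : BU F 2) : Mat₂)) hki
      simp only [Subgroup.coe_mul, Subgroup.coe_inv] at eE
      have h := (dconj (-1) 1 0 1).symm.trans (congrFun (congrFun eE 0) 1)
      rw [← hU _ k.2] at h
      simp only [Matrix.cons_val_zero, Matrix.cons_val_one, ads_apply, inv_one,
        Matrix.SpecialLinearGroup.coe_neg, Matrix.SpecialLinearGroup.coe_one, mul_one, neg_one_mul] at h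
      rw [← hK] at h
      have h' := congrArg Matrix.adjugate h
      rw [adj_adj] at h'
      rw [← h', ← neg_one_smul F, adj_smul, neg_one_smul]
    have ns := not_scalar_of_sq h2 haa
    obtain ⟨p0, p1, hp⟩ := CfsgLib.SymSylow.WreathNorm.exists_poly ns cp
    obtain ⟨x0, x1, hX⟩ := CfsgLib.SymSylow.WreathNorm.exists_poly ns cX
    have hadj : adjugate (K 0 1) = x0 • 1 - x1 • (a : M₂) := by
      rw [hX, adj_add, adj_smul, adj_smul, Matrix.adjugate_one, adj_coe, ia, smul_neg, sub_eq_add_neg]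
    have eC : ∀ g : J, ((((g : BU F 2) * k * (g : BU F 2)⁻¹ : BU F 2)) : Mat₂) * K =
        K * (((g : BU F 2) * k * (g : BU F 2)⁻¹ : BU F 2) : Mat₂) := fun g => by
      have := congrArg (fun z : J => ((z : BU F 2) : Mat₂)) (hcomm g)
      simpa only [Subgroup.coe_mul, Subgroup.coe_inv, Units.val_mul] using this
    -- first relation
    have h1 := congrFun (congrFun (eC d1) 0) 0
    rw [Matrix.mul_apply, Matrix.mul_apply, Fin.sum_univ_two, Fin.sum_univ_two, dconj, dconj, dconj] at h1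
    simp only [Matrix.cons_val_zero, Matrix.cons_val_one, ia, inv_one, Matrix.SpecialLinearGroup.coe_one,
      one_mul, mul_one] at h1
    rw [hY, hadj, hX, hp] at h1
    simp only [mul_add, add_mul, mul_sub, sub_mul, mul_neg, neg_mul, smul_mul_assoc, mul_smul_comm, mul_one,
      one_mul, Ma, smul_neg, smul_smul, neg_neg, neg_sub, sub_neg_eq_add, mul_assoc, mul_neg_one] at h1
    have hq0 : x0 * x0 + x1 * x1 = 0 := by
      have h3 : (2 * (x0 * x0 + x1 * x1)) • (a : M₂) = 0 := by
        rw [← sub_eq_zero] at h1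
        rw [← neg_eq_zero, ← h1]
        module
      rw [smul_eq_zero] at h3
      rcases h3 with h3 | h3
      · exact (mul_eq_zero.1 h3).resolve_left h2
      · exact absurd (by rw [h3, zero_smul]) (ns 0)
    -- second relation
    have h4 := congrFun (congrFun (eC db) 0) 0
    rw [Matrix.mul_apply, Matrix.mul_apply, Fin.sum_univ_two, Fin.sum_univ_two, dconj, dconj, dconj] at h4
    simp only [Matrix.cons_val_zero, Matrix.cons_val_one, ib] at h4
    have cb : ∀ y0 y1 : F, (b : M₂) * (y0 • 1 + y1 • (a : M₂)) * (-(b : M₂)) = y0 • 1 - y1 • (a : M₂) := by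
      intro y0 y1
      rw [mul_add, add_mul, mul_smul_comm, mul_smul_comm, smul_mul_assoc, smul_mul_assoc, mul_one, mul_neg,
        Mb, neg_neg, mul_neg, ← neg_mul, ← Mab, mul_assoc, Mb, mul_neg_one, smul_neg, sub_eq_add_neg]
    have cbY : (b : M₂) * K 1 0 * (-(b : M₂)) = -(x0 • 1 + x1 • (a : M₂)) := by
      have h5 := cb x0 (-x1)
      simp only [neg_smul, ← sub_eq_add_neg, sub_neg_eq_add] at h5
      rw [hY, hadj, mul_neg (b : M₂) (x0 • 1 - x1 • (a : M₂)), neg_mul, h5]
    rw [cbY, hY, hadj, hX, hp, cb, cb] at h4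
    simp only [mul_add, add_mul, mul_sub, sub_mul, mul_neg, neg_mul, smul_mul_assoc, mul_smul_comm, mul_one,
      one_mul, Ma, smul_neg, smul_smul, neg_neg, neg_sub, sub_neg_eq_add] at h4
    have hq1 : x0 * x1 = 0 := by
      have h3 : (2 * 2 * (x0 * x1)) • (a : M₂) = 0 := by
        rw [← sub_eq_zero] at h4
        rw [← h4]
        module
      rw [smul_eq_zero] at h3
      rcases h3 with h3 | h3
      · exact (mul_eq_zero.1 h3).resolve_left (mul_ne_zero h2 h2)
      · exact absurd (by rw [h3, zero_smul]) (ns 0)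
    have hx0 : x0 = 0 ∧ x1 = 0 := by
      rcases mul_eq_zero.1 hq1 with rfl | rfl
      · exact ⟨rfl, mul_self_eq_zero.1 (by linear_combination hq0)⟩
      · exact ⟨mul_self_eq_zero.1 (by linear_combination hq0), rfl⟩
    have hX0 : K 0 1 = 0 := by rw [hX, hx0.1, hx0.2, zero_smul, zero_smul, add_zero]
    have hY0 : K 1 0 = 0 := by rw [hY, hX0, Matrix.adjugate_zero, neg_zero]
    have hek : e' * k = k * e' := Subtype.ext (Units.ext (Matrix.ext fun i j => by
      show (Matrix.diagonal (fun i => ((![-1, 1] i : SLF) : M₂)) * K) i j =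
        (K * Matrix.diagonal (fun i => ((![-1, 1] i : SLF) : M₂))) i j
      rw [Matrix.diagonal_mul, Matrix.mul_diagonal]
      fin_cases i <;> fin_cases j <;> simp [hX0, hY0]))
    exact hfix _ hx (by show π e' * π k = π k * π e'; rw [← map_mul, hek, map_mul])
  -- the core is trivial
  have hObot : O = ⊥ := by
    by_contra hne
    have hcardodd : Odd (Nat.card O) := by
      rw [← Nat.not_even_iff_odd, even_iff_two_dvd]
      exact Constrained.pPrimeCore_not_dvd
    have u2 := hD P.u P.u P.hu P.hu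
    have w2 := hD P.w P.w P.hw P.hw
    set du : J := ⟨_, u2⟩
    set dw : J := ⟨_, w2⟩
    have sqq : ∀ a : SLF, a * a = -1 → ∀ h : diagU ![a, a] ∈ J, π ⟨_, h⟩ * π ⟨_, h⟩ = 1 := by
      intro a ha h
      rw [← map_mul]
      refine (ker _).2 (Or.inr ?_)
      show diagU ![a, a] * diagU ![a, a] = -1
      rw [dmul, ha, dneg]
    have hcom : Commute (π du) (π dw) := by
      show π du * π dw = π dw * π du
      rw [← map_mul, ← map_mul]
      have he : du * dw = n' * (dw * du) := Subtype.ext (by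
        show diagU ![P.u, P.u] * diagU ![P.w, P.w] = -1 * (diagU ![P.w, P.w] * diagU ![P.u, P.u])
        rw [dmul, dmul, P.uw, ← dneg, dmul]
        simp)
      rw [he, map_mul, (ker n').2 (Or.inr rfl), one_mul]
    obtain ⟨z, hz, x, hx, hx1, hzx⟩ := CfsgLib.SymSylow.PSLTwoFour.exists_fixed O hne hcardodd
      (sqq _ P.uu u2) (sqq _ P.ww w2) hcom
      (fun x hx => (inferInstance : O.Normal).conj_mem x hx _)
      (fun x hx => (inferInstance : O.Normal).conj_mem x hx _)
    rcases hz with rfl | rfl | rfl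
    · exact hx1 (key2 P.u P.w P.hu P.hw P.uu P.ww P.uw P.hu x hx hzx)
    · exact hx1 (key2 P.w P.u P.hw P.hu P.ww P.uu (by rw [P.uw, neg_neg]) P.hw x hx hzx)
    · have hm : P.u * P.w ∈ (Q : Subgroup SLF) := mul_mem P.hu P.hw
      have hsq : P.u * P.w * (P.u * P.w) = -1 := by
        rw [show P.u * P.w * (P.u * P.w) = P.u * (P.w * P.u) * P.w by group,
          show P.w * P.u = -(P.u * P.w) by rw [P.uw, neg_neg], mul_neg, neg_mul,
          show P.u * (P.u * P.w) * P.w = (P.u * P.u) * (P.w * P.w) by group, P.uu, P.ww]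
        simp
      have hanti' : P.u * P.w * P.u = -(P.u * (P.u * P.w)) := by
        rw [mul_assoc, show P.w * P.u = -(P.u * P.w) by rw [P.uw, neg_neg], mul_neg]
      refine hx1 (key2 (P.u * P.w) P.u hm P.hu hsq P.uu hanti' hm x hx ?_)
      rw [show (⟨diagU ![P.u * P.w, P.u * P.w], hD _ _ hm hm⟩ : J) = du * dw from
        Subtype.ext (dmul _ _ _ _).symm, map_mul]
      exact hzx
  intro g hg
  have hmem := CfsgLib.ZStar.mem_core_of_oddComm hodd (π ⟨g, hg⟩)
  rw [← hO, hObot, Subgroup.mem_bot, mul_inv_eq_one, ← map_inv, ← map_mul, ← map_mul] at hmem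
  have h5 : π (⟨g, hg⟩ * e' * (⟨g, hg⟩ : J)⁻¹ * e'⁻¹) = 1 := by rw [map_mul, hmem, map_inv, mul_inv_cancel]
  rcases (ker _).1 h5 with h6 | h6
  · exact Or.inl (mul_inv_eq_one.1 h6)
  · exact Or.inr (by
      rw [show ((⟨g, hg⟩ * e' * (⟨g, hg⟩ : J)⁻¹ * e'⁻¹ : J) : BU F 2) = g * eU * g⁻¹ * eU⁻¹ from rfl,
        mul_inv_eq_iff_eq_mul, neg_one_mul] at h6
      exact h6)

end CfsgLib.PronSymp
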