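import Mathlib
import Cfsg.Agent.PronSymp.Basic
import Cfsg.Agent.PronSymp.Pair

/-!
Reflections in a two-dimensional subspace: pairs of coordinates, and a coordinate with the axis
of a transposition.
-/

set_option autoImplicit false
set_option linter.unusedSectionVars false
set_option linter.style.haveILetI false

namespace CfsgLib.PronSymp

open Matrix

variable {F : Type*} [Field F] {m : ℕ}

local notation "SLF" => Matrix.SpecialLinearGroup (Fin 2) F
local notation "M₂" => Matrix (Fin 2) (Fin 2) F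
local notation "Mat" => Matrix (Fin m) (Fin m) (Matrix (Fin 2) (Fin 2) F)

/-- The matrix with two given columns. -/
def cols (p q : Vec F m) : Matrix (Fin m) (Fin 2) M₂ := Matrix.of fun i r => (![p, q] r) i 0

theorem ads_cols_mul_apply (p q X : Vec F m) (r : Fin 2) :
    (ads (cols p q) * X) r 0 = inner' (![p, q] r) X := by
  rw [inner', Matrix.mul_apply, Matrix.mul_apply]
  rfl

theorem cols_mul_ads (p q : Vec F m) : cols p q * ads (cols p q) = proj p + proj q := by
  refine Matrix.ext fun i j => ?_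
  rw [Matrix.mul_apply, Fin.sum_univ_two, Matrix.add_apply, proj_apply, proj_apply]
  rfl

theorem ads_cols_mul_cols {p q : Vec F m} (hp : ads p * p = 1) (hq : ads q * q = 1) (hpq : ads p * q = 0) :
    ads (cols p q) * cols p q = 1 := by
  have hqp : ads q * p = 0 := by
    rw [← ads_ads p, ← ads_mul, hpq]
    funext i j
    exact Matrix.adjugate_zero
  refine Matrix.ext fun r s => ?_
  have e : (ads (cols p q) * cols p q) r s = (ads (![p, q] r) * ![p, q] s) 0 0 := by
    rw [Matrix.mul_apply, Matrix.mul_apply]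
    rfl
  rw [e]
  fin_cases r <;> fin_cases s <;> simp [hp, hq, hpq, hqp]

/-- The units commuting with a given matrix. -/
def commSub (A : Mat) : Subgroup (BU F m) where
  carrier := {h | (h : Mat) * A = A * (h : Mat)}
  one_mem' := by simp
  mul_mem' {a b} ha hb := by
    show ((a * b : BU F m) : Mat) * A = A * ((a * b : BU F m) : Mat)
    rw [Units.val_mul, mul_assoc, (show (b : Mat) * A = A * b from hb), ← mul_assoc,
      (show (a : Mat) * A = A * a from ha), mul_assoc]
  inv_mem' {a} ha := (Commute.units_inv_left (u := a) (show Commute (a : Mat) A from ha))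

theorem mem_commSub {A : Mat} {h : BU F m} : h ∈ commSub A ↔ (h : Mat) * A = A * (h : Mat) := Iff.rfl

/-- An element of `SL₂` from a matrix of determinant one. -/
def sl {F : Type*} [Field F] (k : Matrix (Fin 2) (Fin 2) F) (hd : k.det = 1) :
    Matrix.SpecialLinearGroup (Fin 2) F := ⟨k, hd⟩

variable (V : Matrix (Fin m) (Fin 2) (Matrix (Fin 2) (Fin 2) F))
  (hV : ads V * V = (1 : Matrix (Fin 2) (Fin 2) (Matrix (Fin 2) (Fin 2) F)))

include hV in
theorem comm_cols {h : Mat} (hh : h * (V * ads V) = (V * ads V) * h) : h * V = V * (ads V * h * V) := by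
  calc h * V = h * (V * ads V) * V := by rw [Matrix.mul_assoc, Matrix.mul_assoc V, hV, Matrix.mul_one]
    _ = (V * ads V) * h * V := by rw [hh]
    _ = V * (ads V * h * V) := by simp only [Matrix.mul_assoc]

/-- Compression to a subspace. -/
def compr (K : Subgroup (BU F m)) (hK : ∀ h ∈ K, (h : Mat) * (V * ads V) = (V * ads V) * (h : Mat)) :
    K →* BU F 2 :=
  MonoidHom.toHomUnits
    { toFun := fun h => ads V * ((h : BU F m) : Mat) * V
      map_one' := by rw [Subgroup.coe_one, Units.val_one, Matrix.mul_one, hV]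
      map_mul' := fun g h => by
        rw [Subgroup.coe_mul, Units.val_mul, Matrix.mul_assoc (ads V * _) V, ← comm_cols V hV (hK _ h.2)]
        simp only [Matrix.mul_assoc] }

@[simp] theorem compr_val (K : Subgroup (BU F m))
    (hK : ∀ h ∈ K, (h : Mat) * (V * ads V) = (V * ads V) * (h : Mat)) (h : K) :
    ((compr V hV K hK h : BU F 2) : Matrix (Fin 2) (Fin 2) M₂) = ads V * ((h : BU F m) : Mat) * V := rfl

theorem proj_of_fixed {v : Vec F m} (h : V * ads V * v = v) :
    proj v * (V * ads V) = proj v ∧ (V * ads V) * proj v = proj v := by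
  refine ⟨?_, by rw [proj, ← Matrix.mul_assoc, h]⟩
  have h' := congrArg ads h
  rw [ads_mul, ads_mul, ads_ads] at h'
  rw [proj, Matrix.mul_assoc, h']

variable [Fintype F]

namespace Setup

variable (S : Setup F m)

/-- No standard reflection is fused to a transposition. -/
def NoFuse : Prop :=
  ∀ v, S.IsD v → ∀ i j : Fin m, i ≠ j → supp v ⊆ {i, j} → cc v i ≠ 2⁻¹

theorem single_form (i : Fin m) (a : SLF) :
    ((diagU (Pi.mulSingle i a) : BU F m) : Mat) =
      1 + (std i : Vec F m) * sc ((a : M₂) - 1) * ads (std i : Vec F m) := by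
  rw [diagU_val]
  refine Matrix.ext fun r s => ?_
  rw [Matrix.add_apply, Matrix.mul_apply, Fin.sum_univ_one, mul_sc_apply, ads_apply, std_apply, std_apply]
  rcases eq_or_ne r s with rfl | hrs
  · rcases eq_or_ne r i with rfl | hri
    · simp
    · simp [Pi.mulSingle_eq_of_ne hri, hri]
  · rw [Matrix.diagonal_apply_ne _ hrs, Matrix.one_apply_ne hrs]
    split_ifs with h1 h2 <;> simp
    exact absurd (h1.trans h2.symm) hrs

/-- An element with a monomial column. -/
theorem column_normalizes {h : BU F m} (hh : h ∈ S.H) (i l : Fin m) (k : M₂)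
    (hk : (h : Mat) * (std i : Vec F m) = (std l : Vec F m) * sc k) :
    ∃ hd : k.det = 1, sl k hd ∈ Subgroup.normalizer ((S.Q : Subgroup SLF) : Set SLF) ∧
      ∀ a : SLF, h * diagU (Pi.mulSingle i a) * h⁻¹ = diagU (Pi.mulSingle l (sl k hd * a * (sl k hd)⁻¹)) := by
  have hu := S.hU h hh
  have h1 := mul_unit_vec h hu (std_unit (F := F) i)
  rw [hk, ads_mul, ads_sc, Matrix.mul_assoc, ← Matrix.mul_assoc (ads (std l : Vec F m)), std_unit,
    Matrix.one_mul, sc_adj_mul] at h1
  have hd : k.det = 1 := by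
    simpa using congrArg (fun X : Matrix (Fin 1) (Fin 1) M₂ => X 0 0 0 0) h1
  have key : ∀ a : SLF, h * diagU (Pi.mulSingle i a) * h⁻¹ =
      diagU (Pi.mulSingle l (sl k hd * a * (sl k hd)⁻¹)) := by
    intro a
    refine Units.ext ?_
    rw [Units.val_mul, Units.val_mul, single_form, single_form, Matrix.mul_add, Matrix.add_mul, Matrix.mul_one,
      ← Units.val_mul h h⁻¹, mul_inv_cancel, Units.val_one]
    congr 1
    rw [← hu, ← Matrix.mul_assoc (h : Mat), ← Matrix.mul_assoc (h : Mat), Matrix.mul_assoc _ (ads (std i : Vec F m)),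
      ← ads_mul, hk, ads_mul, ads_sc]
    simp only [Matrix.mul_assoc]
    congr 1
    rw [← Matrix.mul_assoc (sc ((a : M₂) - 1)), ← Matrix.mul_assoc (sc k), sc_mul, sc_mul]
    congr 2
    show k * (((a : M₂) - 1) * adjugate k) = k * (a : M₂) * adjugate k - 1
    rw [sub_mul, one_mul, mul_sub, Matrix.mul_adjugate, hd, one_smul, ← mul_assoc]
  refine ⟨hd, CfsgLib.SymSylow.mem_normalizer_of_conj_mem fun a ha => S.hX l _ ?_, key⟩
  rw [← key]
  exact S.H.mul_mem (S.H.mul_mem hh (S.single_mem ha i)) (S.H.inv_mem hh)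

/-- The general statement for a two-dimensional subspace. -/
theorem frame_cases {p q : Vec F m} (hp : ads p * p = 1) (hq : ads q * q = 1) (hpq : ads p * q = 0)
    (hpR : S.IsR p) (K : Subgroup (BU F m)) (hKH : K ≤ S.H)
    (hK : ∀ h ∈ K, (h : Mat) * (proj p + proj q) = (proj p + proj q) * (h : Mat))
    (hpK : rU p hp ∈ K)
    (hD : ∀ a b : SLF, a ∈ (S.Q : Subgroup SLF) → b ∈ (S.Q : Subgroup SLF) →
      ∃ h ∈ K, (h : Mat) * p = p * sc (a : M₂) ∧ (h : Mat) * q = q * sc (b : M₂))
    (hC : ∀ h ∈ K, ∀ k1 k2 : SLF, (h : Mat) * p = p * sc (k1 : M₂) → (h : Mat) * q = q * sc (k2 : M₂) →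
      k1 ∈ Subgroup.normalizer ((S.Q : Subgroup SLF) : Set SLF) ∧
        k2 ∈ Subgroup.normalizer ((S.Q : Subgroup SLF) : Set SLF))
    (hanti : ∀ h ∈ K, (inner' p ((h : Mat) * p)).det ≠ 2⁻¹)
    {v : Vec F m} (hv : ads v * v = 1) (hvK : rU v hv ∈ K) (hvp : (proj p + proj q) * v = v) :
    inner' p v = 0 ∨ inner' q v = 0 ∨ (inner' p v).det = 2⁻¹ := by
  have h2 := S.h2
  set V := cols p q with hVdef
  have hV : ads V * V = 1 := ads_cols_mul_cols hp hq hpq
  have hPi : V * ads V = proj p + proj q := cols_mul_ads p q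
  have hK' : ∀ h ∈ K, (h : Mat) * (V * ads V) = (V * ads V) * (h : Mat) := by rw [hPi]; exact hK
  set φ := compr V hV K hK' with hφ
  set J := φ.range with hJ
  -- columns of `V`
  have colmul : ∀ (X : Mat) (a b : M₂), X * p = p * sc a → X * q = q * sc b →
      ads V * X * V = Matrix.diagonal ![a, b] := by
    intro X a b ha hb
    have e : X * V = V * Matrix.diagonal ![a, b] := by
      refine Matrix.ext fun i r => ?_
      rw [Matrix.mul_diagonal]
      have hcol : (X * V) i r = (X * ![p, q] r) i 0 := by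
        rw [Matrix.mul_apply, Matrix.mul_apply]; rfl
      rw [hcol]
      fin_cases r
      · show (X * p) i 0 = p i 0 * a
        rw [ha, mul_sc_apply]
      · show (X * q) i 0 = q i 0 * b
        rw [hb, mul_sc_apply]
    rw [Matrix.mul_assoc, e, ← Matrix.mul_assoc, hV, Matrix.one_mul]
  have unitJ : ∀ g ∈ J, ads (g : Matrix (Fin 2) (Fin 2) M₂) = ((g⁻¹ : BU F 2) : Matrix (Fin 2) (Fin 2) M₂) := by
    rintro _ ⟨h, rfl⟩
    rw [← map_inv, compr_val, compr_val, ads_mul, ads_mul, ads_ads, S.hU _ (hKH h.2), ← Matrix.mul_assoc,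
      Subgroup.coe_inv]
  have hD' : ∀ a b : SLF, a ∈ (S.Q : Subgroup SLF) → b ∈ (S.Q : Subgroup SLF) → diagU ![a, b] ∈ J := by
    intro a b ha hb
    obtain ⟨h, hh, e1, e2⟩ := hD a b ha hb
    refine ⟨⟨h, hh⟩, Units.ext ?_⟩
    rw [compr_val, colmul _ _ _ e1 e2, diagU_val]
    congr 1
    funext r
    fin_cases r <;> rfl
  have hcolV : ∀ h ∈ K, ∀ r : Fin 2, (h : Mat) * ![p, q] r =
      (Matrix.of fun i (_ : Fin 1) => (V * (ads V * (h : Mat) * V)) i r : Vec F m) := by
    intro h hh r
    refine Matrix.ext fun i j => ?_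
    rw [Matrix.of_apply, ← comm_cols V hV (hK' h hh), Subsingleton.elim j 0, Matrix.mul_apply, Matrix.mul_apply]
    rfl
  have hC' : ∀ k1 k2 : SLF, diagU ![k1, k2] ∈ J →
      k1 ∈ Subgroup.normalizer ((S.Q : Subgroup SLF) : Set SLF) ∧
        k2 ∈ Subgroup.normalizer ((S.Q : Subgroup SLF) : Set SLF) := by
    rintro k1 k2 ⟨⟨h, hh⟩, e⟩
    have e' : ads V * (h : Mat) * V = Matrix.diagonal fun r => ((![k1, k2] r : SLF) : M₂) := by
      rw [← diagU_val, ← e]; rfl
    refine hC h hh k1 k2 ?_ ?_
    · rw [show p = ![p, q] 0 from rfl, hcolV h hh 0, e']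
      refine Matrix.ext fun i j => ?_
      rw [Matrix.of_apply, Matrix.mul_diagonal, Subsingleton.elim j 0, mul_sc_apply]
      rfl
    · rw [show q = ![p, q] 1 from rfl, hcolV h hh 1, e']
      refine Matrix.ext fun i j => ?_
      rw [Matrix.of_apply, Matrix.mul_diagonal, Subsingleton.elim j 0, mul_sc_apply]
      rfl
  -- images of reflections
  have hrefl : ∀ (x : Vec F m) (hx : ads x * x = 1) (hxK : rU x hx ∈ K),
      ((φ ⟨rU x hx, hxK⟩ : BU F 2) : Matrix (Fin 2) (Fin 2) M₂) =
        refl (ads V * x) := by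
    intro x hx hxK
    rw [compr_val, rU_val, refl, Matrix.mul_sub, Matrix.sub_mul, Matrix.mul_one, hV, Matrix.mul_smul,
      Matrix.smul_mul, refl, proj, proj, ads_mul, ads_ads]
    simp only [Matrix.mul_assoc]
  have hpE : φ ⟨rU p hp, hpK⟩ = eU := by
    refine Units.ext ?_
    rw [hrefl, eU, diagU_val]
    refine Matrix.ext fun r s => ?_
    rw [refl, Matrix.sub_apply, Matrix.smul_apply, proj_apply, ads_cols_mul_apply, ads_cols_mul_apply]
    have hqp : inner' q p = 0 := by
      rw [inner', ← ads_ads p, ← ads_mul, hpq]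
      simp
    have hpp : inner' p p = 1 := by rw [inner', hp]; rfl
    fin_cases r <;> fin_cases s <;> simp [hqp, hpp]
    module
  have hanti' : ∀ g ∈ J, g * eU * g⁻¹ * eU ≠ -(eU * (g * eU * g⁻¹)) := by
    rintro _ ⟨⟨h, hh⟩, rfl⟩ he
    have hx := mul_unit_vec h (S.hU h (hKH hh)) hp
    have hxK : rU _ hx ∈ K := by
      rw [← conj_rU h (S.hU h (hKH hh)) hp]; exact K.mul_mem (K.mul_mem hh hpK) (K.inv_mem hh)
    have e1 : φ ⟨h, hh⟩ * eU * (φ ⟨h, hh⟩)⁻¹ = φ ⟨rU _ hx, hxK⟩ := by
      rw [← hpE, ← map_inv, ← map_mul, ← map_mul]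
      congr 1
      exact Subtype.ext (conj_rU h (S.hU h (hKH hh)) hp)
    rw [e1] at he
    refine hanti h hh ?_
    have h' := congrArg (fun z : BU F 2 => (z : Matrix (Fin 2) (Fin 2) M₂) 0 0 0 0) he
    simp only [Units.val_mul, Units.val_neg, eU, diagU_val, Matrix.mul_diagonal, Matrix.diagonal_mul,
      Matrix.neg_apply, hrefl, refl, Matrix.sub_apply, Matrix.smul_apply, proj_apply, ads_cols_mul_apply, V] at h'
    simp [Matrix.mul_adjugate] at h'
    field_simp
    have h4 : (2 : F)⁻¹ * 2 = 1 := inv_mul_cancel₀ h2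
    linear_combination h' / 2 + (1 - (inner' p ((h : Mat) * p)).det * 2) * h4
  have hmain := pair_central S.hq S.Q S.P J unitJ hD' hC' hanti' (φ ⟨rU v hv, hvK⟩) ⟨_, rfl⟩
  set y := φ ⟨rU v hv, hvK⟩ with hy
  have hyi : y⁻¹ = y := by
    rw [hy, ← map_inv]
    congr 1
  have hsum : (inner' p v).det + (inner' q v).det = 1 := by
    have e : ads (ads V * v) * (ads V * v) = 1 := by
      rw [ads_mul, ads_ads, Matrix.mul_assoc, ← Matrix.mul_assoc V, hPi, hvp, hv]
    have h' := sum_cc (v := ads V * v) e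
    simpa [Fin.sum_univ_two, cc, V, ads_cols_mul_apply] using h'
  rcases hmain with hh | hh
  · -- commuting
    have hc := offdiag_of_commute h2 (mul_inv_eq_iff_eq_mul.1 hh)
    have h01 := hc.1
    rw [hy, hrefl, refl, Matrix.sub_apply, Matrix.smul_apply, proj_apply, ads_cols_mul_apply,
      ads_cols_mul_apply] at h01
    simp only [Matrix.one_apply, Matrix.cons_val_zero, Matrix.cons_val_one] at h01
    have h01' : inner' p v * adjugate (inner' q v) = 0 := by
      simpa [smul_eq_zero, h2] using h01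
    by_cases hc0 : (inner' p v).det = 0
    · left
      have h' := congrArg (fun X => X * inner' q v) h01'
      rw [hc0, zero_add] at hsum
      simpa [mul_assoc, Matrix.adjugate_mul, hsum] using h'
    · right; left
      have h' := congrArg (fun X => adjugate (inner' p v) * X) h01'
      rw [← mul_assoc, Matrix.adjugate_mul, Matrix.smul_mul, Matrix.one_mul, mul_zero,
        smul_eq_zero_iff_right hc0] at h'
      rw [← adj_adj (inner' q v), h', Matrix.adjugate_zero]
  · right; right
    rw [mul_inv_eq_iff_eq_mul, neg_mul] at hh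
    have h' := congrArg (fun z : BU F 2 => (z : Matrix (Fin 2) (Fin 2) M₂) 0 0 0 0) hh
    simp only [Units.val_mul, Units.val_neg, eU, diagU_val, Matrix.mul_diagonal, Matrix.diagonal_mul,
      Matrix.neg_apply, hy, hrefl, refl, Matrix.sub_apply, Matrix.smul_apply, proj_apply, ads_cols_mul_apply,
      V] at h'
    simp [Matrix.mul_adjugate] at h'
    field_simp
    have h4 : (2 : F)⁻¹ * 2 = 1 := inv_mul_cancel₀ h2
    linear_combination h' / 2 + (1 - (inner' p v).det * 2) * h4

theorem inner_std (i : Fin m) (v : Vec F m) : inner' (std i : Vec F m) v = v i 0 := by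
  rw [inner', Matrix.mul_apply, Finset.sum_eq_single i]
  · simp [std_apply]
  · intro b _ hb; simp [std_apply, hb]
  · simp

theorem std_orth {i j : Fin m} (hij : i ≠ j) : ads (std i : Vec F m) * (std j : Vec F m) = 0 := by
  rw [eq_sc (_ * _)]
  have : inner' (std i : Vec F m) (std j : Vec F m) = 0 := by rw [inner_std, std_apply, if_neg hij]
  funext a b
  exact this

theorem diag_comm_proj (a : Fin m → SLF) (i : Fin m) :
    ((diagU a : BU F m) : Mat) * proj (std i : Vec F m) = proj (std i : Vec F m) * (diagU a : BU F m) := by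
  rw [proj_std, diagU_val, Matrix.diagonal_mul_diagonal, Matrix.diagonal_mul_diagonal]
  congr 1
  funext l
  split_ifs <;> simp

theorem diag_mul_std (a : Fin m → SLF) (i : Fin m) :
    ((diagU a : BU F m) : Mat) * (std i : Vec F m) = (std i : Vec F m) * sc (a i : M₂) := by
  refine Matrix.ext fun r s => ?_
  rw [Subsingleton.elim s 0, diagU_mul_vec, mul_sc_apply, std_apply]
  rcases eq_or_ne r i with rfl | h
  · simp
  · simp [h]

variable {S}

/-- A fused vector of support two. -/
theorem pair_D (hW : S.NoFuse) {v : Vec F m} (hvD : S.IsD v) {i j : Fin m} (hij : i ≠ j)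
    (hs : supp v ⊆ {i, j}) : v i 0 = 0 ∨ v j 0 = 0 := by
  obtain ⟨hv, hvH⟩ := hvD.isR
  set p : Vec F m := std i
  set q : Vec F m := std j
  set Pi := proj p + proj q
  let K := S.H ⊓ commSub Pi
  have hPiv : ∀ X : Vec F m, supp X ⊆ {i, j} → Pi * X = X := by
    intro X hX
    refine Matrix.ext fun r s => ?_
    rw [Subsingleton.elim s 0, show Pi = proj p + proj q from rfl, proj_std, proj_std, Matrix.diagonal_add,
      Matrix.diagonal_mul]
    by_cases h : r ∈ supp X
    · have := hX h
      simp only [Finset.mem_insert, Finset.mem_singleton] at this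
      rcases this with rfl | rfl <;> simp [hij, hij.symm]
    · rw [notMem_supp.1 h, mul_zero]
  have hin : ∀ (x : Vec F m) (hx : ads x * x = 1), rU x hx ∈ S.H → Pi * x = x → rU x hx ∈ K := by
    intro x hx hxH hxP
    refine ⟨hxH, mem_commSub.2 ?_⟩
    have h1 := proj_of_fixed (cols p q) (v := x) (by rw [cols_mul_ads]; exact hxP)
    rw [cols_mul_ads] at h1
    rw [rU_val, refl, Matrix.sub_mul, Matrix.mul_sub, Matrix.one_mul, Matrix.mul_one, Matrix.smul_mul,
      Matrix.mul_smul, h1.1, h1.2]
  have hsp : supp p ⊆ {i, j} := fun r hr => by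
    simp only [mem_supp, p, std_apply] at hr
    simp only [Finset.mem_insert, Finset.mem_singleton]
    exact Or.inl (by by_contra h; simp [h] at hr)
  have res := S.frame_cases (p := p) (q := q) (std_unit i) (std_unit j) (std_orth hij) (S.isR_std i) K
    (fun _ h => h.1) (fun _ h => mem_commSub.1 h.2) (hin _ _ (S.std_mem i) (hPiv _ hsp))
    (fun a b ha hb => ?_) (fun h hh k1 k2 e1 e2 => ?_) (fun h hh => ?_) hv (hin _ _ hvH (hPiv _ hs)) (hPiv _ hs)
  · rw [inner_std, inner_std] at res
    rcases res with h | h | h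
    · exact Or.inl h
    · exact Or.inr h
    · exact absurd h (hW v hvD i j hij hs)
  · refine ⟨diagU (fun l => if l = i then a else if l = j then b else 1), ⟨S.hdiag _ fun l => ?_, ?_⟩, ?_, ?_⟩
    · split_ifs
      exacts [ha, hb, one_mem _]
    · refine mem_commSub.2 ?_
      show _ * (proj p + proj q) = (proj p + proj q) * _
      rw [Matrix.mul_add, Matrix.add_mul, diag_comm_proj, diag_comm_proj]
    · rw [diag_mul_std]; simp [p]
    · rw [diag_mul_std]; simp [q, hij.symm]
  · obtain ⟨_, h1, -⟩ := S.column_normalizes hh.1 i i _ e1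
    obtain ⟨_, h2, -⟩ := S.column_normalizes hh.1 j j _ e2
    exact ⟨h1, h2⟩
  · have hsupp : supp ((h : Mat) * p) ⊆ {i, j} := by
      intro r hr
      by_contra hn
      rw [mem_supp] at hr
      refine hr ?_
      have e : (h : Mat) * p = Pi * ((h : Mat) * p) := by
        rw [← Matrix.mul_assoc, ← mem_commSub.1 hh.2, Matrix.mul_assoc, hPiv p hsp]
      simp only [Finset.mem_insert, Finset.mem_singleton, not_or] at hn
      rw [e, show Pi = proj p + proj q from rfl, proj_std, proj_std, Matrix.diagonal_add, Matrix.diagonal_mul]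
      simp [hn.1, hn.2]
    rw [inner_std]
    exact hW _ (S.isD_column hh.1 i) i j hij hsupp

variable (S)

/-- The matrix normalizing `Q` with determinant one half. -/
def p0 : M₂ := (2 : F)⁻¹ • (1 + (S.P.u : M₂))

theorem adj_p0 : adjugate S.p0 = (2 : F)⁻¹ • (1 - (S.P.u : M₂)) := by
  rw [p0, adj_smul, adj_add, Matrix.adjugate_one, adj_coe, inv_of_sq S.P.uu, Matrix.SpecialLinearGroup.coe_neg,
    sub_eq_add_neg]

theorem p0_mul_adj : S.p0 * adjugate S.p0 = (2 : F)⁻¹ • (1 : M₂) := by
  rw [adj_p0, p0, smul_mul_smul_comm, mul_sub, add_mul, add_mul, one_mul, one_mul, mul_one, coe_sq S.P.uu]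
  have h2 := S.h2
  rw [show (1 : M₂) + (S.P.u : M₂) - ((S.P.u : M₂) + -1) = (2 : F) • 1 by module, smul_smul]
  congr 1
  field_simp

theorem det_p0 : S.p0.det = (2 : F)⁻¹ := by
  have h := congrFun (congrFun S.p0_mul_adj 0) 0
  rw [Matrix.mul_adjugate] at h
  simpa using h

theorem adj_mul_p0 : adjugate S.p0 * S.p0 = (2 : F)⁻¹ • (1 : M₂) := by
  rw [Matrix.adjugate_mul, det_p0]

/-- Conjugation by `p0`. -/
def tau (x : SLF) : SLF :=
  ⟨(2 : F) • (S.p0 * (x : M₂) * adjugate S.p0), by
    rw [Matrix.det_smul, Matrix.det_mul, Matrix.det_mul, Matrix.det_adjugate, x.2, S.det_p0]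
    have h2 := S.h2
    simp only [Fintype.card_fin, show (2 : ℕ) - 1 = 1 from rfl, pow_one, mul_one]
    field_simp⟩

theorem tau_mul (x y : SLF) : S.tau (x * y) = S.tau x * S.tau y := by
  refine Subtype.ext ?_
  show (2 : F) • (S.p0 * ((x * y : SLF) : M₂) * adjugate S.p0) =
    (2 : F) • (S.p0 * (x : M₂) * adjugate S.p0) * ((2 : F) • (S.p0 * (y : M₂) * adjugate S.p0))
  have h2 := S.h2
  rw [smul_mul_smul_comm, Matrix.SpecialLinearGroup.coe_mul,
    show S.p0 * (x : M₂) * adjugate S.p0 * (S.p0 * (y : M₂) * adjugate S.p0) =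
      S.p0 * (x : M₂) * (adjugate S.p0 * S.p0) * (y : M₂) * adjugate S.p0 by simp only [mul_assoc],
    S.adj_mul_p0, mul_smul_comm, mul_one, smul_mul_assoc, smul_mul_assoc, smul_smul]
  simp only [mul_assoc]
  congr 1
  field_simp

/-- Conjugation by `p0` as a homomorphism. -/
def tauHom : SLF →* SLF := MonoidHom.mk' S.tau S.tau_mul

theorem tau_inv (x : SLF) : S.tau x⁻¹ = (S.tau x)⁻¹ := map_inv S.tauHom x

theorem tau_Q {x : SLF} (hx : x ∈ (S.Q : Subgroup SLF)) : S.tau x ∈ (S.Q : Subgroup SLF) := by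
  have h2 := S.h2
  have Mu : (S.P.u : M₂) * S.P.u = -1 := coe_sq S.P.uu
  have Muw : (S.P.w : M₂) * S.P.u = -((S.P.u : M₂) * S.P.w) := by
    have := congrArg (fun z : SLF => (z : M₂)) S.P.uw
    simp at this
    rw [this, neg_neg]
  have hu : S.tau S.P.u = S.P.u := by
    refine Subtype.ext ?_
    show (2 : F) • (S.p0 * (S.P.u : M₂) * adjugate S.p0) = S.P.u
    have e : S.p0 * (S.P.u : M₂) = (S.P.u : M₂) * S.p0 := by
      rw [p0, smul_mul_assoc, mul_smul_comm, add_mul, mul_add, one_mul, mul_one]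
    rw [e, mul_assoc, S.p0_mul_adj, mul_smul_comm, mul_one, smul_smul, mul_inv_cancel₀ h2, one_smul]
  have hw : S.tau S.P.w = S.P.u * S.P.w := by
    refine Subtype.ext ?_
    show (2 : F) • (S.p0 * (S.P.w : M₂) * adjugate S.p0) = ((S.P.u * S.P.w : SLF) : M₂)
    rw [Matrix.SpecialLinearGroup.coe_mul]
    have e1 : (1 + (S.P.u : M₂)) * S.P.w * (1 - (S.P.u : M₂)) = (2 : F) • ((S.P.u : M₂) * S.P.w) := by
      rw [add_mul, one_mul, mul_sub, mul_one, add_mul, Muw, mul_assoc (S.P.u : M₂) (S.P.w : M₂) (S.P.u : M₂),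
        Muw, mul_neg, ← mul_assoc (S.P.u : M₂) (S.P.u : M₂), Mu, neg_one_mul, neg_neg]
      module
    rw [adj_p0, p0, smul_mul_assoc, smul_mul_smul_comm, e1, smul_smul, smul_smul]
    field_simp
    rw [one_smul]
  have hneg : ∀ y : SLF, S.tau y ∈ (S.Q : Subgroup SLF) → S.tau (-y) ∈ (S.Q : Subgroup SLF) := by
    intro y hy
    have e : S.tau (-y) = -S.tau y := Subtype.ext (by
      show (2 : F) • (S.p0 * ((-y : SLF) : M₂) * adjugate S.p0) = ((-S.tau y : SLF) : M₂)
      rw [Matrix.SpecialLinearGroup.coe_neg, Matrix.SpecialLinearGroup.coe_neg, mul_neg, neg_mul, smul_neg]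
      rfl)
    rw [e, ← neg_one_mul]
    exact mul_mem S.neg_mem hy
  have h1 : S.tau 1 ∈ (S.Q : Subgroup SLF) := by
    rw [show S.tau 1 = 1 from map_one S.tauHom]; exact one_mem _
  have hu' : S.tau S.P.u ∈ (S.Q : Subgroup SLF) := by rw [hu]; exact S.P.hu
  have hw' : S.tau S.P.w ∈ (S.Q : Subgroup SLF) := hw ▸ mul_mem S.P.hu S.P.hw
  have huw : S.tau (S.P.u * S.P.w) ∈ (S.Q : Subgroup SLF) := by rw [S.tau_mul]; exact mul_mem hu' hw'
  rcases mem_cases S.hq S.Q S.P hx with rfl | rfl | rfl | rfl | rfl | rfl | rfl | rfl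
  exacts [h1, hneg _ h1, hu', hneg _ hu', hw', hneg _ hw', huw, hneg _ huw]

/-- If `tau k` normalizes `Q` then so does `k`. -/
theorem normalizer_of_tau {k : SLF}
    (hk : S.tau k ∈ Subgroup.normalizer ((S.Q : Subgroup SLF) : Set SLF)) :
    k ∈ Subgroup.normalizer ((S.Q : Subgroup SLF) : Set SLF) := by
  have hinj : Function.Injective S.tau := by
    intro x y h
    have h' := congrArg (fun z : SLF => adjugate S.p0 * (z : M₂) * S.p0) h
    have key : ∀ z : SLF, adjugate S.p0 * ((2 : F) • (S.p0 * (z : M₂) * adjugate S.p0)) * S.p0 =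
        (2 : F)⁻¹ • (z : M₂) := by
      intro z
      rw [mul_smul_comm, smul_mul_assoc, show adjugate S.p0 * (S.p0 * (z : M₂) * adjugate S.p0) * S.p0 =
        (adjugate S.p0 * S.p0) * (z : M₂) * (adjugate S.p0 * S.p0) by simp only [mul_assoc], S.adj_mul_p0,
        smul_mul_assoc, one_mul, mul_smul_comm, mul_one, smul_smul, smul_smul]
      congr 1
      have h2 := S.h2
      field_simp
    exact Subtype.ext (smul_right_injective _ (inv_ne_zero S.h2) ((key x).symm.trans (h'.trans (key y))))
  refine CfsgLib.SymSylow.mem_normalizer_of_conj_mem fun a ha => ?_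
  have h1 : S.tau (k * a * k⁻¹) ∈ (S.Q : Subgroup SLF) := by
    rw [S.tau_mul, S.tau_mul, S.tau_inv]
    exact (Subgroup.mem_normalizer_iff.1 hk _).1 (S.tau_Q ha)
  haveI : Finite (S.Q : Subgroup SLF) := inferInstance
  obtain ⟨⟨b, hb⟩, e⟩ := (Finite.injective_iff_surjective (f := fun x : (S.Q : Subgroup SLF) =>
    (⟨S.tau x, S.tau_Q x.2⟩ : (S.Q : Subgroup SLF)))).1
    (fun x y h => Subtype.ext (hinj (congrArg Subtype.val h))) ⟨_, h1⟩
  exact hinj (congrArg Subtype.val e) ▸ hb

/-- The axis vector of a transposition. -/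
def wv (i j : Fin m) (b : SLF) : Vec F m :=
  fun l _ => if l = i then S.p0 else if l = j then (b : M₂) * S.p0 else 0

variable {i j : Fin m}

theorem wv_i (b : SLF) : S.wv i j b i 0 = S.p0 := if_pos rfl

theorem wv_j (hij : i ≠ j) (b : SLF) : S.wv i j b j 0 = (b : M₂) * S.p0 := by
  simp [wv, hij.symm]

theorem wv_other {l : Fin m} (hi : l ≠ i) (hj : l ≠ j) (b : SLF) : S.wv i j b l 0 = 0 := by
  simp [wv, hi, hj]

theorem inner_wv (hij : i ≠ j) (b : SLF) (v : Vec F m) :
    inner' (S.wv i j b) v = adjugate S.p0 * (v i 0 + ((b⁻¹ : SLF) : M₂) * v j 0) := by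
  rw [inner', Matrix.mul_apply, Fintype.sum_eq_add i j hij]
  · rw [ads_apply, ads_apply, wv_i, wv_j S hij, Matrix.adjugate_mul_distrib, adj_coe, mul_add, mul_assoc]
  · rintro l ⟨hi, hj⟩
    rw [ads_apply, wv_other S hi hj]
    simp

theorem wv_unit (hij : i ≠ j) (b : SLF) : ads (S.wv i j b) * S.wv i j b = 1 := by
  have h : inner' (S.wv i j b) (S.wv i j b) = 1 := by
    rw [inner_wv S hij, wv_i, wv_j S hij, ← mul_assoc ((b⁻¹ : SLF) : M₂), ← Matrix.SpecialLinearGroup.coe_mul,
      inv_mul_cancel, Matrix.SpecialLinearGroup.coe_one, one_mul, mul_add, S.adj_mul_p0, ← two_smul F,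
      smul_smul, mul_inv_cancel₀ S.h2, one_smul]
  rw [ads_mul_eq, h, sc_one]

theorem wv_orth (hij : i ≠ j) (b : SLF) : ads (S.wv i j (-b)) * S.wv i j b = 0 := by
  have h : inner' (S.wv i j (-b)) (S.wv i j b) = 0 := by
    rw [inner_wv S hij, wv_i, wv_j S hij, ← mul_assoc, ← Matrix.SpecialLinearGroup.coe_mul,
      show (-b)⁻¹ * b = (-1 : SLF) by
        rw [show (-b)⁻¹ = -b⁻¹ from inv_eq_of_mul_eq_one_right (by simp), neg_mul, inv_mul_cancel],
      Matrix.SpecialLinearGroup.coe_neg, Matrix.SpecialLinearGroup.coe_one, neg_one_mul, add_neg_cancel, mul_zero]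
  rw [ads_mul_eq, h]
  rfl

theorem supp_wv (hij : i ≠ j) (b : SLF) : supp (S.wv i j b) ⊆ {i, j} := by
  intro l hl
  by_contra hn
  simp only [Finset.mem_insert, Finset.mem_singleton, not_or] at hn
  exact mem_supp.1 hl (wv_other S hn.1 hn.2 b)

theorem rU_wv_mem (hij : i ≠ j) {b : SLF} (hb : b ∈ (S.Q : Subgroup SLF))
    (hsw : permU (Equiv.swap i j) ∈ S.H) : rU (S.wv i j b) (S.wv_unit hij b) ∈ S.H := by
  classical
  set d : Fin m → SLF := fun l => if l = i then -b⁻¹ else if l = j then -b else 1 with hd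
  have hdH : diagU d ∈ S.H := S.hdiag d fun l => by
    simp only [hd]
    split_ifs
    · rw [← neg_one_mul]; exact mul_mem S.neg_mem (inv_mem hb)
    · rw [← neg_one_mul]; exact mul_mem S.neg_mem hb
    · exact one_mem _
  refine (congrArg (· ∈ S.H) (Units.ext (Matrix.ext fun r s => ?_))).mp (S.H.mul_mem hdH hsw)
  have h2 := S.h2
  rw [Units.val_mul, mul_permU_apply, diagU_val, rU_val, refl, Matrix.sub_apply, Matrix.smul_apply, proj_apply]
  have e11 : (2 : F) • (S.p0 * adjugate S.p0) = 1 := by
    rw [S.p0_mul_adj, smul_smul, mul_inv_cancel₀ h2, one_smul]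
  have eij : (2 : F) • (S.p0 * adjugate ((b : M₂) * S.p0)) = ((b⁻¹ : SLF) : M₂) := by
    rw [Matrix.adjugate_mul_distrib, adj_coe, ← mul_assoc, ← smul_mul_assoc, e11, one_mul]
  have eji : (2 : F) • ((b : M₂) * S.p0 * adjugate S.p0) = (b : M₂) := by
    rw [mul_assoc, ← mul_smul_comm, e11, mul_one]
  have ejj : (2 : F) • ((b : M₂) * S.p0 * adjugate ((b : M₂) * S.p0)) = 1 := by
    rw [mul_assoc (b : M₂) S.p0, ← mul_smul_comm, eij, ← Matrix.SpecialLinearGroup.coe_mul, mul_inv_cancel,
      Matrix.SpecialLinearGroup.coe_one]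
  rcases eq_or_ne r i with rfl | hri
  · rw [wv_i]
    rcases eq_or_ne s r with rfl | hsr
    · rw [wv_i, e11, Equiv.swap_apply_left, Matrix.diagonal_apply_ne _ hij]; simp
    · rcases eq_or_ne s j with rfl | hsj
      · rw [wv_j S hij, eij, Equiv.swap_apply_right, Matrix.diagonal_apply_eq, Matrix.one_apply_ne hsr.symm]
        simp [hd]
      · rw [wv_other S hsr hsj, Equiv.swap_apply_of_ne_of_ne hsr hsj, Matrix.diagonal_apply_ne _ hsr.symm,
          Matrix.one_apply_ne hsr.symm]
        simp
  rcases eq_or_ne r j with rfl | hrj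
  · rw [wv_j S hij]
    rcases eq_or_ne s i with rfl | hsi
    · rw [wv_i, eji, Equiv.swap_apply_left, Matrix.diagonal_apply_eq, Matrix.one_apply_ne hij.symm]
      simp [hd, hij.symm]
    · rcases eq_or_ne s r with rfl | hsr
      · rw [wv_j S hij, ejj, Equiv.swap_apply_right, Matrix.diagonal_apply_ne _ hij.symm]; simp
      · rw [wv_other S hsi hsr, Equiv.swap_apply_of_ne_of_ne hsi hsr, Matrix.diagonal_apply_ne _ hsr.symm,
          Matrix.one_apply_ne hsr.symm]
        simp
  rw [wv_other S hri hrj]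
  have hsr : Equiv.swap i j s = r ↔ s = r := by
    rw [← Equiv.eq_symm_apply, Equiv.symm_swap, Equiv.swap_apply_of_ne_of_ne hri hrj]
  rcases eq_or_ne s r with rfl | hne
  · rw [hsr.2 rfl, Matrix.diagonal_apply_eq]; simp [hd, hri, hrj]
  · rw [Matrix.diagonal_apply_ne _ (fun e => hne (hsr.1 e.symm)), Matrix.one_apply_ne hne.symm]; simp

variable {S}

theorem wv_not_D (hW : S.NoFuse) (hij : i ≠ j) (b : SLF) : ¬ S.IsD (S.wv i j b) := fun h =>
  hW _ h i j hij (S.supp_wv hij b) (by rw [cc, wv_i, S.det_p0])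

/-- The vector `refl v * std k`. -/
theorem convert_apply (v : Vec F m) (k l : Fin m) :
    (refl v * (std k : Vec F m)) l 0 =
      (if l = k then 1 else 0) - (2 : F) • (v l 0 * adjugate (v k 0)) := by
  rw [mul_std, refl, Matrix.sub_apply, Matrix.smul_apply, proj_apply, Matrix.one_apply]

theorem convert_isD {v : Vec F m} (hvR : S.IsR v) (k : Fin m) : S.IsD (refl v * (std k : Vec F m)) := by
  obtain ⟨hv, hH⟩ := hvR
  exact S.isD_column hH k

/-- A reflection in the span of a coordinate and the axis of a transposition. -/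
theorem kw_cases (hW : S.NoFuse) {k : Fin m} (hki : k ≠ i) (hkj : k ≠ j) (hij : i ≠ j)
    (hsw : permU (Equiv.swap i j) ∈ S.H) {b : SLF} (hb : b ∈ (S.Q : Subgroup SLF)) {v : Vec F m}
    (hvR : S.IsR v) (hs : supp v ⊆ {k, i, j}) (horth : inner' (S.wv i j (-b)) v = 0) :
    v k 0 = 0 ∨ inner' (S.wv i j b) v = 0 := by
  classical
  have h2 := S.h2
  have hnb : -b ∈ (S.Q : Subgroup SLF) := by rw [← neg_one_mul]; exact mul_mem S.neg_mem hb
  set p : Vec F m := std k
  set q := S.wv i j b
  set r := S.wv i j (-b)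
  have hq := S.wv_unit hij b
  have hpq : ads p * q = 0 := by
    rw [ads_mul_eq p q, show inner' p q = 0 by rw [inner_std]; exact S.wv_other hki hkj b]
    rfl
  have hpr : ads p * r = 0 := by
    rw [ads_mul_eq p r, show inner' p r = 0 by rw [inner_std]; exact S.wv_other hki hkj _]
    rfl
  -- completeness
  have hfix : ∀ X : Vec F m, supp X ⊆ {k, i, j} → inner' r X = 0 → (proj p + proj q) * X = X := by
    intro X hX hr
    have e : (proj p + proj q) * X = (proj p + proj q) * X + proj r * X := by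
      rw [show proj r = r * ads r from rfl, Matrix.mul_assoc, ads_mul_eq, hr]
      simp [show sc (0 : M₂) = 0 from rfl]
    rw [e]
    refine Matrix.ext fun l s => ?_
    rw [Subsingleton.elim s 0, Matrix.add_mul, Matrix.add_apply, Matrix.add_apply]
    simp only [proj, Matrix.mul_assoc, ads_mul_eq, mul_sc_apply, inner_std, q, r, S.inner_wv hij,
      show ∀ x : Vec F m, inner' p x = x k 0 from fun x => inner_std k x]
    have e11 : (2 : F) • (S.p0 * adjugate S.p0) = 1 := by
      rw [S.p0_mul_adj, smul_smul, mul_inv_cancel₀ h2, one_smul]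
    have hnbi : (((-b)⁻¹ : SLF) : M₂) = -((b⁻¹ : SLF) : M₂) := by
      rw [show (-b)⁻¹ = -b⁻¹ from inv_eq_of_mul_eq_one_right (by simp), Matrix.SpecialLinearGroup.coe_neg]
    rcases eq_or_ne l i with rfl | hli
    · rw [show p l 0 = 0 from if_neg hki.symm, wv_i, wv_i, hnbi, zero_mul, zero_add, ← mul_add, ← mul_add]
      rw [show X l 0 + ((b⁻¹ : SLF) : M₂) * X j 0 + (X l 0 + -((b⁻¹ : SLF) : M₂) * X j 0) = (2 : F) • X l 0 by
        rw [neg_mul]; module, mul_smul_comm, mul_smul_comm, ← mul_assoc, ← smul_mul_assoc, e11, one_mul]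
    rcases eq_or_ne l j with rfl | hlj
    · rw [show p l 0 = 0 from if_neg hkj.symm, wv_j S hij, wv_j S hij, hnbi, zero_mul, zero_add,
        Matrix.SpecialLinearGroup.coe_neg]
      simp only [neg_mul]
      rw [← sub_eq_add_neg, ← sub_eq_add_neg, ← mul_sub,
        ← mul_sub,
        show X i 0 + ((b⁻¹ : SLF) : M₂) * X l 0 - (X i 0 - ((b⁻¹ : SLF) : M₂) * X l 0) =
          (2 : F) • (((b⁻¹ : SLF) : M₂) * X l 0) by module,
        mul_smul_comm, mul_smul_comm, ← mul_assoc, mul_assoc (b : M₂) S.p0, ← smul_mul_assoc, ← mul_smul_comm,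
        e11, mul_one, ← mul_assoc, ← Matrix.SpecialLinearGroup.coe_mul, mul_inv_cancel,
        Matrix.SpecialLinearGroup.coe_one, one_mul]
    rw [S.wv_other hli hlj, S.wv_other hli hlj, zero_mul, zero_mul, add_zero, add_zero]
    rcases eq_or_ne l k with rfl | hlk
    · rw [show p l 0 = 1 from if_pos rfl, one_mul]
    · rw [show p l 0 = 0 from if_neg hlk, zero_mul]
      refine (notMem_supp.1 fun hmem => ?_).symm
      have := hX hmem
      simp only [Finset.mem_insert, Finset.mem_singleton] at this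
      rcases this with h | h | h <;> contradiction
  let K := S.H ⊓ commSub (proj p + proj q) ⊓ commSub (proj r)
  have hin : ∀ (x : Vec F m) (hx : ads x * x = 1), rU x hx ∈ S.H → (proj p + proj q) * x = x →
      inner' r x = 0 → rU x hx ∈ K := by
    intro x hx hxH hxP hxr
    have h1 := proj_of_fixed (cols p q) (v := x) (by rw [cols_mul_ads]; exact hxP)
    rw [cols_mul_ads] at h1
    refine ⟨⟨hxH, mem_commSub.2 ?_⟩, mem_commSub.2 ?_⟩
    · rw [rU_val, refl, Matrix.sub_mul, Matrix.mul_sub, Matrix.one_mul, Matrix.mul_one, Matrix.smul_mul,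
        Matrix.mul_smul, h1.1, h1.2]
    · have e1 : ads r * x = 0 := by rw [ads_mul_eq, hxr]; rfl
      have e2 : ads x * r = 0 := by
        rw [ads_mul_eq' r x, hxr, Matrix.adjugate_zero]; rfl
      rw [rU_val, refl, Matrix.sub_mul, Matrix.mul_sub, Matrix.one_mul, Matrix.mul_one, Matrix.smul_mul,
        Matrix.mul_smul, show proj x = x * ads x from rfl, show proj r = r * ads r from rfl, Matrix.mul_assoc x, ← Matrix.mul_assoc (ads x), e2,
        Matrix.mul_assoc r, ← Matrix.mul_assoc (ads r), e1]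
      simp
  have hsp : supp p ⊆ {k, i, j} := fun l hl => by
    rw [mem_supp] at hl
    simp only [Finset.mem_insert, Finset.mem_singleton]
    exact Or.inl (by by_contra h; exact hl (if_neg h))
  have hrp : inner' r p = 0 := by
    rw [S.inner_wv hij, show p i 0 = 0 from if_neg hki.symm, show p j 0 = 0 from if_neg hkj.symm]
    simp
  have halves : ∀ x : Vec F m, S.IsR x → supp x ⊆ {k, i, j} → inner' r x = 0 → cc x k ≠ 2⁻¹ := by
    intro x hxR hxs hxr hc
    set u := refl x * (std k : Vec F m)
    have hu0 : u k 0 = 0 := by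
      simp only [u]
      rw [convert_apply, if_pos rfl, Matrix.mul_adjugate, show (x k 0).det = 2⁻¹ from hc, smul_smul,
        mul_inv_cancel₀ h2, one_smul, sub_self]
    have hus : supp u ⊆ {k, i, j} := by
      intro l hl
      by_contra hn
      simp only [Finset.mem_insert, Finset.mem_singleton, not_or] at hn
      simp only [mem_supp, u] at hl
      have hxl : x l 0 = 0 := notMem_supp.1 fun h => by
        have := hxs h
        simp [hn.1, hn.2.1, hn.2.2] at this
      rw [convert_apply, if_neg hn.1, hxl] at hl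
      simp at hl
    have hur : inner' r u = 0 := by
      have e1 : ads r * x = 0 := by rw [ads_mul_eq, hxr]; rfl
      have e2 : ads r * u = 0 := by
        show ads r * (refl x * p) = 0
        rw [← Matrix.mul_assoc, refl, Matrix.mul_sub, Matrix.mul_one, Matrix.mul_smul, proj, ← Matrix.mul_assoc,
          e1, Matrix.zero_mul, smul_zero, sub_zero, ads_mul_eq r p, hrp]
        rfl
      rw [inner', e2]
      rfl
    have huD : S.IsD u := convert_isD hxR k
    obtain ⟨hu, -⟩ := id huD
    have huq : u = q * sc (inner' q u) := by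
      conv_lhs => rw [← hfix u hus hur]
      rw [Matrix.add_mul, proj, Matrix.mul_assoc, proj, Matrix.mul_assoc, ads_mul_eq, ads_mul_eq, inner_std, hu0]
      simp [show sc (0 : M₂) = 0 from rfl]
    have hP : proj u = proj q := by
      have hdet : (inner' q u).det = 1 := by
        rw [huq, ads_mul, ads_sc, Matrix.mul_assoc, ← Matrix.mul_assoc (ads q), hq, Matrix.one_mul,
          sc_adj_mul] at hu
        simpa using congrArg (fun X : Matrix (Fin 1) (Fin 1) M₂ => X 0 0 0 0) hu
      rw [huq, proj_mul_sc, hdet, one_smul]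
    exact wv_not_D hW hij b (S.isD_congr huD hq hP)
  obtain ⟨hv, hvH⟩ := id hvR
  have res := S.frame_cases (p := p) (q := q) (std_unit k) hq hpq (S.isR_std k) K (fun _ h => h.1.1)
    (fun _ h => mem_commSub.1 h.1.2) (hin _ _ (S.std_mem k) (hfix _ hsp hrp) hrp)
    (fun a c ha hc => ?_) (fun h hh k1 k2 e1 e2 => ?_) (fun h hh => ?_) hv (hin _ _ hvH (hfix _ hs horth) horth)
    (hfix _ hs horth)
  · rw [inner_std] at res
    rcases res with h | h | h
    · exact Or.inl h
    · exact Or.inr h
    · exact absurd h (halves v hvR hs horth)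
  · -- the diagonal elements
    set d : Fin m → SLF := fun l => if l = k then a else if l = i then S.tau c else
      if l = j then b * S.tau c * b⁻¹ else 1 with hd
    have hdH : diagU d ∈ S.H := S.hdiag d fun l => by
      simp only [hd]
      split_ifs
      exacts [ha, S.tau_Q hc, mul_mem (mul_mem hb (S.tau_Q hc)) (inv_mem hb), one_mem _]
    have tp : ((S.tau c : SLF) : M₂) * S.p0 = S.p0 * (c : M₂) := by
      show (2 : F) • (S.p0 * (c : M₂) * adjugate S.p0) * S.p0 = _
      rw [smul_mul_assoc, mul_assoc _ (adjugate S.p0), S.adj_mul_p0, mul_smul_comm, mul_one, smul_smul,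
        mul_inv_cancel₀ h2, one_smul]
    have hw : ∀ b' : SLF, b' = b ∨ b' = -b →
        ((diagU d : BU F m) : Mat) * S.wv i j b' = S.wv i j b' * sc (c : M₂) := by
      intro b' hb'
      refine Matrix.ext fun l s => ?_
      rw [Subsingleton.elim s 0, diagU_mul_vec, mul_sc_apply]
      rcases eq_or_ne l i with rfl | hli
      · rw [wv_i, show d l = S.tau c by simp [hd, hki.symm], tp]
      rcases eq_or_ne l j with rfl | hlj
      · rw [wv_j S hij, show d l = b * S.tau c * b⁻¹ by simp [hd, hkj.symm, hij.symm]]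
        have e : b * S.tau c * b⁻¹ * b' = b' * S.tau c := by
          rcases hb' with rfl | rfl
          · group
          · rw [mul_neg, neg_mul, inv_mul_cancel_right]
        rw [← mul_assoc ((b * S.tau c * b⁻¹ : SLF) : M₂), ← Matrix.SpecialLinearGroup.coe_mul, e,
          Matrix.SpecialLinearGroup.coe_mul, mul_assoc, tp, mul_assoc]
      · rw [S.wv_other hli hlj]; simp
    have hpd : ((diagU d : BU F m) : Mat) * p = p * sc (a : M₂) := by
      rw [diag_mul_std, show d k = a by simp [hd]]
    have cm : ∀ (x : Vec F m) (e : SLF), ((diagU d : BU F m) : Mat) * x = x * sc (e : M₂) →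
        ((diagU d : BU F m) : Mat) * proj x = proj x * (diagU d : BU F m) := by
      intro x e he
      have hc' := conj_proj (diagU d) (S.hU _ hdH) x
      rw [he, proj_mul_sc, e.2, one_smul] at hc'
      nth_rewrite 2 [hc']
      rw [Matrix.mul_assoc, ← Units.val_mul, inv_mul_cancel, Units.val_one, Matrix.mul_one]
    refine ⟨diagU d, ⟨⟨hdH, ?_⟩, ?_⟩, hpd, hw b (Or.inl rfl)⟩
    · refine mem_commSub.2 ?_
      rw [Matrix.mul_add, Matrix.add_mul, cm p a hpd, cm q c (hw b (Or.inl rfl))]
    · refine mem_commSub.2 ?_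
      exact cm r c (hw _ (Or.inr rfl))
  · -- the normalizing property
    obtain ⟨_, hn1, -⟩ := S.column_normalizes hh.1.1 k k _ e1
    refine ⟨hn1, ?_⟩
    set km := inner' r ((h : Mat) * r)
    have hr' : (h : Mat) * r = r * sc km := by
      rw [← ads_mul_eq r]
      calc (h : Mat) * r = (h : Mat) * (proj r * r) := by rw [proj_mul_vec (S.wv_unit hij (-b))]
        _ = proj r * ((h : Mat) * r) := by rw [← Matrix.mul_assoc, mem_commSub.1 hh.2, Matrix.mul_assoc]
        _ = _ := Matrix.mul_assoc _ _ _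
    have e11 : (2 : F) • (S.p0 * adjugate S.p0) = 1 := by
      rw [S.p0_mul_adj, smul_smul, mul_inv_cancel₀ h2, one_smul]
    have hei : (std i : Vec F m) = (q + r) * sc (adjugate S.p0) := by
      refine Matrix.ext fun l s => ?_
      rw [Subsingleton.elim s 0, mul_sc_apply, Matrix.add_apply, std_apply]
      simp only [q, r]
      rcases eq_or_ne l i with rfl | hli
      · rw [wv_i, wv_i, if_pos rfl, ← two_smul F, smul_mul_assoc, e11]
      rcases eq_or_ne l j with rfl | hlj
      · rw [wv_j S hij, wv_j S hij, if_neg hij.symm, Matrix.SpecialLinearGroup.coe_neg, neg_mul, add_neg_cancel,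
          zero_mul]
      · rw [S.wv_other hli hlj, S.wv_other hli hlj, if_neg hli, add_zero, zero_mul]
    have hu : (h : Mat) * (std i : Vec F m) = (q * sc (k2 : M₂) + r * sc km) * sc (adjugate S.p0) := by
      rw [hei, ← Matrix.mul_assoc, Matrix.mul_add, e2, hr']
    set u := (h : Mat) * (std i : Vec F m) with hudef
    have hus : supp u ⊆ {i, j} := by
      intro l hl
      by_contra hn
      simp only [Finset.mem_insert, Finset.mem_singleton, not_or] at hn
      rw [mem_supp, hu, mul_sc_apply, Matrix.add_apply, mul_sc_apply, mul_sc_apply] at hl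
      simp only [q, r, S.wv_other hn.1 hn.2] at hl
      simp at hl
    have ui : u i 0 = S.p0 * ((k2 : M₂) + km) * adjugate S.p0 := by
      rw [hu, mul_sc_apply, Matrix.add_apply, mul_sc_apply, mul_sc_apply]
      simp only [q, r, wv_i]
      rw [← mul_add]
    have uj : u j 0 = (b : M₂) * (S.p0 * ((k2 : M₂) - km) * adjugate S.p0) := by
      rw [hu, mul_sc_apply, Matrix.add_apply, mul_sc_apply, mul_sc_apply]
      simp only [q, r, wv_j S hij, Matrix.SpecialLinearGroup.coe_neg, neg_mul]
      rw [← sub_eq_add_neg, mul_assoc, mul_assoc (b : M₂) S.p0 km, ← mul_sub, ← mul_sub, mul_assoc (b : M₂)]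
    have cancel : ∀ X : M₂, S.p0 * X * adjugate S.p0 = 0 → X = 0 := by
      intro X hX
      have h' := congrArg (fun Y => (2 * 2 : F) • (adjugate S.p0 * Y * S.p0)) hX
      simp only [mul_zero, zero_mul, smul_zero] at h'
      rw [show adjugate S.p0 * (S.p0 * X * adjugate S.p0) * S.p0 =
        (adjugate S.p0 * S.p0) * X * (adjugate S.p0 * S.p0) by simp only [mul_assoc], S.adj_mul_p0,
        smul_mul_assoc, one_mul, mul_smul_comm, mul_one, smul_smul, smul_smul] at h'
      exact (smul_eq_zero_iff_right (by field_simp; exact one_ne_zero)).1 h'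
    rcases pair_D hW (S.isD_column hh.1.1 i) hij hus with hz | hz
    · -- moved to the other coordinate
      have hz : u i 0 = 0 := hz
      rw [ui] at hz
      have hk : km = -(k2 : M₂) := eq_neg_of_add_eq_zero_right (cancel _ hz)
      have hcol : (h : Mat) * (std i : Vec F m) = (std j : Vec F m) * sc ((b * S.tau k2 : SLF) : M₂) := by
        refine Matrix.ext fun l s => ?_
        rw [Subsingleton.elim s 0, ← hudef, mul_sc_apply, std_apply]
        rcases eq_or_ne l j with rfl | hlj
        · rw [uj, hk, sub_neg_eq_add, ← two_smul F, mul_smul_comm, smul_mul_assoc, if_pos rfl, one_mul,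
            Matrix.SpecialLinearGroup.coe_mul]
          rfl
        · rw [if_neg hlj, zero_mul]
          rcases eq_or_ne l i with rfl | hli
          · rw [ui, hk, add_neg_cancel, mul_zero, zero_mul]
          · exact notMem_supp.1 fun hm => by
              have := hus hm; simp [hli, hlj] at this
      obtain ⟨hd', hn, -⟩ := S.column_normalizes hh.1.1 i j _ hcol
      refine S.normalizer_of_tau ?_
      have := mul_mem (inv_mem (Subgroup.le_normalizer hb)) hn
      rwa [show sl ((b * S.tau k2 : SLF) : M₂) hd' = b * S.tau k2 from rfl, inv_mul_cancel_left] at this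
    · have hz : u j 0 = 0 := hz
      rw [uj] at hz
      have hk : km = (k2 : M₂) := by
        have h' := congrArg (fun Y => ((b⁻¹ : SLF) : M₂) * Y) hz
        simp only [mul_zero] at h'
        rw [← mul_assoc, ← Matrix.SpecialLinearGroup.coe_mul, inv_mul_cancel, Matrix.SpecialLinearGroup.coe_one,
          one_mul] at h'
        exact (sub_eq_zero.1 (cancel _ h')).symm
      have hcol : (h : Mat) * (std i : Vec F m) = (std i : Vec F m) * sc ((S.tau k2 : SLF) : M₂) := by
        refine Matrix.ext fun l s => ?_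
        rw [Subsingleton.elim s 0, ← hudef, mul_sc_apply, std_apply]
        rcases eq_or_ne l i with rfl | hli
        · rw [ui, hk, ← two_smul F, mul_smul_comm, smul_mul_assoc, if_pos rfl, one_mul]
          rfl
        · rw [if_neg hli, zero_mul]
          rcases eq_or_ne l j with rfl | hlj
          · rw [uj, hk, sub_self, mul_zero, zero_mul, mul_zero]
          · exact notMem_supp.1 fun hm => by
              have := hus hm; simp [hli, hlj] at this
      obtain ⟨hd', hn, -⟩ := S.column_normalizes hh.1.1 i i _ hcol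
      exact S.normalizer_of_tau hn
  · -- no anticommuting conjugate
    have hh' := hh
    have hxP : (proj p + proj q) * ((h : Mat) * p) = (h : Mat) * p := by
      rw [← Matrix.mul_assoc, ← mem_commSub.1 hh'.1.2, Matrix.mul_assoc, hfix p hsp hrp]
    have hxs : supp ((h : Mat) * p) ⊆ {k, i, j} := by
      intro l hl
      by_contra hn
      simp only [Finset.mem_insert, Finset.mem_singleton, not_or] at hn
      rw [mem_supp, ← hxP, Matrix.add_mul, Matrix.add_apply, proj, Matrix.mul_assoc, proj, Matrix.mul_assoc,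
        ads_mul_eq, ads_mul_eq, mul_sc_apply, mul_sc_apply] at hl
      simp only [q, S.wv_other hn.2.1 hn.2.2, show p l 0 = 0 from if_neg hn.1] at hl
      simp at hl
    have hxr : inner' r ((h : Mat) * p) = 0 := by
      have e1 : ads r * p = 0 := by rw [ads_mul_eq, hrp]; rfl
      have e2 : ads r * q = 0 := S.wv_orth hij b
      rw [← hxP, inner', Matrix.add_mul, Matrix.mul_add, proj, proj, Matrix.mul_assoc p, Matrix.mul_assoc q,
        ← Matrix.mul_assoc (ads r) p, ← Matrix.mul_assoc (ads r) q, e1, e2]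
      simp
    rw [inner_std]
    exact halves _ (S.isD_column hh'.1.1 k).isR hxs hxr

/-- No reflection has as support a transposition and one further coordinate. -/
theorem triple_false (hW : S.NoFuse) {k : Fin m} (hki : k ≠ i) (hkj : k ≠ j) (hij : i ≠ j)
    (hsw : permU (Equiv.swap i j) ∈ S.H) {v : Vec F m} (hvR : S.IsR v) (hs : supp v = {k, i, j}) : False := by
  classical
  have h2 := S.h2
  -- first for conjugates of standard reflections
  suffices hD : ∀ x : Vec F m, S.IsD x → supp x = {k, i, j} → False by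
    obtain ⟨hv, hvH⟩ := id hvR
    obtain ⟨c, hc, hcne⟩ : ∃ c ∈ supp v, cc v c ≠ 0 := by
      refine Finset.exists_ne_zero_of_sum_ne_zero ?_
      rw [sum_supp_cc hv]; exact one_ne_zero
    set u := refl v * (std c : Vec F m)
    have huD : S.IsD u := convert_isD hvR c
    have hsub : supp u ⊆ supp v := by
      intro l hl
      by_contra hn
      simp only [mem_supp, u] at hl
      rw [convert_apply, notMem_supp.1 hn, if_neg (fun e : l = c => hn (e ▸ hc))] at hl
      simp at hl
    have hne : ∀ l ∈ supp v, l ≠ c → l ∈ supp u := by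
      intro l hl hlc
      simp only [mem_supp, u]
      rw [convert_apply, if_neg hlc]
      intro h0
      rw [zero_sub, neg_eq_zero, smul_eq_zero_iff_right h2] at h0
      have h' := congrArg (fun X => X * v c 0) h0
      simp only [zero_mul, mul_assoc, Matrix.adjugate_mul, mul_smul_comm, mul_one] at h'
      exact mem_supp.1 hl ((smul_eq_zero_iff_right (show (v c 0).det ≠ 0 from hcne)).1 h')
    by_cases hcu : c ∈ supp u
    · refine hD u huD ?_
      rw [← hs]
      refine Finset.Subset.antisymm hsub fun l hl => ?_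
      by_cases hlc : l = c
      · exact hlc ▸ hcu
      · exact hne l hl hlc
    · have hsub' : ∀ l ∈ supp u, l ∈ supp v ∧ l ≠ c := fun l hl => ⟨hsub hl, fun e => hcu (e ▸ hl)⟩
      rw [hs] at hsub' hc hne
      simp only [Finset.mem_insert, Finset.mem_singleton] at hc
      rcases hc with rfl | rfl | rfl
      · rcases pair_D hW huD hij (fun l hl => by
          have := hsub' l hl; simp at this ⊢; tauto) with h | h
        · exact mem_supp.1 (hne i (by simp) hki.symm) h
        · exact mem_supp.1 (hne j (by simp) hkj.symm) h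
      · rcases pair_D hW huD hkj (fun l hl => by
          have := hsub' l hl; simp at this ⊢; tauto) with h | h
        · exact mem_supp.1 (hne k (by simp) hki) h
        · exact mem_supp.1 (hne j (by simp) hij.symm) h
      · rcases pair_D hW huD hki (fun l hl => by
          have := hsub' l hl; simp at this ⊢; tauto) with h | h
        · exact mem_supp.1 (hne k (by simp) hkj) h
        · exact mem_supp.1 (hne i (by simp) hij) h
  intro x hxD hxs
  obtain ⟨hx, hxH⟩ := hxD.isR
  have hi : x i 0 ≠ 0 := mem_supp.1 (by rw [hxs]; simp)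
  have hk : x k 0 ≠ 0 := mem_supp.1 (by rw [hxs]; simp)
  have hall : ∀ b : SLF, b ∈ (S.Q : Subgroup SLF) → x j 0 = -((b : M₂) * x i 0) ∨ x j 0 = (b : M₂) * x i 0 := by
    intro b hb
    set w := S.wv i j b
    have hw := S.wv_unit hij b
    have hwH := S.rU_wv_mem hij hb hsw
    have solve : ∀ c : SLF, x i 0 + ((c⁻¹ : SLF) : M₂) * x j 0 = 0 → x j 0 = -((c : M₂) * x i 0) := by
      intro c hc
      have h' := congrArg (fun X => (c : M₂) * X) hc
      simp only [mul_add, mul_zero, ← mul_assoc, ← Matrix.SpecialLinearGroup.coe_mul, mul_inv_cancel,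
        Matrix.SpecialLinearGroup.coe_one, one_mul] at h'
      exact eq_neg_of_add_eq_zero_right h'
    have cancel : ∀ X : M₂, adjugate S.p0 * X = 0 → X = 0 := by
      intro X hX
      have h' := congrArg (fun Y => S.p0 * Y) hX
      simp only [← mul_assoc, S.p0_mul_adj, smul_mul_assoc, one_mul, mul_zero] at h'
      exact (smul_eq_zero_iff_right (inv_ne_zero h2)).1 h'
    by_cases ha : inner' w x = 0
    · left
      rw [S.inner_wv hij] at ha
      exact solve b (cancel _ ha)
    right
    obtain ⟨hγ, hall⟩ := pair_refl h2 S.H hw hx hwH hxH (fun g hg e => by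
      refine wv_not_D hW hij b (S.isD_of_conj hxD hx hw ⟨g⁻¹, S.H.inv_mem hg, ?_⟩)
      rw [← e]; group) ha
    set γ := (inner' w x).det
    set t : M₂ := Matrix.diagonal ![(1 - γ)⁻¹, 1]
    have ht : t.det * (1 - γ) = 1 := by
      simp [t, Matrix.det_diagonal, Fin.prod_univ_two, inv_mul_cancel₀ (sub_ne_zero.2 (Ne.symm hγ))]
    obtain ⟨h1, -, h1H, -, -⟩ := hall t ht
    set y := (x - w * sc (inner' w x)) * sc t
    have tcancel : ∀ X : M₂, X * t = 0 → X = 0 := by
      intro X hX
      have h' := congrArg (fun Y => Y * adjugate t) hX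
      simp only [mul_assoc, Matrix.mul_adjugate, mul_smul_comm, mul_one, zero_mul] at h'
      exact (smul_eq_zero_iff_right (fun e => by rw [e, zero_mul] at ht; exact zero_ne_one ht)).1 h'
    have hys : supp y ⊆ {k, i, j} := by
      intro l hl
      by_contra hn
      have hxl : x l 0 = 0 := notMem_supp.1 (hxs ▸ hn)
      simp only [Finset.mem_insert, Finset.mem_singleton, not_or] at hn
      simp only [mem_supp, y] at hl
      rw [mul_sc_apply, Matrix.sub_apply, mul_sc_apply, hxl] at hl
      simp only [w, S.wv_other hn.2.1 hn.2.2] at hl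
      simp at hl
    have hyr : inner' (S.wv i j (- -b)) y = 0 := by
      rw [neg_neg, inner']
      show (ads w * ((x - w * sc (inner' w x)) * sc t)) 0 0 = 0
      rw [← Matrix.mul_assoc, Matrix.mul_sub, ← Matrix.mul_assoc (ads w) w, hw, Matrix.one_mul, ← ads_mul_eq,
        sub_self, Matrix.zero_mul]
      rfl
    have hnb : -b ∈ (S.Q : Subgroup SLF) := by rw [← neg_one_mul]; exact mul_mem S.neg_mem hb
    rcases kw_cases hW hki hkj hij hsw hnb ⟨h1, h1H⟩ hys hyr with h | h
    · exfalso
      simp only [y] at h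
      rw [mul_sc_apply, Matrix.sub_apply, mul_sc_apply] at h
      simp only [w, S.wv_other hki hkj, zero_mul, sub_zero] at h
      exact hk (tcancel _ h)
    · rw [inner'] at h
      rw [← Matrix.mul_assoc, Matrix.mul_sub, ← Matrix.mul_assoc _ w, S.wv_orth hij b, Matrix.zero_mul, sub_zero,
        ads_mul_eq, sc_mul, sc_apply] at h
      have h' := tcancel _ h
      rw [S.inner_wv hij] at h'
      have := solve (-b) (cancel _ h')
      rw [this, Matrix.SpecialLinearGroup.coe_neg, neg_mul, neg_neg]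
  have inv2 : ∀ Y : M₂, (1 - (S.P.u : M₂)) * Y = 0 → Y = 0 := by
    intro Y hY
    have h' := congrArg (fun Z => (1 + (S.P.u : M₂)) * Z) hY
    have e : (1 + (S.P.u : M₂)) * (1 - (S.P.u : M₂)) = (2 : F) • 1 := by
      rw [add_mul, one_mul, mul_sub, mul_one, coe_sq S.P.uu]; module
    rw [← mul_assoc, e, smul_mul_assoc, one_mul, mul_zero] at h'
    exact (smul_eq_zero_iff_right h2).1 h'
  have inv3 : ∀ Y : M₂, (1 + (S.P.u : M₂)) * Y = 0 → Y = 0 := by
    intro Y hY
    have h' := congrArg (fun Z => (1 - (S.P.u : M₂)) * Z) hY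
    have e : (1 - (S.P.u : M₂)) * (1 + (S.P.u : M₂)) = (2 : F) • 1 := by
      rw [sub_mul, one_mul, mul_add, mul_one, coe_sq S.P.uu]; module
    rw [← mul_assoc, e, smul_mul_assoc, one_mul, mul_zero] at h'
    exact (smul_eq_zero_iff_right h2).1 h'
  rcases hall 1 (one_mem _) with e1 | e1 <;> rcases hall S.P.u S.P.hu with e2 | e2 <;>
    rw [e1, Matrix.SpecialLinearGroup.coe_one, one_mul] at e2
  · exact hi (inv2 _ (by rw [sub_mul, one_mul, neg_inj.1 e2 |>.symm, sub_self]))
  · exact hi (inv3 _ (by rw [add_mul, one_mul, ← e2, add_neg_cancel]))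
  · exact hi (inv3 _ (by rw [add_mul, one_mul]; nth_rewrite 1 [e2]; exact neg_add_cancel _))
  · exact hi (inv2 _ (by rw [sub_mul, one_mul, ← e2, sub_self]))

end Setup

end CfsgLib.PronSymp
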