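import Mathlib
import Cfsg.Agent.PronSymp.Frame

/-!
A standard reflection fused to a transposition gives an element of order three acting on a pair
of coordinates; by transitivity it gives the diagonal ones.
-/

set_option autoImplicit false
set_option linter.unusedSectionVars false
set_option linter.style.haveILetI false

namespace CfsgLib.PronSymp

open Matrix
open scoped commutatorElement

variable {F : Type*} [Field F] [Fintype F] {m : ℕ}

local notation "SLF" => Matrix.SpecialLinearGroup (Fin 2) F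
local notation "M₂" => Matrix (Fin 2) (Fin 2) F
local notation "Mat" => Matrix (Fin m) (Fin m) (Matrix (Fin 2) (Fin 2) F)

namespace Setup

variable {S : Setup F m}

theorem twist_normalizes {v : Vec F m} (hvR : S.IsR v) {i j : Fin m} (hij : i ≠ j) (hs : supp v ⊆ {i, j})
    (hi : cc v i = 2⁻¹) : ∃ b : SLF, b ∈ Subgroup.normalizer ((S.Q : Subgroup SLF) : Set SLF) ∧
      (b : M₂) = -(2 : F) • (v j 0 * adjugate (v i 0)) ∧ v j 0 = -((b : M₂) * v i 0) := by
  have h2 := S.h2
  obtain ⟨hv, hvH⟩ := hvR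
  have hcol : refl v * (std i : Vec F m) = (std j : Vec F m) * sc (-(2 : F) • (v j 0 * adjugate (v i 0))) := by
    refine Matrix.ext fun l s => ?_
    rw [Subsingleton.elim s 0, convert_apply, mul_sc_apply, std_apply]
    rcases eq_or_ne l j with rfl | hlj
    · rw [if_neg hij.symm, if_pos rfl, one_mul, zero_sub, neg_smul]
    rw [if_neg hlj, zero_mul]
    rcases eq_or_ne l i with rfl | hli
    · rw [if_pos rfl, Matrix.mul_adjugate, show (v l 0).det = 2⁻¹ from hi, smul_smul, mul_inv_cancel₀ h2, one_smul,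
        sub_self]
    · have hl : v l 0 = 0 := notMem_supp.1 fun h => by
        have := hs h
        simp [hli, hlj] at this
      rw [hl, if_neg hli, zero_mul, smul_zero, sub_zero]
  obtain ⟨hd, hn, -⟩ := S.column_normalizes (h := rU v hv) hvH i j _ hcol
  refine ⟨_, hn, rfl, ?_⟩
  show v j 0 = -((-(2 : F) • (v j 0 * adjugate (v i 0))) * v i 0)
  rw [smul_mul_assoc, mul_assoc, Matrix.adjugate_mul, show (v i 0).det = 2⁻¹ from hi, mul_smul_comm, mul_one,
    smul_smul, neg_mul, mul_inv_cancel₀ h2, neg_smul, one_smul, neg_neg]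

set_option maxHeartbeats 1000000 in
/-- An element of order three modulo `Q` on a pair of coordinates. -/
theorem exists_pair_element (hW : ¬ S.NoFuse) :
    ∃ (i j : Fin m) (ω : SLF), i ≠ j ∧ ω ∈ Subgroup.normalizer ((S.Q : Subgroup SLF) : Set SLF) ∧
      ω ∉ (S.Q : Subgroup SLF) ∧ diagU (Pi.mulSingle i ω * Pi.mulSingle j ω) ∈ S.H := by
  classical
  have h2 := S.h2
  simp only [NoFuse, not_forall, not_not] at hW
  obtain ⟨v₀, hD₀, i, j, hij, hs₀, hc₀⟩ := hW
  obtain ⟨hv₀, g, hg, k, eg⟩ := id hD₀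
  set v : Vec F m := (g : Mat) * (std k : Vec F m) with hvdef
  have hvD : S.IsD v := S.isD_column hg k
  obtain ⟨hv, -⟩ := id hvD
  have hP : proj v = proj v₀ := by
    refine proj_eq_of_refl_eq h2 ?_
    have := congrArg Units.val ((conj_rU g (S.hU g hg) (std_unit k)).symm.trans eg)
    simpa using this
  have hs : supp v ⊆ {i, j} := by rw [supp_eq_of_proj hv hv₀ hP]; exact hs₀
  have hci : cc v i = 2⁻¹ := by rw [cc_eq_of_proj hv hv₀ hP]; exact hc₀
  set N := Subgroup.normalizer ((S.Q : Subgroup SLF) : Set SLF) with hN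
  obtain ⟨b, hbN, -, hvj⟩ := twist_normalizes hvD.isR hij hs hci
  set p := v i 0 with hp
  have pp : p * adjugate p = (2 : F)⁻¹ • (1 : M₂) := by
    rw [Matrix.mul_adjugate, show p.det = 2⁻¹ from hci]
  have pp' : adjugate p * p = (2 : F)⁻¹ • (1 : M₂) := by
    rw [Matrix.adjugate_mul, show p.det = 2⁻¹ from hci]
  have bbi : ((b : SLF) : M₂) * ((b⁻¹ : SLF) : M₂) = 1 := by
    rw [← Matrix.SpecialLinearGroup.coe_mul, mul_inv_cancel, Matrix.SpecialLinearGroup.coe_one]
  -- transported elements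
  have htrans : ∀ a ∈ (S.Q : Subgroup SLF), ∃ T : BU F m, T ∈ S.H ∧
      (T : Mat) = 1 + v * sc ((a : M₂) - 1) * ads v := by
    intro a ha
    refine ⟨g * diagU (Pi.mulSingle k a) * g⁻¹, S.H.mul_mem (S.H.mul_mem hg (S.single_mem ha k)) (S.H.inv_mem hg), ?_⟩
    rw [Units.val_mul, Units.val_mul, single_form, Matrix.mul_add, Matrix.add_mul, Matrix.mul_one, ← Units.val_mul g,
      mul_inv_cancel, Units.val_one, hvdef, ads_mul, S.hU g hg]
    simp only [Matrix.mul_assoc]
  have hal : ∀ a : SLF, ∃ α : SLF, (α : M₂) = (2 : F) • (p * (a : M₂) * adjugate p) := fun a =>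
    ⟨⟨(2 : F) • (p * (a : M₂) * adjugate p), by
      rw [Matrix.det_smul, Matrix.det_mul, Matrix.det_mul, Matrix.det_adjugate, a.2, show p.det = 2⁻¹ from hci]
      simp only [Fintype.card_fin, show (2 : ℕ) - 1 = 1 from rfl, pow_one, mul_one]
      field_simp⟩, rfl⟩
  choose al hal using hal
  have almul : ∀ x y : SLF, al (x * y) = al x * al y := by
    intro x y
    refine Subtype.ext ?_
    show (al (x * y) : M₂) = ((al x * al y : SLF) : M₂)
    rw [Matrix.SpecialLinearGroup.coe_mul, hal, hal, hal, smul_mul_smul_comm, Matrix.SpecialLinearGroup.coe_mul,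
      show p * (x : M₂) * adjugate p * (p * (y : M₂) * adjugate p) =
        p * (x : M₂) * (adjugate p * p) * (y : M₂) * adjugate p by simp only [mul_assoc],
      pp', mul_smul_comm, mul_one, smul_mul_assoc, smul_mul_assoc, smul_smul]
    simp only [mul_assoc]
    congr 1
    field_simp
  have alneg : ∀ x : SLF, al (-x) = -al x := by
    intro x
    refine Subtype.ext ?_
    show (al (-x) : M₂) = ((-al x : SLF) : M₂)
    rw [Matrix.SpecialLinearGroup.coe_neg, hal, hal, Matrix.SpecialLinearGroup.coe_neg, mul_neg, neg_mul, smul_neg]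
  have alone : al 1 = 1 := by
    have h := almul 1 1
    rw [one_mul] at h
    exact mul_eq_left.1 h.symm
  -- entries of the transported elements
  have entries : ∀ a : SLF,
      (1 + v * sc ((a : M₂) - 1) * ads v : Mat) i i = (2 : F)⁻¹ • (1 + (al a : M₂)) ∧
      (1 + v * sc ((a : M₂) - 1) * ads v : Mat) j i = (b : M₂) * ((2 : F)⁻¹ • (1 - (al a : M₂))) ∧
      (1 + v * sc ((a : M₂) - 1) * ads v : Mat) i j = ((2 : F)⁻¹ • (1 - (al a : M₂))) * ((b⁻¹ : SLF) : M₂) ∧
      (1 + v * sc ((a : M₂) - 1) * ads v : Mat) j j =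
        (b : M₂) * ((2 : F)⁻¹ • (1 + (al a : M₂))) * ((b⁻¹ : SLF) : M₂) ∧
      ∀ l n, l ∉ ({i, j} : Finset (Fin m)) →
        (1 + v * sc ((a : M₂) - 1) * ads v : Mat) l n = (1 : Mat) l n ∧
        (1 + v * sc ((a : M₂) - 1) * ads v : Mat) n l = (1 : Mat) n l := by
    intro a
    have ent : ∀ l n, (1 + v * sc ((a : M₂) - 1) * ads v : Mat) l n =
        (1 : Mat) l n + v l 0 * ((a : M₂) - 1) * adjugate (v n 0) := fun l n => by
      rw [Matrix.add_apply, Matrix.mul_apply, Fin.sum_univ_one, mul_sc_apply, ads_apply]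
    have e : p * ((a : M₂) - 1) * adjugate p = (2 : F)⁻¹ • ((al a : M₂) - 1) := by
      rw [mul_sub, mul_one, sub_mul, pp, hal, smul_sub, smul_smul, inv_mul_cancel₀ h2, one_smul]
    have adjb : adjugate (-((b : M₂) * p)) = -(adjugate p * ((b⁻¹ : SLF) : M₂)) := by
      rw [← neg_one_smul F, adj_smul, neg_one_smul, Matrix.adjugate_mul_distrib, adj_coe]
    refine ⟨?_, ?_, ?_, ?_, fun l n hl => ?_⟩
    · rw [ent, Matrix.one_apply_eq, ← hp, e, show (1 : M₂) = (2 : F)⁻¹ • ((2 : F) • (1 : M₂)) by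
        rw [smul_smul, inv_mul_cancel₀ h2, one_smul], ← smul_add]
      rw [smul_smul (2 : F)⁻¹ 2, inv_mul_cancel₀ h2, one_smul]
      congr 1
      module
    · rw [ent, Matrix.one_apply_ne hij.symm, zero_add, hvj, ← hp, neg_mul, neg_mul, mul_assoc (b : M₂),
        mul_assoc (b : M₂), e, ← mul_neg, ← smul_neg, neg_sub]
    · rw [ent, Matrix.one_apply_ne hij, zero_add, hvj, ← hp, adjb, mul_neg, ← mul_assoc, e, ← neg_mul, ← smul_neg,
        neg_sub]
    · rw [ent, Matrix.one_apply_eq, hvj, adjb, neg_mul, neg_mul_neg, ← mul_assoc, mul_assoc (b : M₂) p,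
        mul_assoc (b : M₂) _ (adjugate p), e]
      nth_rewrite 1 [← bbi]
      rw [← add_mul]
      congr 1
      nth_rewrite 1 [← mul_one (b : M₂)]
      rw [← mul_add]
      congr 1
      rw [show (1 : M₂) = (2 : F)⁻¹ • ((2 : F) • (1 : M₂)) by
        rw [smul_smul, inv_mul_cancel₀ h2, one_smul], ← smul_add]
      rw [smul_smul (2 : F)⁻¹ 2, inv_mul_cancel₀ h2, one_smul]
      congr 1
      module
    · have hv0 : v l 0 = 0 := notMem_supp.1 fun h => hl (hs h)
      rw [ent, ent, hv0]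
      simp
  -- the images of elements of order four lie in `Q`
  have alQ : ∀ a ∈ (S.Q : Subgroup SLF), a * a = -1 → al a ∈ (S.Q : Subgroup SLF) ∧ al a * al a = -1 := by
    intro a ha haa
    have hsq : al a * al a = -1 := by rw [← almul, haa, alneg, alone]
    refine ⟨?_, hsq⟩
    obtain ⟨T, hT, hTv⟩ := htrans a ha
    obtain ⟨v', hv'⟩ : ∃ v' : Vec F m, v' = (T : Mat) * (std i : Vec F m) := ⟨_, rfl⟩
    have hv'e : ∀ l, v' l 0 = (T : Mat) l i := fun l => by rw [hv']; exact mul_std _ _ _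
    have hvi : v' i 0 = (2 : F)⁻¹ • (1 + (al a : M₂)) := by
      rw [hv'e, hTv]; exact (entries a).1
    have hvj' : v' j 0 = (b : M₂) * ((2 : F)⁻¹ • (1 - (al a : M₂))) := by
      rw [hv'e, hTv]; exact (entries a).2.1
    have adjp : adjugate (v' i 0) = (2 : F)⁻¹ • (1 - (al a : M₂)) := by
      rw [hvi, adj_smul, adj_add, Matrix.adjugate_one, adj_coe, inv_of_sq hsq, Matrix.SpecialLinearGroup.coe_neg,
        sub_eq_add_neg]
    have hsq' := coe_sq hsq
    have hdet : cc v' i = 2⁻¹ := by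
      have e : v' i 0 * adjugate (v' i 0) = (2 : F)⁻¹ • (1 : M₂) := by
        rw [adjp, hvi, smul_mul_smul_comm, add_mul, one_mul, mul_sub, mul_one, hsq',
          show (1 : M₂) - (al a : M₂) + ((al a : M₂) - -1) = (2 : F) • 1 by module, smul_smul]
        congr 1
        field_simp
      rw [Matrix.mul_adjugate] at e
      simpa [cc] using congrFun (congrFun e 0) 0
    have hsupp : supp v' ⊆ {i, j} := fun l hl => by
      by_contra hn
      rw [mem_supp, hv'e, hTv, ((entries a).2.2.2.2 l i hn).1, Matrix.one_apply_ne (fun e : l = i => hn (by simp [e]))] at hl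
      exact hl rfl
    obtain ⟨b', hb'N, hb', -⟩ := twist_normalizes (v := v') (by rw [hv']; exact (S.isD_column hT i).isR) hij hsupp hdet
    have e : b' = b * al a := by
      refine Subtype.ext ?_
      show (b' : M₂) = ((b * al a : SLF) : M₂)
      rw [hb', hvj', adjp, Matrix.SpecialLinearGroup.coe_mul, mul_assoc (b : M₂), smul_mul_smul_comm, sub_mul, one_mul,
        mul_sub, mul_one, hsq', show (1 : M₂) - (al a : M₂) - ((al a : M₂) - -1) = (-(2 : F)) • (al a : M₂) by module,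
        mul_smul_comm, mul_smul_comm, smul_smul, smul_smul]
      rw [show -(2 : F) * ((2 : F)⁻¹ * (2 : F)⁻¹) * -2 = 1 by field_simp, one_smul]
    exact mem_of_sq S.hq S.Q (by simpa [e] using mul_mem (inv_mem hbN) hb'N) hsq
  obtain ⟨haQ, haa⟩ := alQ _ S.P.hu S.P.uu
  obtain ⟨hbQ, hbb⟩ := alQ _ S.P.hw S.P.ww
  set α := al S.P.u
  set β := al S.P.w
  have hanti : α * β = -(β * α) := by rw [← almul, ← almul, S.P.uw, alneg]
  obtain ⟨ω, hω, hωN, hωQ⟩ := exists_omega S.hq S.Q ⟨α, β, haQ, hbQ, haa, hbb, hanti⟩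
  obtain ⟨T₁, hT₁, e₁⟩ := htrans _ S.P.hu
  obtain ⟨T₂, hT₂, e₂⟩ := htrans _ S.P.hw
  set γ := α * β with hγ
  set d : Fin m → SLF := Pi.mulSingle j (b * γ * b⁻¹)
  have hγQ : γ ∈ (S.Q : Subgroup SLF) := mul_mem haQ hbQ
  have hbγ : b * γ * b⁻¹ ∈ (S.Q : Subgroup SLF) := (Subgroup.mem_normalizer_iff.1 hbN γ).1 hγQ
  have hdH : diagU d ∈ S.H := S.single_mem hbγ j
  set ω₂ := b * γ * ω * (b * γ)⁻¹ with hω₂
  set M : BU F m := T₁ * diagU d * T₂
  have hMH : M ∈ S.H := S.H.mul_mem (S.H.mul_mem hT₁ hdH) hT₂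
  have Ma : (α : M₂) * α = -1 := coe_sq haa
  have Mb : (β : M₂) * β = -1 := coe_sq hbb
  have Mab : (α : M₂) * β = -((β : M₂) * α) := by
    rw [← Matrix.SpecialLinearGroup.coe_mul, ← Matrix.SpecialLinearGroup.coe_mul, ← Matrix.SpecialLinearGroup.coe_neg]
    exact congrArg Subtype.val hanti
  have hM : M = diagU (Pi.mulSingle i ω * Pi.mulSingle j ω₂) := by
    refine Units.ext (Matrix.ext fun r s => ?_)
    rw [show ((M : BU F m) : Mat) = (T₁ : Mat) * (diagU d : BU F m) * (T₂ : Mat) from rfl, e₁, e₂, diagU_val,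
      diagU_val, Matrix.mul_assoc, Matrix.mul_apply]
    simp only [Matrix.diagonal_mul]
    obtain ⟨a11, a21, a12, a22, aout⟩ := entries S.P.u
    obtain ⟨b11, b21, b12, b22, bout⟩ := entries S.P.w
    by_cases hr : r ∈ ({i, j} : Finset (Fin m))
    swap
    · rw [Finset.sum_eq_single r]
      · rw [(aout r r hr).1, Matrix.one_apply_eq, one_mul, (bout r s hr).1]
        simp only [Finset.mem_insert, Finset.mem_singleton, not_or] at hr
        rw [show d r = 1 by simp [d, hr.2], Matrix.SpecialLinearGroup.coe_one, one_mul]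
        rcases eq_or_ne r s with rfl | hrs
        · rw [Matrix.one_apply_eq, Matrix.diagonal_apply_eq]; simp [hr.1, hr.2]
        · rw [Matrix.one_apply_ne hrs, Matrix.diagonal_apply_ne _ hrs]
      · intro l _ hl
        rw [(aout r l hr).1, Matrix.one_apply_ne hl.symm, zero_mul]
      · simp
    rw [Fintype.sum_eq_add i j hij (fun l hl => by
      rw [(aout l r (by simp [hl.1, hl.2])).2, Matrix.one_apply_ne (by
        simp only [Finset.mem_insert, Finset.mem_singleton] at hr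
        rcases hr with rfl | rfl
        exacts [hl.1.symm, hl.2.symm]), zero_mul])]
    rw [show d i = 1 by simp [d, hij], show d j = b * γ * b⁻¹ by simp [d], Matrix.SpecialLinearGroup.coe_one, one_mul,
      Matrix.SpecialLinearGroup.coe_mul, Matrix.SpecialLinearGroup.coe_mul, hγ, Matrix.SpecialLinearGroup.coe_mul]
    by_cases hs' : s ∈ ({i, j} : Finset (Fin m))
    swap
    · rw [(bout s i hs').2, (bout s j hs').2]
      simp only [Finset.mem_insert, Finset.mem_singleton, not_or] at hs' hr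
      rw [Matrix.one_apply_ne (Ne.symm hs'.1), Matrix.one_apply_ne (Ne.symm hs'.2), Matrix.diagonal_apply_ne _
        (fun e => by rcases hr with h | h; exacts [hs'.1 (e ▸ h), hs'.2 (e ▸ h)])]
      simp
    have wb : ((b⁻¹ : SLF) : M₂) * (b : M₂) = 1 := by
      rw [← Matrix.SpecialLinearGroup.coe_mul, inv_mul_cancel, Matrix.SpecialLinearGroup.coe_one]
    have ba : (β : M₂) * α = -((α : M₂) * β) := by rw [Mab, neg_neg]
    set A : M₂ := (α : M₂)
    set B : M₂ := (β : M₂)
    set h : F := (2 : F)⁻¹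
    have c1 : (1 - A) * A = 1 + A := by rw [sub_mul, one_mul, Ma]; abel
    have c2 : B * (1 - B) = 1 + B := by rw [mul_sub, mul_one, Mb]; abel
    have c3 : (1 + A) * A = -(1 - A) := by rw [add_mul, one_mul, Ma]; abel
    have c4 : B * (1 + B) = -(1 - B) := by rw [mul_add, mul_one, Mb]; abel
    have hh : h + h = 1 := by rw [← two_mul, mul_inv_cancel₀ h2]
    simp only [Finset.mem_insert, Finset.mem_singleton] at hr hs'
    rcases hr with rfl | rfl <;> rcases hs' with rfl | rfl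
    · rw [a11, a12, b11, b21, Matrix.diagonal_apply_eq, Pi.mul_apply, Pi.mulSingle_eq_same,
        Pi.mulSingle_eq_of_ne hij, mul_one, hω]
      rw [show h • (1 - A) * ((b⁻¹ : SLF) : M₂) * ((b : M₂) * (A * B) * ((b⁻¹ : SLF) : M₂) * ((b : M₂) * (h • (1 - B)))) =
        h • (1 - A) * (((b⁻¹ : SLF) : M₂) * (b : M₂)) * (A * B) * (((b⁻¹ : SLF) : M₂) * (b : M₂)) * (h • (1 - B)) by
          simp only [mul_assoc], wb, mul_one, mul_one, smul_mul_assoc h (1 - A), smul_mul_smul_comm,
        smul_mul_smul_comm, ← mul_assoc (1 - A) A B, c1, mul_assoc (1 + A) B, c2, ← add_smul, ← mul_add, hh, mul_one]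
    · rw [a11, a12, b12, b22, Matrix.diagonal_apply_ne _ hij]
      rw [show h • (1 - A) * ((b⁻¹ : SLF) : M₂) * ((b : M₂) * (A * B) * ((b⁻¹ : SLF) : M₂) * ((b : M₂) * (h • (1 + B)) * ((b⁻¹ : SLF) : M₂))) =
        h • (1 - A) * (((b⁻¹ : SLF) : M₂) * (b : M₂)) * (A * B) * (((b⁻¹ : SLF) : M₂) * (b : M₂)) * (h • (1 + B)) * ((b⁻¹ : SLF) : M₂) by
          simp only [mul_assoc], wb, mul_one, mul_one, ← mul_assoc (h • (1 + A)) (h • (1 - B)), ← add_mul,
        smul_mul_assoc h (1 - A), smul_mul_smul_comm, smul_mul_smul_comm, ← mul_assoc (1 - A) A B, c1,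
        mul_assoc (1 + A) B, c4, mul_neg, smul_neg, add_neg_cancel, zero_mul]
    · rw [a21, a22, b11, b21, Matrix.diagonal_apply_ne _ hij.symm]
      rw [show (b : M₂) * (h • (1 + A)) * ((b⁻¹ : SLF) : M₂) * ((b : M₂) * (A * B) * ((b⁻¹ : SLF) : M₂) * ((b : M₂) * (h • (1 - B)))) =
        (b : M₂) * (h • (1 + A) * (((b⁻¹ : SLF) : M₂) * (b : M₂)) * (A * B) * (((b⁻¹ : SLF) : M₂) * (b : M₂)) * (h • (1 - B))) by
          simp only [mul_assoc], wb, mul_one, mul_one, mul_assoc (b : M₂) _ (h • (1 + B)), ← mul_add,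
        smul_mul_assoc h (1 + A), smul_mul_smul_comm, smul_mul_smul_comm, ← mul_assoc (1 + A) A B, c3,
        mul_assoc _ B, c2, neg_mul, smul_neg, add_neg_cancel, mul_zero]
    · rw [a21, a22, b12, b22, Matrix.diagonal_apply_eq, Pi.mul_apply, Pi.mulSingle_eq_same,
        Pi.mulSingle_eq_of_ne hij.symm, one_mul, hω₂, Matrix.SpecialLinearGroup.coe_mul,
        Matrix.SpecialLinearGroup.coe_mul, Matrix.SpecialLinearGroup.coe_mul, _root_.mul_inv_rev,
        Matrix.SpecialLinearGroup.coe_mul, hω, hγ, Matrix.SpecialLinearGroup.coe_mul, _root_.mul_inv_rev,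
        Matrix.SpecialLinearGroup.coe_mul, inv_of_sq haa, inv_of_sq hbb, Matrix.SpecialLinearGroup.coe_neg,
        Matrix.SpecialLinearGroup.coe_neg]
      have key : A * B * ((1 + A) * (1 + B)) * (-B * -A) = (1 - A) * (1 - B) := by
        have m1 : A * B * (1 + A) = (1 - A) * (A * B) := by
          rw [mul_add, mul_one, sub_mul, one_mul, mul_assoc A B A, ba, mul_neg, sub_eq_add_neg]
        have m2 : A * B * (1 + B) = (1 - B) * (A * B) := by
          rw [mul_add, mul_one, sub_mul, one_mul, mul_assoc A B B, ← mul_assoc B A B, ba, neg_mul, sub_neg_eq_add,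
            mul_assoc A B B]
        rw [← mul_assoc (A * B), m1, mul_assoc (1 - A), m2, mul_assoc (1 - A), mul_assoc (1 - B), neg_mul_neg,
          mul_assoc A B, ← mul_assoc B B, Mb, neg_one_mul, mul_neg, Ma, neg_neg, mul_one]
      rw [show (b : M₂) * (h • (1 + A)) * ((b⁻¹ : SLF) : M₂) * ((b : M₂) * (A * B) * ((b⁻¹ : SLF) : M₂) * ((b : M₂) * (h • (1 + B)) * ((b⁻¹ : SLF) : M₂))) =
        (b : M₂) * (h • (1 + A) * (((b⁻¹ : SLF) : M₂) * (b : M₂)) * (A * B) * (((b⁻¹ : SLF) : M₂) * (b : M₂)) * (h • (1 + B))) * ((b⁻¹ : SLF) : M₂) by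
          simp only [mul_assoc], wb, mul_one, mul_one,
        show (b : M₂) * (h • (1 - A)) * (h • (1 - B) * ((b⁻¹ : SLF) : M₂)) =
          (b : M₂) * (h • (1 - A) * (h • (1 - B))) * ((b⁻¹ : SLF) : M₂) by simp only [mul_assoc],
        ← add_mul, ← mul_add, smul_mul_assoc h (1 + A), smul_mul_smul_comm, smul_mul_smul_comm,
        ← mul_assoc (1 + A) A B, c3, mul_assoc _ B, c4, neg_mul_neg, ← add_smul, ← mul_add, hh, mul_one]
      rw [show (b : M₂) * (A * B) * (h • ((1 + A) * (1 + B))) * (-B * -A * ((b⁻¹ : SLF) : M₂)) =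
        (b : M₂) * (h • (A * B * ((1 + A) * (1 + B)) * (-B * -A))) * ((b⁻¹ : SLF) : M₂) by
          simp only [smul_mul_assoc, mul_smul_comm, mul_assoc], key]
  have hω₂Q : ω₂⁻¹ * ω ∈ (S.Q : Subgroup SLF) := by
    have h := commutator_mem S.hq S.Q (mul_mem hbN (Subgroup.le_normalizer hγQ)) (inv_mem hωN)
    rw [hω₂, show (b * γ * ω * (b * γ)⁻¹)⁻¹ * ω = ⁅b * γ, ω⁻¹⁆ by rw [commutatorElement_def]; group]
    exact h
  refine ⟨i, j, ω, hij, hωN, hωQ, ?_⟩
  have h := S.H.mul_mem hMH (S.single_mem hω₂Q j)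
  rw [hM, ← map_mul, mul_assoc, ← Pi.mulSingle_mul, mul_inv_cancel_left] at h
  exact h

set_option maxHeartbeats 400000 in
/-- With fusion and a transitive 2-group of permutations, all constant diagonal elements normalizing
`Q` lie in the group. -/
theorem const_mem (hW : ¬ S.NoFuse) (T : Subgroup (Equiv.Perm (Fin m))) (hT : IsPGroup 2 T)
    (htr : ∀ x y : Fin m, ∃ g ∈ T, g x = y) (hTH : ∀ g ∈ T, permU g ∈ S.H) {n : SLF}
    (hn : n ∈ Subgroup.normalizer ((S.Q : Subgroup SLF) : Set SLF)) : diagU (fun _ => n) ∈ S.H := by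
  classical
  haveI : Fact (Nat.Prime 2) := ⟨Nat.prime_two⟩
  obtain ⟨i, j, ω, hij, hωN, hωQ, hH⟩ := exists_pair_element hW
  set N := Subgroup.normalizer ((S.Q : Subgroup SLF) : Set SLF)
  set K := (S.Q : Subgroup SLF).subgroupOf N
  have hle : Nat.card (N ⧸ K) ≤ 3 := normalizer_quot_card S.hq S.Q
  set a : N ⧸ K := QuotientGroup.mk' K ⟨ω, hωN⟩
  have ha1 : a ≠ 1 := fun e => hωQ ((QuotientGroup.eq_one_iff (N := K) _).1 e)
  have hcard : Nat.card (N ⧸ K) = 3 := by
    have h1 : 1 < Nat.card (N ⧸ K) := Finite.one_lt_card_iff_nontrivial.2 ⟨⟨a, 1, ha1⟩⟩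
    by_contra hne
    have h2 : Nat.card (N ⧸ K) = 2 := by omega
    have := pow_card_eq_one' (x := a)
    rw [h2, ← map_pow] at this
    refine hωQ (mem_sylow_of_pow_mem S.Q hωN (k := 1) ?_)
    exact (QuotientGroup.eq_one_iff (N := K) _).1 this
  haveI : Fact (Nat.Prime 3) := ⟨Nat.prime_three⟩
  haveI : IsCyclic (N ⧸ K) := isCyclic_of_prime_card hcard
  letI := IsCyclic.commGroup (α := N ⧸ K)
  let D0 : Subgroup (Fin m → N) :=
    S.H.comap (diagU.comp (MonoidHom.compLeft N.subtype (Fin m)))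
  let U : Subgroup (Fin m → N ⧸ K) := D0.map (MonoidHom.compLeft (QuotientGroup.mk' K) (Fin m))
  let f0 : Fin m → N := fun l => if l = i then ⟨ω, hωN⟩ else if l = j then ⟨ω, hωN⟩ else 1
  have hf0 : f0 ∈ D0 := by
    show diagU (fun l => ((f0 l : N) : SLF)) ∈ S.H
    refine (congrArg (fun f => diagU f ∈ S.H) (funext fun l => ?_)).mp hH
    simp only [f0, Pi.mul_apply, Pi.mulSingle_apply]
    split_ifs with h1 h2
    · exact absurd (h1.symm.trans h2) hij
    all_goals simp
  have hshift : ∀ g ∈ T, (fun l => f0 (g.symm l)) ∈ D0 := by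
    intro g hg
    show diagU (fun l => ((f0 (g.symm l) : N) : SLF)) ∈ S.H
    have h := S.H.mul_mem (S.H.mul_mem (hTH g hg) hf0) (S.H.inv_mem (hTH g hg))
    refine (congrArg (· ∈ S.H) ?_).mp h
    show permU g * diagU (fun l => ((f0 l : N) : SLF)) * (permU g)⁻¹ = _
    rw [permU_diagU, mul_inv_cancel_right]
  haveI := Fintype.ofFinite T
  set F0 : Fin m → N ⧸ K := fun l => QuotientGroup.mk' K (f0 l)
  have hprod : (fun l => ∏ g : T, F0 ((g : Equiv.Perm (Fin m)).symm l)) ∈ U := by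
    have := U.prod_mem (t := (Finset.univ : Finset T)) (f := fun g : T => fun l => F0 ((g : Equiv.Perm (Fin m)).symm l))
      (fun g _ => ⟨_, hshift g g.2, rfl⟩)
    refine (congrArg (· ∈ U) ?_).mp this
    funext l
    rw [Finset.prod_apply]
  set d := (Finset.univ.filter fun g : T => (g : Equiv.Perm (Fin m)).symm i = i).card with hd
  have hfib : ∀ l x, (Finset.univ.filter fun g : T => (g : Equiv.Perm (Fin m)).symm l = x).card = d := by
    intro l x
    obtain ⟨p, hp, hpl⟩ := htr i l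
    obtain ⟨q, hq, hqx⟩ := htr i x
    refine Finset.card_nbij' (fun g => ⟨p⁻¹ * g * q, T.mul_mem (T.mul_mem (T.inv_mem hp) g.2) hq⟩)
      (fun g => ⟨p * g * q⁻¹, T.mul_mem (T.mul_mem hp g.2) (T.inv_mem hq)⟩) ?_ ?_ ?_ ?_
    · intro g hg
      simp only [Finset.coe_filter, Finset.mem_univ, true_and, Set.mem_setOf_eq] at hg ⊢
      show (p⁻¹ * (g : Equiv.Perm (Fin m)) * q)⁻¹ i = i
      rw [_root_.mul_inv_rev, _root_.mul_inv_rev, inv_inv, Equiv.Perm.mul_apply, Equiv.Perm.mul_apply, hpl]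
      show q.symm ((g : Equiv.Perm (Fin m)).symm l) = i
      rw [hg, ← hqx, Equiv.symm_apply_apply]
    · intro g hg
      simp only [Finset.coe_filter, Finset.mem_univ, true_and, Set.mem_setOf_eq] at hg ⊢
      show (p * (g : Equiv.Perm (Fin m)) * q⁻¹)⁻¹ l = x
      rw [_root_.mul_inv_rev, _root_.mul_inv_rev, inv_inv, Equiv.Perm.mul_apply, Equiv.Perm.mul_apply]
      show q ((g : Equiv.Perm (Fin m)).symm (p.symm l)) = x
      rw [← hpl, Equiv.symm_apply_apply, hg, hqx]
    · intro g _; exact Subtype.ext (by show p * (p⁻¹ * _ * q) * q⁻¹ = _; group)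
    · intro g _; exact Subtype.ext (by show p⁻¹ * (p * _ * q⁻¹) * q = _; group)
  have hval : ∀ l, ∏ g : T, F0 ((g : Equiv.Perm (Fin m)).symm l) = a ^ (2 * d) := by
    intro l
    rw [← Finset.prod_fiberwise Finset.univ (fun g : T => (g : Equiv.Perm (Fin m)).symm l)]
    rw [Finset.prod_congr rfl (g := fun x => F0 x ^ d) fun x _ => ?_]
    · rw [Fintype.prod_eq_mul i j hij]
      · rw [show F0 i = a by simp [F0, f0, a], show F0 j = a by simp [F0, f0, a], ← pow_add, two_mul]
      · rintro x ⟨hxi, hxj⟩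
        simp [F0, f0, hxi, hxj]
    · rw [Finset.prod_congr rfl (g := fun _ => F0 x) fun g hg => by rw [(Finset.mem_filter.1 hg).2],
        Finset.prod_const, hfib]
  have hdT : d * Fintype.card (Fin m) = Fintype.card T := by
    rw [← Finset.card_univ (α := T), Finset.card_eq_sum_card_fiberwise (t := (Finset.univ : Finset (Fin m)))
      (f := fun g : T => (g : Equiv.Perm (Fin m)).symm i) (fun g _ => Finset.mem_univ _)]
    rw [Finset.sum_congr rfl fun x _ => hfib i x, Finset.sum_const, smul_eq_mul, Finset.card_univ, mul_comm]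
  obtain ⟨k, hk⟩ := IsPGroup.iff_card.1 hT
  rw [Nat.card_eq_fintype_card] at hk
  obtain ⟨e, -, he⟩ := (Nat.dvd_prime_pow Nat.prime_two).1 (hk ▸ hdT ▸ Dvd.intro _ rfl : d ∣ 2 ^ k)
  set c : N ⧸ K := a ^ (2 * d) with hc
  have hc1 : c ≠ 1 := by
    intro h1
    have hd3 := orderOf_dvd_of_pow_eq_one h1
    have hao : orderOf a = 3 := orderOf_eq_prime (by rw [← hcard]; exact pow_card_eq_one') ha1
    rw [hao, he, ← pow_succ'] at hd3
    exact absurd ((Nat.prime_dvd_prime_iff_eq Nat.prime_three Nat.prime_two).1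
      (Nat.prime_three.dvd_of_dvd_pow hd3)) (by norm_num)
  have hgen : QuotientGroup.mk' K ⟨n, hn⟩ ∈ Subgroup.zpowers c := mem_zpowers_of_prime_card hcard hc1
  obtain ⟨z, hz⟩ := hgen
  have hconst : (fun _ : Fin m => QuotientGroup.mk' K ⟨n, hn⟩) ∈ U := by
    have h1 : (fun _ : Fin m => c) ∈ U := by
      refine (congrArg (· ∈ U) (funext fun l => hval l)).mp hprod
    have := U.zpow_mem h1 z
    rw [← hz]
    exact this
  obtain ⟨f, hf, hfe⟩ := hconst
  have hq' : ∀ l, ((f l : N) : SLF)⁻¹ * n ∈ (S.Q : Subgroup SLF) := fun l => by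
    have h : (QuotientGroup.mk (f l) : N ⧸ K) = QuotientGroup.mk ⟨n, hn⟩ := congrFun hfe l
    exact (QuotientGroup.eq (s := K)).1 h
  have := S.H.mul_mem (show diagU (fun l => ((f l : N) : SLF)) ∈ S.H from hf) (S.hdiag _ hq')
  rw [← map_mul] at this
  refine (congrArg (fun f => diagU f ∈ S.H) (funext fun l => ?_)).mp this
  exact mul_inv_cancel_left _ _

end Setup

end CfsgLib.PronSymp
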