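import Mathlib
import Cfsg.Agent.PronSymp.SL2Part

/-!
Overgroups of a Sylow 2-subgroup of `SL₂(q)`, `q ≡ ±3 (mod 8)`.
-/

set_option autoImplicit false
set_option linter.unusedSectionVars false
set_option linter.style.haveILetI false

namespace CfsgLib.PronSymp

open CfsgLib.SL2 CfsgLib.PronormalExt

variable {F : Type*} [Field F] [Fintype F]
variable (hq : Fintype.card F % 8 = 3 ∨ Fintype.card F % 8 = 5)

local notation "SLF" => Matrix.SpecialLinearGroup (Fin 2) F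
local notation "G₂" => Matrix.ProjectiveSpecialLinearGroup (Fin 2) F

include hq

set_option maxHeartbeats 1000000 in
/-- An overgroup `H` of the four group `S` and `n ∈ N(S) \ S`: `n ∈ ⟨H, Hⁿ⟩` or `H = S`. -/
theorem overgroup_psl (H : Subgroup G₂) (S : Sylow 2 G₂) (hSH : (S : Subgroup G₂) ≤ H) (n : G₂)
    (hn : n ∈ Subgroup.normalizer ((S : Subgroup G₂) : Set G₂)) (hnS : n ∉ (S : Subgroup G₂)) :
    n ∈ H ⊔ cj n H ∨ H ≤ (S : Subgroup G₂) := by
  haveI : Fact (Nat.Prime 2) := ⟨Nat.prime_two⟩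
  obtain ⟨hS, hexp⟩ := SymSylow.PSLTwoFour.sylow_four hq S
  set J := H ⊔ cj n H with hJ
  have hSJ : (S : Subgroup G₂) ≤ J := hSH.trans le_sup_left
  have hnH : cj n H ≤ J := le_sup_right
  obtain ⟨⟨v₀, hv₀⟩, hv₀1'⟩ := (Subgroup.ne_bot_iff_exists_ne_one (H := (S : Subgroup G₂))).1
    (fun h => by rw [h] at hS; simp at hS)
  have hv₀1 : v₀ ≠ 1 := fun e => hv₀1' (Subtype.ext e)
  have hmove : ∀ y ∈ Subgroup.normalizer ((S : Subgroup G₂) : Set G₂), y ∉ (S : Subgroup G₂) →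
      ∀ v ∈ (S : Subgroup G₂), v ≠ 1 → y * v * y⁻¹ ≠ v := fun y hy hyS v hv hv1 e =>
    hyS (SymSylow.PSLTwoFour.mem_of_fix hq S hy hv hv1 e)
  have hne1 : ∀ {y v : G₂}, v ≠ 1 → y * v * y⁻¹ ≠ 1 := fun {y v} hv e => hv (by
    rw [mul_inv_eq_one] at e; exact mul_left_cancel (e.trans (mul_one y).symm))
  by_cases hy : ∃ y ∈ J, y ∈ Subgroup.normalizer ((S : Subgroup G₂) : Set G₂) ∧ y ∉ (S : Subgroup G₂)
  · obtain ⟨y, hyJ, hyN, hyS⟩ := hy
    left
    set v₁ := y * v₀ * y⁻¹ with hv₁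
    have hv₁S := (Subgroup.mem_normalizer_iff.1 hyN v₀).1 hv₀
    have h01 : v₀ ≠ v₁ := fun e => hmove y hyN hyS v₀ hv₀ hv₀1 e.symm
    have four := SymSylow.PSLTwoFour.four_elems (S : Subgroup G₂) hS hv₀ hv₁S hv₀1 (hne1 hv₀1) h01 (hexp v₀ hv₀)
    set v₂ := y * v₁ * y⁻¹ with hv₂
    have hv₂S := (Subgroup.mem_normalizer_iff.1 hyN v₁).1 hv₁S
    have hv2 : v₂ = v₀ * v₁ := by
      rcases four v₂ hv₂S with e | e | e | e
      · exact absurd e (hne1 (hne1 hv₀1))
      · exfalso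
        have hy2 : y * y ∈ (S : Subgroup G₂) := SymSylow.PSLTwoFour.mem_of_fix hq S (mul_mem hyN hyN) hv₀ hv₀1 (by
          rw [show y * y * v₀ * (y * y)⁻¹ = y * (y * v₀ * y⁻¹) * y⁻¹ by group]; exact e)
        have h4 : y ^ 4 = 1 := by
          rw [show 4 = 2 * 2 from rfl, pow_mul, pow_two y, pow_two, hexp _ hy2]
        obtain ⟨m, -, hm⟩ := (Nat.dvd_prime_pow Nat.prime_two (m := 2)).1 (orderOf_dvd_of_pow_eq_one h4)
        have hz : IsPGroup 2 (Subgroup.zpowers y) := IsPGroup.of_card (by rw [Nat.card_zpowers, hm])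
        exact hyS ((IsPGroup.inf_normalizer_sylow hz S).le ⟨Subgroup.mem_zpowers y, hyN⟩).2
      · exact absurd e (hmove y hyN hyS v₁ hv₁S (hne1 hv₀1))
      · exact e
    have hnv := (Subgroup.mem_normalizer_iff.1 hn v₀).1 hv₀
    rcases four _ hnv with e | e | e | e
    · exact absurd e (hne1 hv₀1)
    · exact absurd e (hmove n hn hnS v₀ hv₀ hv₀1)
    · have h1 : y⁻¹ * n ∈ (S : Subgroup G₂) := SymSylow.PSLTwoFour.mem_of_fix hq S (mul_mem (inv_mem hyN) hn) hv₀ hv₀1 (by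
        rw [show y⁻¹ * n * v₀ * (y⁻¹ * n)⁻¹ = y⁻¹ * (n * v₀ * n⁻¹) * y by group, e]; group)
      have := J.mul_mem hyJ (hSJ h1)
      rwa [mul_inv_cancel_left] at this
    · have h1 : (y * y)⁻¹ * n ∈ (S : Subgroup G₂) :=
        SymSylow.PSLTwoFour.mem_of_fix hq S (mul_mem (inv_mem (mul_mem hyN hyN)) hn) hv₀ hv₀1 (by
          rw [show (y * y)⁻¹ * n * v₀ * ((y * y)⁻¹ * n)⁻¹ = (y * y)⁻¹ * (n * v₀ * n⁻¹) * (y * y) by
            simp only [_root_.mul_inv_rev, inv_inv, mul_assoc],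
            e, show v₀ * (y * v₀ * y⁻¹) = y * (y * v₀ * y⁻¹) * y⁻¹ from hv2.symm]
          simp [mul_assoc])
      have := J.mul_mem (J.mul_mem hyJ hyJ) (hSJ h1)
      rwa [mul_inv_cancel_left] at this
  push Not at hy
  right
  -- a normal complement
  let T : Sylow 2 J := S.subtype hSJ
  have hT : Subgroup.normalizer ((T : Subgroup J) : Set J) ≤ Subgroup.centralizer ((T : Subgroup J) : Set J) := by
    intro z hz
    have hzN : (z : G₂) ∈ Subgroup.normalizer ((S : Subgroup G₂) : Set G₂) := by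
      rw [Subgroup.mem_normalizer_iff] at hz ⊢
      intro s
      constructor
      · intro hs; exact (hz ⟨s, hSJ hs⟩).1 hs
      · intro hs
        have hsJ : s ∈ J := by
          have := J.mul_mem (J.mul_mem (J.inv_mem z.2) (hSJ hs)) z.2
          simpa [mul_assoc] using this
        exact (hz ⟨s, hsJ⟩).2 hs
    have hzS := hy z z.2 hzN
    rw [Subgroup.mem_centralizer_iff]
    intro t ht
    refine Subtype.ext ?_
    have h1 := hexp _ ((S : Subgroup G₂).mul_mem (show (t : G₂) ∈ _ from ht) hzS)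
    calc (t : G₂) * z = ((t : G₂) * z)⁻¹ := eq_inv_of_mul_eq_one_left h1
      _ = (z : G₂)⁻¹ * (t : G₂)⁻¹ := _root_.mul_inv_rev _ _
      _ = (z : G₂) * t := by
        rw [inv_eq_of_mul_eq_one_right (hexp _ hzS), inv_eq_of_mul_eq_one_right (hexp _ (show (t : G₂) ∈ _ from ht))]
  obtain ⟨K', hcompl, hK'n⟩ : ∃ K' : Subgroup J, Subgroup.IsComplement' K' (T : Subgroup J) ∧ K'.Normal :=
    ⟨_, MonoidHom.ker_transferSylow_isComplement' T hT, inferInstance⟩
  haveI := hK'n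
  let K := K'.map J.subtype
  have hKcard : Odd (Nat.card K) := by
    rw [Subgroup.card_map_of_injective J.subtype_injective, ← hcompl.index_eq_card,
      ← Nat.not_even_iff_odd, even_iff_two_dvd]
    exact T.not_dvd_index
  obtain ⟨v, hv, hv1, hvK⟩ := SymSylow.PSLTwoFour.le_centralizer hq J K (Subgroup.map_subtype_le K') hKcard
    (fun a ha k hk => by
      obtain ⟨k, hk, rfl⟩ := hk
      exact ⟨⟨a, ha⟩ * k * ⟨a, ha⟩⁻¹, hK'n.conj_mem k hk ⟨a, ha⟩, rfl⟩) S hSJ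
  have hodd_mem : ∀ x ∈ J, Odd (orderOf x) → x ∈ K := by
    intro x hx ho
    have hidx : K'.index = 4 := by
      rw [hcompl.symm.index_eq_card]
      rw [← hS]
      exact Nat.card_congr (Subgroup.subgroupOfEquivOfLe hSJ).toEquiv
    have h1 : (⟨x, hx⟩ : J) ∈ K' := by
      rw [← QuotientGroup.eq_one_iff, ← orderOf_eq_one_iff]
      have d1 := orderOf_map_dvd (QuotientGroup.mk' K') (⟨x, hx⟩ : J)
      have d2 := orderOf_dvd_natCard ((⟨x, hx⟩ : J) : J ⧸ K')
      rw [← Subgroup.index_eq_card, hidx] at d2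
      rw [Subgroup.orderOf_mk] at d1
      have hc : Nat.Coprime (orderOf x) 4 := by
        rw [show (4 : ℕ) = 2 ^ 2 by norm_num]
        exact Nat.Coprime.pow_right 2 (Nat.prime_two.coprime_iff_not_dvd.2
          (fun h => Nat.not_even_iff_odd.2 ho (even_iff_two_dvd.2 h))).symm
      exact Nat.dvd_one.1 (hc ▸ Nat.dvd_gcd d1 d2)
    exact ⟨⟨x, hx⟩, h1, rfl⟩
  have hHS : H ≤ (S : Subgroup G₂) := by
    intro h hh
    obtain ⟨⟨⟨k, hk⟩, ⟨s, hs⟩⟩, hks⟩ := hcompl.2 ⟨h, (le_sup_left : H ≤ J) hh⟩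
    have hks' : (k : G₂) * s = h := congrArg Subtype.val hks
    have hs' : (s : G₂) ∈ (S : Subgroup G₂) := hs
    have hkH : (k : G₂) ∈ H := by
      have := H.mul_mem hh (H.inv_mem (hSH hs'))
      rwa [← hks', mul_inv_cancel_right] at this
    suffices hk1 : (k : G₂) = 1 by rw [← hks', hk1, one_mul]; exact hs'
    have hodd : Odd (orderOf (k : G₂)) := hKcard.of_dvd_nat (by
      have hd := orderOf_dvd_natCard (⟨(k : G₂), ⟨k, hk, rfl⟩⟩ : K)
      rw [← orderOf_injective K.subtype K.subtype_injective] at hd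
      exact hd)
    have hnk : MulAut.conj n (k : G₂) ∈ K := hodd_mem _ (hnH ⟨k, hkH, rfl⟩) (by rwa [MulEquiv.orderOf_eq])
    have c1 : Commute v (MulAut.conj n (k : G₂)) := hvK _ hnk
    have c2 : Commute (MulAut.conj n v) (MulAut.conj n (k : G₂)) :=
      (hvK _ ⟨k, hk, rfl⟩).map (MulAut.conj n).toMonoidHom
    have hord : orderOf v = 2 := orderOf_eq_prime ((pow_two v).trans (hexp v hv)) hv1
    have := SymSylow.PSLTwoFour.eq_one_of_commute (SymSylow.PSLTwoFour.two_ne hq) (by rwa [MulEquiv.orderOf_eq]) hord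
      (by rw [show n * v * n⁻¹ = MulAut.conj n v from rfl, MulEquiv.orderOf_eq, hord]) (hmove n hn hnS v hv hv1).symm c1 c2
    exact (MulAut.conj n).injective (this.trans (map_one _).symm)
  exact hHS

/-- The same in `SL₂`. -/
theorem overgroup_sl (H : Subgroup SLF) (Q : Sylow 2 SLF) (hQH : (Q : Subgroup SLF) ≤ H) (n : SLF)
    (hn : n ∈ Subgroup.normalizer ((Q : Subgroup SLF) : Set SLF)) (hnQ : n ∉ (Q : Subgroup SLF)) :
    n ∈ H ⊔ cj n H ∨ H ≤ (Q : Subgroup SLF) := by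
  have hm := neg_one_mem (SymSylow.PSLTwoFour.two_ne hq) Q
  have lift : ∀ (K : Subgroup SLF), (-1 : SLF) ∈ K → ∀ x, pmk x ∈ K.map (pmk (F := F)) → x ∈ K := by
    rintro K hK x ⟨y, hy, e⟩
    rcases pmk_eq_iff.1 e with h | h
    · exact h ▸ hy
    · rw [show x = -1 * y by rw [h, neg_one_mul, neg_neg]]; exact mul_mem hK hy
  have hS : ((Q.mapSurjective pmk_surjective : Sylow 2 G₂) : Subgroup G₂) = (Q : Subgroup SLF).map pmk := rfl
  rcases overgroup_psl hq (H.map pmk) (Q.mapSurjective pmk_surjective) (hS ▸ Subgroup.map_mono hQH) (pmk n)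
    (by rw [hS]; exact Subgroup.le_normalizer_map pmk ⟨n, hn, rfl⟩)
    (by rw [hS]; exact fun h => hnQ (lift _ hm n h)) with h | h
  · left
    refine lift _ (Subgroup.mem_sup_left (hQH hm)) n ?_
    rw [Subgroup.map_sup, map_cj]
    exact h
  · right
    intro x hx
    exact lift _ hm x (hS ▸ h ⟨x, hx, rfl⟩)

end CfsgLib.PronSymp
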