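import Mathlib
import Cfsg.Agent.PronSymp.Basic
import Cfsg.Agent.SymSylow.SympTwo

/-!
The symplectic group as unitary matrices over `M₂(F)`, and the monomial Sylow 2-subgroup.
-/

set_option autoImplicit false
set_option linter.unusedSectionVars false

namespace CfsgLib.PronSymp

open Matrix CfsgLib.SymSylow.BlockMono

variable {F : Type*} [Field F] {m : ℕ}

local notation "SLF" => Matrix.SpecialLinearGroup (Fin 2) F
local notation "M₂" => Matrix (Fin 2) (Fin 2) F
local notation "Mat" => Matrix (Fin m) (Fin m) (Matrix (Fin 2) (Fin 2) F)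

/-- A `2m × 2m` matrix as an `m × m` matrix of `2 × 2` blocks. -/
def toBlk (A : Matrix (Fin m ⊕ Fin m) (Fin m ⊕ Fin m) F) : Mat :=
  fun i j => Matrix.of fun a b => A (pairEquiv m (a, i)) (pairEquiv m (b, j))

theorem toBlk_apply (A : Matrix (Fin m ⊕ Fin m) (Fin m ⊕ Fin m) F) (i j : Fin m) (a b : Fin 2) :
    toBlk A i j a b = A (pairEquiv m (a, i)) (pairEquiv m (b, j)) := rfl

theorem pairEquiv_zero (i : Fin m) : pairEquiv m (0, i) = Sum.inl i := rfl

theorem pairEquiv_one (i : Fin m) : pairEquiv m (1, i) = Sum.inr i := rfl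

theorem toBlk_mul (A B : Matrix (Fin m ⊕ Fin m) (Fin m ⊕ Fin m) F) :
    toBlk (A * B) = toBlk A * toBlk B := by
  refine Matrix.ext fun i j => Matrix.ext fun a b => ?_
  rw [toBlk_apply, Matrix.mul_apply, Matrix.mul_apply, Matrix.sum_apply]
  simp only [Matrix.mul_apply, toBlk_apply, Fin.sum_univ_two, pairEquiv_zero, pairEquiv_one]
  rw [Fintype.sum_sum_type, Finset.sum_add_distrib]

theorem toBlk_one : toBlk (1 : Matrix (Fin m ⊕ Fin m) (Fin m ⊕ Fin m) F) = 1 := by
  refine Matrix.ext fun i j => Matrix.ext fun a b => ?_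
  rw [toBlk_apply]
  rcases eq_or_ne i j with rfl | h
  · rw [Matrix.one_apply_eq]
    simp [Matrix.one_apply]
  · rw [Matrix.one_apply_ne h, Matrix.one_apply_ne fun e => h (congrArg Prod.snd ((pairEquiv m).injective e))]
    rfl

theorem toBlk_injective : Function.Injective (toBlk (F := F) (m := m)) := by
  intro A B h
  refine Matrix.ext fun x y => ?_
  obtain ⟨⟨a, i⟩, rfl⟩ := (pairEquiv m).surjective x
  obtain ⟨⟨b, j⟩, rfl⟩ := (pairEquiv m).surjective y
  exact congrFun (congrFun (congrFun (congrFun h i) j) a) b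

/-- The block form of a symplectic matrix. -/
def spM : Matrix.symplecticGroup (Fin m) F →* Mat where
  toFun A := toBlk (A : Matrix (Fin m ⊕ Fin m) (Fin m ⊕ Fin m) F)
  map_one' := toBlk_one
  map_mul' A B := toBlk_mul (A : Matrix (Fin m ⊕ Fin m) (Fin m ⊕ Fin m) F) B

/-- The symplectic group as a group of block units. -/
def spU : Matrix.symplecticGroup (Fin m) F →* BU F m := (spM (F := F) (m := m)).toHomUnits

@[simp] theorem spU_val (A : Matrix.symplecticGroup (Fin m) F) :
    (spU A : Mat) = toBlk (A : Matrix (Fin m ⊕ Fin m) (Fin m ⊕ Fin m) F) := rfl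

theorem spU_injective : Function.Injective (spU (F := F) (m := m)) := fun _ _ h =>
  Subtype.ext (toBlk_injective (congrArg Units.val h))

theorem ads_spU (A : Matrix.symplecticGroup (Fin m) F) :
    ads (spU A : Mat) = ((spU A)⁻¹ : BU F m) := by
  rw [← map_inv, spU_val, spU_val, SymplecticGroup.coe_inv]
  generalize (A : Matrix (Fin m ⊕ Fin m) (Fin m ⊕ Fin m) F) = X
  rw [← fromBlocks_toBlocks X, J, fromBlocks_transpose, fromBlocks_neg, fromBlocks_multiply,
    fromBlocks_multiply]
  refine Matrix.ext fun i j => Matrix.ext fun a b => ?_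
  rw [ads_apply, Matrix.adjugate_fin_two]
  fin_cases a <;> fin_cases b <;> simp [toBlk_apply, pairEquiv_zero, pairEquiv_one]

theorem spU_blkSp (a : Fin m → SLF) : spU (CfsgLib.SymSylow.SympTwo.blkSp a) = diagU a := by
  refine Units.ext (Matrix.ext fun i j => Matrix.ext fun x y => ?_)
  rw [spU_val, CfsgLib.SymSylow.SympTwo.coe_blkSp, toBlk_apply, blk_apply, diagU_val]
  rcases eq_or_ne i j with rfl | h
  · fin_cases x <;> fin_cases y <;> simp [pairEquiv_zero, pairEquiv_one]
  · fin_cases x <;> fin_cases y <;> simp [pairEquiv_zero, pairEquiv_one, h]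

theorem spU_pmatSp (σ : Equiv.Perm (Fin m)) :
    spU (CfsgLib.SymSylow.SympTwo.pmatSp (F := F) σ) = permU σ := by
  refine Units.ext (Matrix.ext fun i j => Matrix.ext fun x y => ?_)
  rw [spU_val, permU_val]
  show toBlk (pmat (F := F) σ) i j x y = _
  rw [toBlk_apply, pmat_apply, PEquiv.toMatrix_apply]
  by_cases h : σ j = i
  · have h' : σ.symm i = j := by rw [← h, Equiv.symm_apply_apply]
    fin_cases x <;> fin_cases y <;> simp [pairEquiv_zero, pairEquiv_one, h, h']
  · have h' : σ.symm i ≠ j := fun e => h (by rw [← e, Equiv.apply_symm_apply])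
    fin_cases x <;> fin_cases y <;> simp [pairEquiv_zero, pairEquiv_one, h, h']

end CfsgLib.PronSymp
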