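import Mathlib
import Cfsg.Agent.PronSymp.Frame

/-!
Without fusion to transpositions every reflection has support at most two, and every element of
the group is monomial.
-/

set_option autoImplicit false
set_option linter.unusedSectionVars false
set_option linter.style.haveILetI false

namespace CfsgLib.PronSymp

open Matrix

variable {F : Type*} [Field F] [Fintype F] {m : ℕ}

local notation "SLF" => Matrix.SpecialLinearGroup (Fin 2) F
local notation "M₂" => Matrix (Fin 2) (Fin 2) F
local notation "Mat" => Matrix (Fin m) (Fin m) (Matrix (Fin 2) (Fin 2) F)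

theorem det_add (X Y : M₂) : (X + Y).det = X.det + Y.det + (adjugate X * Y).trace := by
  simp [Matrix.det_fin_two, Matrix.adjugate_fin_two, Matrix.trace_fin_two, Matrix.mul_apply, Fin.sum_univ_two,
    Matrix.vecMul, dotProduct]
  ring

theorem mul_adj_cancel {X t : M₂} (ht : t.det ≠ 0) (h : X * t = 0) : X = 0 := by
  have h' := congrArg (fun Y => Y * adjugate t) h
  simp only [mul_assoc, Matrix.mul_adjugate, mul_smul_comm, mul_one, zero_mul] at h'
  exact (smul_eq_zero_iff_right ht).1 h'

theorem det_ne_zero_of_inv {t : M₂} {γ : F} (ht : t.det * (1 - γ) = 1) : t.det ≠ 0 := fun e => by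
  rw [e, zero_mul] at ht; exact zero_ne_one ht

theorem exists_t {γ : F} (h : γ ≠ 1) : ∃ t : M₂, t.det * (1 - γ) = 1 :=
  ⟨Matrix.diagonal ![(1 - γ)⁻¹, 1], by
    simp [Matrix.det_diagonal, Fin.prod_univ_two, inv_mul_cancel₀ (sub_ne_zero.2 (Ne.symm h))]⟩

namespace Setup

variable {S : Setup F m}

/-- A reflection gives a conjugate of a standard one with almost the same support. -/
theorem exists_convert {v : Vec F m} (hvR : S.IsR v) :
    ∃ c ∈ supp v, ∃ u, S.IsD u ∧ supp u ⊆ supp v ∧ ∀ l ∈ supp v, l ≠ c → l ∈ supp u := by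
  have h2 := S.h2
  obtain ⟨hv, -⟩ := id hvR
  obtain ⟨c, hc, hcne⟩ : ∃ c ∈ supp v, cc v c ≠ 0 := by
    refine Finset.exists_ne_zero_of_sum_ne_zero ?_
    rw [sum_supp_cc hv]; exact one_ne_zero
  refine ⟨c, hc, refl v * (std c : Vec F m), convert_isD hvR c, fun l hl => ?_, fun l hl hlc => ?_⟩
  · by_contra hn
    rw [mem_supp, convert_apply, notMem_supp.1 hn, if_neg (fun e : l = c => hn (e ▸ hc))] at hl
    simp at hl
  · rw [mem_supp, convert_apply, if_neg hlc]
    intro h0
    rw [zero_sub, neg_eq_zero, smul_eq_zero_iff_right h2] at h0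
    exact mem_supp.1 hl (mul_adj_cancel (by rw [Matrix.det_adjugate]; simpa [cc] using hcne) h0)

/-- Deleting a coordinate from a reflection not conjugate to a standard one. -/
theorem exists_delete {y : Vec F m} (hyR : S.IsR y) (hyD : ¬ S.IsD y) {k : Fin m} (hk : k ∈ supp y) :
    ∃ z, S.IsR z ∧ supp z = (supp y).erase k ∧ ∃ t : M₂, t.det ≠ 0 ∧ ∀ l, l ≠ k → z l 0 = y l 0 * t := by
  obtain ⟨hy, hyH⟩ := hyR
  have ha : inner' (std k : Vec F m) y ≠ 0 := by rw [inner_std]; exact mem_supp.1 hk
  obtain ⟨hγ, hall⟩ := pair_refl S.h2 S.H (std_unit k) hy (S.std_mem k) hyH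
    (fun g hg e => hyD ⟨hy, g, hg, k, e⟩) ha
  obtain ⟨t, ht⟩ := exists_t hγ
  obtain ⟨h1, -, h1H, -, -⟩ := hall t ht
  have htne := det_ne_zero_of_inv ht
  have hcoord : ∀ l, ((y - (std k : Vec F m) * sc (inner' (std k : Vec F m) y)) * sc t) l 0 =
      (if l = k then 0 else y l 0) * t := by
    intro l
    rw [mul_sc_apply, Matrix.sub_apply, mul_sc_apply, inner_std, std_apply]
    split_ifs with h
    · rw [h, one_mul, sub_self]
    · rw [zero_mul, sub_zero]
  refine ⟨_, ⟨h1, h1H⟩, ?_, t, htne, fun l hl => by rw [hcoord, if_neg hl]⟩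
  ext l
  rw [mem_supp, hcoord, Finset.mem_erase, mem_supp]
  split_ifs with h
  · simp [h]
  · exact ⟨fun h' => ⟨h, fun e => h' (by rw [e, zero_mul])⟩, fun h' e => h'.2 (mul_adj_cancel htne e)⟩

/-- A transposition axis and a conjugate of a standard reflection give a reflection of the other kind. -/
theorem exists_two (hW : S.NoFuse) {x : Vec F m} (hxD : S.IsD x) {i j : Fin m} (hij : i ≠ j)
    (hsw : permU (Equiv.swap i j) ∈ S.H) {b : SLF} (hb : b ∈ (S.Q : Subgroup SLF))
    (ha : x i 0 + ((b⁻¹ : SLF) : M₂) * x j 0 ≠ 0) :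
    ∃ y, S.IsR y ∧ ¬ S.IsD y ∧ ∃ t : M₂, t.det ≠ 0 ∧
      ((∀ l, y l 0 = (x l 0 - S.wv i j b l 0 * inner' (S.wv i j b) x) * t) ∨
        (∀ l, y l 0 = (S.wv i j b l 0 - x l 0 * adjugate (inner' (S.wv i j b) x)) * t)) := by
  have h2 := S.h2
  set w := S.wv i j b
  have hw := S.wv_unit hij b
  obtain ⟨hx, hxH⟩ := hxD.isR
  have ha' : inner' w x ≠ 0 := by
    rw [S.inner_wv hij]
    intro e
    have h' := congrArg (fun Y => S.p0 * Y) e
    simp only [← mul_assoc, S.p0_mul_adj, smul_mul_assoc, one_mul, mul_zero] at h'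
    exact ha ((smul_eq_zero_iff_right (inv_ne_zero h2)).1 h')
  have hwH := S.rU_wv_mem hij hb hsw
  obtain ⟨hγ, hall⟩ := pair_refl h2 S.H hw hx hwH hxH (fun g hg e => by
    refine wv_not_D hW hij b (S.isD_of_conj hxD hx hw ⟨g⁻¹, S.H.inv_mem hg, ?_⟩)
    rw [← e]; group) ha'
  obtain ⟨t, ht⟩ := exists_t hγ
  obtain ⟨h1, h1', h1H, h1H', hcl⟩ := hall t ht
  have c1 : ∀ l, ((x - w * sc (inner' w x)) * sc t) l 0 = (x l 0 - w l 0 * inner' w x) * t := fun l => by
    rw [mul_sc_apply, Matrix.sub_apply, mul_sc_apply]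
  have c2 : ∀ l, ((w - x * sc (adjugate (inner' w x))) * sc t) l 0 =
      (w l 0 - x l 0 * adjugate (inner' w x)) * t := fun l => by
    rw [mul_sc_apply, Matrix.sub_apply, mul_sc_apply]
  have notD : ∀ (y : Vec F m) (hy : ads y * y = 1), (∃ g ∈ S.H, g * rU w hw * g⁻¹ = rU y hy) → ¬ S.IsD y := by
    rintro y hy ⟨g, hg, e⟩ hyD
    refine wv_not_D hW hij b (S.isD_of_conj hyD hy hw ⟨g⁻¹, S.H.inv_mem hg, ?_⟩)
    rw [← e]; group; rfl
  rcases hcl with ⟨hc, -⟩ | ⟨-, hc⟩
  · exact ⟨_, ⟨h1, h1H⟩, notD _ h1 hc, t, det_ne_zero_of_inv ht, Or.inl c1⟩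
  · exact ⟨_, ⟨h1', h1H'⟩, notD _ h1' hc, t, det_ne_zero_of_inv ht, Or.inr c2⟩

theorem ne_zero_of_cc {v : Vec F m} {i : Fin m} (h : cc v i ≠ 0) : v i 0 ≠ 0 := fun e => h (by simp [cc, e])

/-- Supports of sizes between three and `n` do not occur. -/
theorem no_large (hW : S.NoFuse) (n : ℕ) (hn : 3 ≤ n) : ∀ v : Vec F m, S.IsR v → (supp v).card ≠ n := by
  classical
  have h2 := S.h2
  induction n using Nat.strong_induction_on with
  | _ n IH =>
  intro v hvR hcard
  -- conjugates of standard reflections suffice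
  suffices hD : ∀ x : Vec F m, S.IsD x → (supp x).card ≠ n by
    obtain ⟨c, hc, u, huD, hsub, hrest⟩ := exists_convert hvR
    by_cases hcu : c ∈ supp u
    · refine hD u huD ?_
      rw [← hcard]
      congr 1
      exact Finset.Subset.antisymm hsub fun l hl => if e : l = c then e ▸ hcu else hrest l hl e
    have hu : supp u = (supp v).erase c := by
      ext l
      rw [Finset.mem_erase]
      exact ⟨fun hl => ⟨fun e => hcu (e ▸ hl), hsub hl⟩, fun hl => hrest l hl.2 hl.1⟩
    have hcu' : (supp u).card = n - 1 := by rw [hu, Finset.card_erase_of_mem hc, hcard]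
    rcases (by omega : n = 3 ∨ 4 ≤ n) with rfl | h4
    · obtain ⟨i, j, hij, huij⟩ := Finset.card_eq_two.1 hcu'
      rcases pair_D hW huD hij huij.le with h | h
      · exact mem_supp.1 (huij ▸ by simp : i ∈ supp u) h
      · exact mem_supp.1 (huij ▸ by simp : j ∈ supp u) h
    · exact IH (n - 1) (by omega) (by omega) u huD.isR hcu'
  intro x hxD hxn
  have hw1 : ∀ (i j l : Fin m) (b : SLF), l ≠ i → l ≠ j → S.wv i j b l 0 = 0 :=
    fun i j l b hi hj => S.wv_other hi hj b
  have q1 : (1 : SLF) ∈ (S.Q : Subgroup SLF) := one_mem _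
  have dp : S.p0.det ≠ 0 := by rw [S.det_p0]; exact inv_ne_zero h2
  rcases (by omega : n = 3 ∨ 4 ≤ n) with rfl | h4
  · -- three coordinates
    by_cases hpair : ∃ i ∈ supp x, ∃ j ∈ supp x, i ≠ j ∧ permU (Equiv.swap i j) ∈ S.H
    · obtain ⟨i, hi, j, hj, hij, hsw⟩ := hpair
      have h1 : (((supp x).erase i).erase j).card = 1 := by
        rw [Finset.card_erase_of_mem (Finset.mem_erase.2 ⟨hij.symm, hj⟩), Finset.card_erase_of_mem hi, hxn]
      obtain ⟨k, hk⟩ := Finset.card_eq_one.1 h1
      have hkm : k ∈ ((supp x).erase i).erase j := by rw [hk]; simp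
      simp only [Finset.mem_erase] at hkm
      refine triple_false hW hkm.2.1 hkm.1 hij hsw hxD.isR ?_
      rw [Finset.insert_eq, Finset.insert_eq]
      ext l
      simp only [Finset.mem_union, Finset.mem_singleton]
      constructor
      · intro hl
        by_contra hne
        push Not at hne
        have : l ∈ ((supp x).erase i).erase j := Finset.mem_erase.2 ⟨hne.2.2, Finset.mem_erase.2 ⟨hne.2.1, hl⟩⟩
        rw [hk, Finset.mem_singleton] at this
        exact hne.1 this
      · rintro (rfl | rfl | rfl)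
        exacts [hkm.2.2, hi, hj]
    push Not at hpair
    obtain ⟨hx, -⟩ := id hxD
    obtain ⟨k0, hk0, hk0c⟩ : ∃ k ∈ supp x, cc x k ≠ 0 := by
      refine Finset.exists_ne_zero_of_sum_ne_zero ?_
      rw [sum_supp_cc hx]; exact one_ne_zero
    obtain ⟨i, hi, k1, hk1, hik, hci, hk1c⟩ : ∃ i ∈ supp x, ∃ k ∈ supp x, i ≠ k ∧ cc x i ≠ 1 ∧ cc x k ≠ 0 := by
      by_contra hcon
      push Not at hcon
      have hall : ∀ l ∈ supp x, l ≠ k0 → cc x l = 1 := by
        intro l hl hlk
        by_contra h
        exact hk0c (hcon l hl k0 hk0 hlk h)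
      have hsum := sum_supp_cc hx
      rw [← Finset.add_sum_erase _ _ hk0, Finset.sum_congr rfl (g := fun _ => (1 : F))
        (fun l hl => hall l (Finset.mem_erase.1 hl).2 (Finset.mem_erase.1 hl).1), Finset.sum_const,
        Finset.card_erase_of_mem hk0, hxn] at hsum
      simp at hsum
      obtain ⟨l, hl⟩ : ((supp x).erase k0).Nonempty := by
        rw [← Finset.card_pos, Finset.card_erase_of_mem hk0, hxn]; norm_num
      have hl' := Finset.mem_erase.1 hl
      have hk : cc x k0 ≠ 1 := fun e => h2 (by linear_combination hsum - e)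
      have := hcon k0 hk0 l hl'.2 hl'.1.symm hk
      rw [hall l hl'.2 hl'.1] at this
      exact one_ne_zero this
    obtain ⟨j, hji, hsw⟩ := S.hswap i
    have hjS : j ∉ supp x := fun h => hpair i hi j h hji.symm hsw
    have hjk : j ≠ k1 := fun e => hjS (e ▸ hk1)
    have hxj := notMem_supp.1 hjS
    obtain ⟨y, hyR, hyD, t, ht, hy⟩ := exists_two hW hxD hji.symm hsw q1 (by
      rw [hxj, mul_zero, add_zero]; exact mem_supp.1 hi)
    have hA : inner' (S.wv i j 1) x = adjugate S.p0 * x i 0 := by
      rw [S.inner_wv hji.symm, hxj, mul_zero, add_zero]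
    have e11 : S.p0 * adjugate S.p0 = (2 : F)⁻¹ • (1 : M₂) := S.p0_mul_adj
    have hmem : i ∈ supp y ∧ j ∈ supp y ∧ k1 ∈ supp y ∧ supp y ⊆ insert j (supp x) := by
      have other : ∀ l, l ∉ insert j (supp x) → y l 0 = 0 := by
        intro l hl
        rw [Finset.mem_insert, not_or] at hl
        have hli : l ≠ i := fun e => hl.2 (e ▸ hi)
        rcases hy with hy | hy <;> rw [hy, hw1 i j l 1 hli hl.1, notMem_supp.1 hl.2] <;> simp
      refine ⟨?_, ?_, ?_, fun l hl => by by_contra h; exact mem_supp.1 hl (other l h)⟩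
      all_goals rw [mem_supp]; rcases hy with hy | hy <;> rw [hy, hA] <;> intro h0 <;>
        have h0 := mul_adj_cancel ht h0
      · rw [wv_i, ← mul_assoc, e11, smul_mul_assoc, one_mul] at h0
        have e : (1 - (2 : F)⁻¹) • x i 0 = 0 := by rw [sub_smul, one_smul]; exact h0
        refine mem_supp.1 hi ((smul_eq_zero_iff_right ?_).1 e)
        rw [show (1 : F) - 2⁻¹ = 2⁻¹ by field_simp; ring]
        exact inv_ne_zero h2
      · rw [wv_i, Matrix.adjugate_mul_distrib, adj_adj, ← mul_assoc, Matrix.mul_adjugate, smul_mul_assoc,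
          one_mul] at h0
        have e : (1 - (x i 0).det) • S.p0 = 0 := by rw [sub_smul, one_smul]; exact h0
        rcases smul_eq_zero.1 e with e | e
        · exact hci (sub_eq_zero.1 e).symm
        · exact dp (by rw [e]; simp)
      · rw [wv_j S hji.symm, Matrix.SpecialLinearGroup.coe_one, one_mul, hxj, zero_sub, neg_eq_zero, ← mul_assoc,
          e11, smul_mul_assoc, one_mul, smul_eq_zero_iff_right (inv_ne_zero h2)] at h0
        exact mem_supp.1 hi h0
      · rw [wv_j S hji.symm, Matrix.SpecialLinearGroup.coe_one, one_mul, hxj, zero_mul, sub_zero] at h0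
        exact dp (by rw [h0]; simp)
      · rw [hw1 i j k1 1 hik.symm hjk.symm, zero_mul, sub_zero] at h0
        exact mem_supp.1 hk1 h0
      · rw [hw1 i j k1 1 hik.symm hjk.symm, zero_sub, neg_eq_zero, Matrix.adjugate_mul_distrib, adj_adj] at h0
        have h1 := congrArg (fun X => adjugate (x k1 0) * X) h0
        rw [← mul_assoc, Matrix.adjugate_mul, smul_mul_assoc, one_mul, mul_zero,
          smul_eq_zero_iff_right (show (x k1 0).det ≠ 0 from hk1c)] at h1
        have h2' := mul_adj_cancel dp h1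
        exact mem_supp.1 hi (by rw [← adj_adj (x i 0), h2', Matrix.adjugate_zero])
    obtain ⟨hyi, hyj, hyk, hys⟩ := hmem
    have hc4 : (supp y).card ≤ 4 := (Finset.card_le_card hys).trans (by
      rw [Finset.card_insert_of_notMem hjS, hxn])
    have htri : ∀ z : Vec F m, S.IsR z → i ∈ supp z → j ∈ supp z → k1 ∈ supp z → (supp z).card ≤ 3 → False := by
      intro z hz hzi hzj hzk hzc
      refine triple_false hW hik.symm hjk.symm hji.symm hsw hz (Finset.Subset.antisymm ?_ ?_).symm
      · intro l hl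
        simp only [Finset.mem_insert, Finset.mem_singleton] at hl
        rcases hl with rfl | rfl | rfl
        exacts [hzk, hzi, hzj]
      · refine (Finset.eq_of_subset_of_card_le ?_ ?_).ge
        · intro l hl
          simp only [Finset.mem_insert, Finset.mem_singleton] at hl
          rcases hl with rfl | rfl | rfl
          exacts [hzk, hzi, hzj]
        · refine hzc.trans (le_of_eq ?_)
          rw [Finset.card_insert_of_notMem (by simp [hik.symm, hjk.symm]),
            Finset.card_insert_of_notMem (by simp [hji.symm]), Finset.card_singleton]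
    by_cases h3 : (supp y).card ≤ 3
    · exact htri y hyR hyi hyj hyk h3
    obtain ⟨k2, hk2, hk2n⟩ : ∃ k ∈ supp y, k ∉ ({i, j, k1} : Finset (Fin m)) := by
      by_contra h
      push Not at h
      exact h3 ((Finset.card_le_card h).trans Finset.card_le_three)
    simp only [Finset.mem_insert, Finset.mem_singleton, not_or] at hk2n
    obtain ⟨z, hzR, hzs, -⟩ := exists_delete hyR hyD hk2
    refine htri z hzR ?_ ?_ ?_ ?_ <;> rw [hzs]
    · exact Finset.mem_erase.2 ⟨Ne.symm hk2n.1, hyi⟩
    · exact Finset.mem_erase.2 ⟨Ne.symm hk2n.2.1, hyj⟩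
    · exact Finset.mem_erase.2 ⟨Ne.symm hk2n.2.2, hyk⟩
    · rw [Finset.card_erase_of_mem hk2]; omega
  -- four or more coordinates
  have hnonD : ∀ y : Vec F m, S.IsR y → ¬ S.IsD y → 3 ≤ (supp y).card → (supp y).card ≤ n → False := by
    intro y hyR hyD hlo hhi
    by_cases hlt : (supp y).card < n
    · exact IH _ hlt hlo y hyR rfl
    obtain ⟨k, hk⟩ : (supp y).Nonempty := Finset.card_pos.1 (by omega)
    obtain ⟨z, hzR, hzs, -⟩ := exists_delete hyR hyD hk
    exact IH (n - 1) (by omega) (by omega) z hzR (by rw [hzs, Finset.card_erase_of_mem hk]; omega)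
  have caseA : ∀ x : Vec F m, S.IsD x → (supp x).card = n → ∀ i ∈ supp x, ∀ j ∈ supp x, i ≠ j →
      permU (Equiv.swap i j) ∈ S.H → (cc x i ≠ 0 ∨ cc x j ≠ 0) → False := by
    intro x hxD hxn i hi j hj hij hsw hnd
    set u := (S.P.u : M₂)
    have du : (1 - u).det = 2 := by
      have h := det_add (1 : M₂) (-u)
      rw [← sub_eq_add_neg, Matrix.adjugate_one, one_mul, Matrix.trace_neg, Matrix.det_neg, S.P.u.2,
        Matrix.det_one] at h
      have ht : u.trace = 0 := by
        have := CfsgLib.SL2.mul_self_eq_neg_one_iff.1 S.P.uu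
        rwa [CfsgLib.SL2.tr_eq_trace] at this
      rw [h, ht]
      norm_num
    obtain ⟨b, hb, hγ, hne⟩ : ∃ b ∈ (S.Q : Subgroup SLF), (x i 0 + ((b⁻¹ : SLF) : M₂) * x j 0).det ≠ 0 ∧
        x j 0 ≠ (b : M₂) * x i 0 := by
      by_cases hex : ∃ b ∈ (S.Q : Subgroup SLF), (x i 0 + ((b⁻¹ : SLF) : M₂) * x j 0).det ≠ 0
      · obtain ⟨b, hb, hγ⟩ := hex
        by_cases hne : x j 0 = (b : M₂) * x i 0
        swap
        · exact ⟨b, hb, hγ, hne⟩
        have hbb : ((b⁻¹ : SLF) : M₂) * (b : M₂) = 1 := by
          rw [← Matrix.SpecialLinearGroup.coe_mul, inv_mul_cancel, Matrix.SpecialLinearGroup.coe_one]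
        rw [hne, ← mul_assoc, hbb, one_mul] at hγ
        have hci : (x i 0).det ≠ 0 := fun e => hγ (by
          rw [← two_smul F, Matrix.det_smul, e, mul_zero])
        refine ⟨b * S.P.u, mul_mem hb S.P.hu, ?_, fun e => ?_⟩
        · rw [hne, ← mul_assoc, ← Matrix.SpecialLinearGroup.coe_mul,
            show (b * S.P.u)⁻¹ * b = -S.P.u by rw [← inv_of_sq S.P.uu]; group,
            Matrix.SpecialLinearGroup.coe_neg, neg_mul, ← sub_eq_add_neg]
          rw [show x i 0 - u * x i 0 = (1 - u) * x i 0 by rw [sub_mul, one_mul], Matrix.det_mul, du]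
          exact mul_ne_zero h2 hci
        · rw [hne, Matrix.SpecialLinearGroup.coe_mul, mul_assoc] at e
          have e' := congrArg (fun X => ((b⁻¹ : SLF) : M₂) * X) e
          simp only [← mul_assoc, hbb, one_mul] at e'
          have e3 : (1 - u) * x i 0 = 0 := by rw [sub_mul, one_mul, ← e', sub_self]
          have := congrArg Matrix.det e3
          rw [Matrix.det_mul, du] at this
          simp [h2, hci] at this
      push Not at hex
      exfalso
      have key : ∀ b ∈ (S.Q : Subgroup SLF), cc x i + cc x j +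
          (x j 0 * adjugate (x i 0) * (b : M₂)).trace = 0 := by
        intro b hb
        have h := hex b⁻¹ (inv_mem hb)
        rw [inv_inv, det_add, Matrix.det_mul, b.2, one_mul, ← mul_assoc, Matrix.trace_mul_comm, ← mul_assoc] at h
        exact h
      have hneg : ∀ b ∈ (S.Q : Subgroup SLF), (x j 0 * adjugate (x i 0) * (b : M₂)).trace = 0 ∧
          cc x i + cc x j = 0 := by
        intro b hb
        have h1 := key b hb
        have h3 := key (-b) (by rw [← neg_one_mul]; exact mul_mem S.neg_mem hb)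
        rw [Matrix.SpecialLinearGroup.coe_neg, mul_neg, Matrix.trace_neg] at h3
        exact ⟨mul_left_cancel₀ h2 (by linear_combination h1 - h3), mul_left_cancel₀ h2 (by linear_combination h1 + h3)⟩
      have h0 := eq_zero_of_trace h2 S.P fun b hb => (hneg b hb).1
      have hd := congrArg Matrix.det h0
      have hs := (hneg 1 q1).2
      simp [Matrix.det_adjugate] at hd
      rcases hd with hd | hd
      · have : cc x i = 0 := by rw [show cc x j = 0 from hd, add_zero] at hs; exact hs
        rcases hnd with h | h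
        · exact h this
        · exact h hd
      · rcases hnd with h | h
        · exact h hd
        · exact h (by rw [show cc x i = 0 from hd, zero_add] at hs; exact hs)
    have ha : x i 0 + ((b⁻¹ : SLF) : M₂) * x j 0 ≠ 0 := fun e => hγ (by rw [e]; simp)
    obtain ⟨y, hyR, hyD, t, ht, hy⟩ := exists_two hW hxD hij hsw hb ha
    set A := inner' (S.wv i j b) x
    have hA : A = adjugate S.p0 * (x i 0 + ((b⁻¹ : SLF) : M₂) * x j 0) := S.inner_wv hij b x
    have hAd : A.det ≠ 0 := by
      rw [hA, Matrix.det_mul, Matrix.det_adjugate]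
      simpa [dp] using hγ
    have sub : supp y ⊆ supp x := by
      intro l hl
      by_contra h
      have hli : l ≠ i := fun e => h (e ▸ hi)
      have hlj : l ≠ j := fun e => h (e ▸ hj)
      rcases hy with hy | hy <;> rw [mem_supp, hy, hw1 i j l b hli hlj, notMem_supp.1 h] at hl <;> simp at hl
    have others : ∀ l ∈ supp x, l ≠ i → l ≠ j → l ∈ supp y := by
      intro l hl hli hlj
      rw [mem_supp]
      intro h0
      rcases hy with hy | hy <;> rw [hy, hw1 i j l b hli hlj] at h0 <;> have h0 := mul_adj_cancel ht h0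
      · rw [zero_mul, sub_zero] at h0; exact mem_supp.1 hl h0
      · rw [zero_sub, neg_eq_zero] at h0
        exact mem_supp.1 hl (mul_adj_cancel (by rw [Matrix.det_adjugate]; simpa using hAd) h0)
    have one : i ∈ supp y ∨ j ∈ supp y := by
      by_contra h
      rw [not_or, notMem_supp, notMem_supp] at h
      obtain ⟨hi0, hj0⟩ := h
      rcases hy with hy | hy <;> rw [hy] at hi0 hj0 <;> have hi0 := mul_adj_cancel ht hi0 <;>
        have hj0 := mul_adj_cancel ht hj0 <;> rw [sub_eq_zero] at hi0 hj0 <;>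
        rw [wv_i] at hi0 <;> rw [wv_j S hij] at hj0
      · exact hne (by rw [hj0, mul_assoc, ← hi0])
      · refine hne ?_
        have e : (x j 0 - (b : M₂) * x i 0) * adjugate A = 0 := by
          rw [sub_mul, ← hj0, mul_assoc (b : M₂), ← hi0, sub_self]
        exact sub_eq_zero.1 (mul_adj_cancel (by rw [Matrix.det_adjugate]; simpa using hAd) e)
    refine hnonD y hyR hyD ?_ ((Finset.card_le_card sub).trans hxn.le)
    have hsub : ((supp x).erase i).erase j ⊆ supp y := fun l hl => by
      simp only [Finset.mem_erase] at hl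
      exact others l hl.2.2 hl.2.1 hl.1
    have hc : (((supp x).erase i).erase j).card = n - 2 := by
      rw [Finset.card_erase_of_mem (Finset.mem_erase.2 ⟨hij.symm, hj⟩), Finset.card_erase_of_mem hi, hxn]
      omega
    rcases one with h | h
    · have := Finset.card_le_card (Finset.insert_subset h hsub)
      rw [Finset.card_insert_of_notMem (by simp), hc] at this
      omega
    · have := Finset.card_le_card (Finset.insert_subset h hsub)
      rw [Finset.card_insert_of_notMem (by simp), hc] at this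
      omega
  obtain ⟨hx, -⟩ := id hxD
  obtain ⟨i, hi, hci⟩ : ∃ i ∈ supp x, cc x i ≠ 0 := by
    refine Finset.exists_ne_zero_of_sum_ne_zero ?_
    rw [sum_supp_cc hx]; exact one_ne_zero
  obtain ⟨j, hji, hsw⟩ := S.hswap i
  by_cases hjS : j ∈ supp x
  · exact caseA x hxD hxn i hi j hjS hji.symm hsw (Or.inl hci)
  have hxj := notMem_supp.1 hjS
  obtain ⟨y, hyR, hyD, t, ht, hy⟩ := exists_two hW hxD hji.symm hsw q1 (by
    rw [hxj, mul_zero, add_zero]; exact mem_supp.1 hi)
  have hA : inner' (S.wv i j 1) x = adjugate S.p0 * x i 0 := by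
    rw [S.inner_wv hji.symm, hxj, mul_zero, add_zero]
  have others : ∀ l ∈ supp x, l ≠ i → l ∈ supp y := by
    intro l hl hli
    have hlj : l ≠ j := fun e => hjS (e ▸ hl)
    rw [mem_supp]
    intro h0
    rcases hy with hy | hy <;> rw [hy, hA, hw1 i j l 1 hli hlj] at h0 <;> have h0 := mul_adj_cancel ht h0
    · rw [zero_mul, sub_zero] at h0; exact mem_supp.1 hl h0
    · rw [zero_sub, neg_eq_zero] at h0
      refine mem_supp.1 hl (mul_adj_cancel ?_ h0)
      rw [Matrix.det_adjugate, Matrix.det_mul, Matrix.det_adjugate]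
      simpa [dp, cc] using hci
  have hjy : cc y j ≠ 0 := by
    rcases hy with hy | hy <;> rw [cc, hy, hA, wv_j S hji.symm, hxj, Matrix.SpecialLinearGroup.coe_one, one_mul,
      Matrix.det_mul]
    · rw [zero_sub, ← mul_assoc, S.p0_mul_adj, smul_mul_assoc, one_mul, ← neg_smul, Matrix.det_smul]
      exact mul_ne_zero (mul_ne_zero (pow_ne_zero _ (neg_ne_zero.2 (inv_ne_zero h2))) hci) ht
    · rw [zero_mul, sub_zero]
      exact mul_ne_zero dp ht
  have sub : supp y ⊆ insert j (supp x) := by
    intro l hl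
    by_contra h
    rw [Finset.mem_insert, not_or] at h
    have hli : l ≠ i := fun e => h.2 (e ▸ hi)
    rcases hy with hy | hy <;> rw [mem_supp, hy, hw1 i j l 1 hli h.1, notMem_supp.1 h.2] at hl <;> simp at hl
  have hcard' := Finset.card_le_card sub
  rw [Finset.card_insert_of_notMem hjS, hxn] at hcard'
  have hlow : 3 ≤ (supp y).card := by
    have := Finset.card_le_card (show (supp x).erase i ⊆ supp y from fun l hl =>
      others l (Finset.mem_erase.1 hl).2 (Finset.mem_erase.1 hl).1)
    rw [Finset.card_erase_of_mem hi, hxn] at this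
    omega
  by_cases hle : (supp y).card ≤ n
  · exact hnonD y hyR hyD hlow hle
  have hyi : i ∈ supp y := by
    by_contra h
    have : supp y ⊆ (insert j (supp x)).erase i := fun l hl => Finset.mem_erase.2 ⟨fun e => h (e ▸ hl), sub hl⟩
    have := Finset.card_le_card this
    rw [Finset.card_erase_of_mem (Finset.mem_insert_of_mem hi), Finset.card_insert_of_notMem hjS, hxn] at this
    omega
  obtain ⟨k, hk, hkn⟩ : ∃ k ∈ supp y, k ∉ ({i, j} : Finset (Fin m)) := by
    by_contra h
    push Not at h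
    have := (Finset.card_le_card h).trans Finset.card_le_two
    omega
  simp only [Finset.mem_insert, Finset.mem_singleton, not_or] at hkn
  obtain ⟨z, hzR, hzs, t', ht', hz⟩ := exists_delete hyR hyD hk
  have hzn : (supp z).card = n := by rw [hzs, Finset.card_erase_of_mem hk]; omega
  by_cases hzD : S.IsD z
  · refine caseA z hzD hzn i ?_ j ?_ hji.symm hsw (Or.inr ?_)
    · rw [hzs]; exact Finset.mem_erase.2 ⟨Ne.symm hkn.1, hyi⟩
    · rw [hzs]; exact Finset.mem_erase.2 ⟨Ne.symm hkn.2, mem_supp_of_cc hjy⟩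
    · rw [cc, hz j (Ne.symm hkn.2), Matrix.det_mul]; exact mul_ne_zero hjy ht'
  · exact hnonD z hzR hzD (by omega) hzn.le

/-- Without fusion, a conjugate of a standard reflection is standard. -/
theorem supp_card_one (hW : S.NoFuse) {v : Vec F m} (hv : S.IsD v) : ∃ k, supp v = {k} := by
  classical
  rw [← Finset.card_eq_one]
  obtain ⟨hvu, -⟩ := id hv
  have h0 : (supp v).card ≠ 0 := fun h => by
    have := sum_supp_cc hvu
    rw [Finset.card_eq_zero.1 h, Finset.sum_empty] at this
    exact zero_ne_one this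
  by_contra hne
  rcases (by omega : (supp v).card = 2 ∨ 3 ≤ (supp v).card) with h | h
  · obtain ⟨i, j, hij, hs⟩ := Finset.card_eq_two.1 h
    rcases pair_D hW hv hij hs.le with h' | h'
    · exact mem_supp.1 (hs ▸ by simp : i ∈ supp v) h'
    · exact mem_supp.1 (hs ▸ by simp : j ∈ supp v) h'
  · exact no_large hW _ h v hv.isR rfl

/-- Without fusion, every element is monomial with entries normalizing `Q`. -/
theorem monomial (hW : S.NoFuse) {h : BU F m} (hh : h ∈ S.H) :
    ∃ (π : Fin m → Fin m) (c : Fin m → SLF),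
      (∀ k, c k ∈ Subgroup.normalizer ((S.Q : Subgroup SLF) : Set SLF)) ∧
        ∀ k, (h : Mat) * (std k : Vec F m) = (std (π k) : Vec F m) * sc (c k : M₂) := by
  have key : ∀ k, ∃ l, ∃ c : SLF, c ∈ Subgroup.normalizer ((S.Q : Subgroup SLF) : Set SLF) ∧
      (h : Mat) * (std k : Vec F m) = (std l : Vec F m) * sc (c : M₂) := by
    intro k
    obtain ⟨l, hl⟩ := supp_card_one hW (S.isD_column hh k)
    have e : (h : Mat) * (std k : Vec F m) = (std l : Vec F m) * sc (((h : Mat) * (std k : Vec F m)) l 0) := by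
      refine Matrix.ext fun r s => ?_
      rw [Subsingleton.elim s 0, mul_sc_apply, std_apply]
      rcases eq_or_ne r l with rfl | hr
      · rw [if_pos rfl, one_mul]
      · rw [if_neg hr, zero_mul]
        exact notMem_supp.1 fun hm => hr (Finset.mem_singleton.1 ((Finset.ext_iff.1 hl r).1 hm))
    obtain ⟨hd, hn, -⟩ := S.column_normalizes hh k l _ e
    exact ⟨l, _, hn, e⟩
  choose π c hc he using key
  exact ⟨π, c, hc, he⟩

end Setup

end CfsgLib.PronSymp
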