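import Mathlib
import Cfsg.Agent.PronSymp.Fuse
import Cfsg.Agent.PronSymp.Support
import Cfsg.Agent.PronSymp.Overgroup
import Cfsg.Agent.PronSymp.SpBridge
import Cfsg.Agent.SymSylow.Normalizer
import Cfsg.Agent.Classical.Symp.Simple
import Cfsg.Agent.PronormalExt.Criterion

/-!
Subgroups of odd index of `Sp_{2^{k+1}}(q)`, `q` odd: the normalizer of a Sylow 2-subgroup and
pronormality.
-/

set_option autoImplicit false
set_option linter.unusedSectionVars false
set_option linter.style.haveILetI false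

namespace CfsgLib.PronSymp

open Matrix CfsgLib.PronormalExt CfsgLib.SymSylow.SympTwo CfsgLib.SymSylow.SqDer
open scoped commutatorElement

variable {F : Type*} [Field F] [Fintype F] {m : ℕ}

local notation "SLF" => Matrix.SpecialLinearGroup (Fin 2) F
local notation "M₂" => Matrix (Fin 2) (Fin 2) F
local notation "Mat" => Matrix (Fin m) (Fin m) (Matrix (Fin 2) (Fin 2) F)
local notation "Sp" => Matrix.symplecticGroup (Fin m) F

/-- The monomial subgroup `Q^m ⋊ C`. -/
def monoQ (Q : Sylow 2 SLF) (C : Sylow 2 (Equiv.Perm (Fin m))) : Subgroup Sp :=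
  monoSub blkSp pmatSp compat (stable (Q : Subgroup SLF) (C : Subgroup (Equiv.Perm (Fin m))))

theorem blk_mem_monoQ (Q : Sylow 2 SLF) (C : Sylow 2 (Equiv.Perm (Fin m))) {a : Fin m → SLF}
    (ha : ∀ i, a i ∈ (Q : Subgroup SLF)) : blkSp a ∈ monoQ Q C :=
  base_mem _ _ fun i _ => ha i

theorem pmat_mem_monoQ (Q : Sylow 2 SLF) (C : Sylow 2 (Equiv.Perm (Fin m))) {σ : Equiv.Perm (Fin m)}
    (hσ : σ ∈ (C : Subgroup (Equiv.Perm (Fin m)))) : pmatSp σ ∈ monoQ Q C :=
  top_mem _ _ hσ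

theorem decomp_unique {a b : Fin m → SLF} {σ τ : Equiv.Perm (Fin m)}
    (h : (blkSp a * pmatSp σ : Sp) = blkSp b * pmatSp τ) : a = b ∧ σ = τ := by
  have h1 : (blkSp (b⁻¹ * a) * pmatSp (σ * τ⁻¹) : Sp) = 1 := by
    rw [map_mul, map_mul, map_inv, map_inv, mul_assoc, ← mul_assoc (blkSp a), h]
    simp
  obtain ⟨e1, e2⟩ := CfsgLib.SymSylow.SympTwo.injective _ _ h1
  exact ⟨(inv_mul_eq_one.1 e1).symm, mul_inv_eq_one.1 e2⟩

theorem monoQ_dec {Q : Sylow 2 SLF} {C : Sylow 2 (Equiv.Perm (Fin m))} {a : Fin m → SLF} {σ : Equiv.Perm (Fin m)}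
    (h : blkSp a * pmatSp σ ∈ monoQ Q C) :
    (∀ i, a i ∈ (Q : Subgroup SLF)) ∧ σ ∈ (C : Subgroup (Equiv.Perm (Fin m))) := by
  obtain ⟨b, hb, τ, hτ, e⟩ := h
  obtain ⟨rfl, rfl⟩ := decomp_unique e
  exact ⟨fun i => hb i trivial, hτ⟩

theorem exists_monoSylow (hodd : Odd (Fintype.card F)) (Q : Sylow 2 SLF) (C : Sylow 2 (Equiv.Perm (Fin m))) :
    ∃ S : Sylow 2 Sp, (S : Subgroup Sp) = monoQ Q C := by
  haveI : Fact (Nat.Prime 2) := ⟨Nat.prime_two⟩
  have hD : Nat.card (Subgroup.pi Set.univ fun _ : Fin m => (Q : Subgroup SLF)) =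
      Nat.card (Q : Subgroup SLF) ^ m := by
    rw [Nat.card_congr (show (Subgroup.pi Set.univ fun _ : Fin m => (Q : Subgroup SLF)) ≃
        (Fin m → (Q : Subgroup SLF)) from
      { toFun := fun a i => ⟨a.1 i, a.2 i trivial⟩, invFun := fun a => ⟨fun i => a i, fun i _ => (a i).2⟩,
        left_inv := fun _ => rfl, right_inv := fun _ => rfl }), Nat.card_fun, Nat.card_fin]
  refine ⟨Sylow.ofCard (monoQ Q C) ?_, rfl⟩
  rw [monoQ, card_monoSub _ _ CfsgLib.SymSylow.SympTwo.injective, hD, Q.card_eq_multiplicity,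
    CfsgLib.SymSylow.BlockMono.card_sylow_perm, ← pow_mul, ← pow_add, factorization_card hodd, mul_comm]

theorem conj_const (n : SLF) (a : Fin m → SLF) (σ : Equiv.Perm (Fin m)) :
    (blkSp (fun _ => n) : Sp) * (blkSp a * pmatSp σ) * (blkSp fun _ => n)⁻¹ =
      blkSp (fun i => n * a i * n⁻¹) * pmatSp σ := by
  have hc : (pmatSp σ : Sp) * (blkSp fun _ => n)⁻¹ = (blkSp fun _ => n)⁻¹ * pmatSp σ := by
    rw [← map_inv, compat]; rfl
  rw [mul_assoc, mul_assoc, hc, ← map_inv, ← mul_assoc, ← mul_assoc, ← map_mul, ← map_mul]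
  rfl

/-- Monomial units are block diagonal times a permutation. -/
theorem eq_of_monomial {h : Sp} (π : Fin m → Fin m) (c : Fin m → SLF)
    (he : ∀ k, (spU h : Mat) * (std k : Vec F m) = (std (π k) : Vec F m) * sc (c k : M₂)) :
    ∃ σ : Equiv.Perm (Fin m), ⇑σ = π ∧ h = pmatSp σ * blkSp c := by
  have hinj : Function.Injective π := by
    intro k l hkl
    by_contra hne
    have hck : sc (c k : M₂) * sc (((c k)⁻¹ * c l : SLF) : M₂) = sc (c l : M₂) := by
      rw [sc_mul, ← Matrix.SpecialLinearGroup.coe_mul, mul_inv_cancel_left]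
    have h1 : (spU h : Mat) * ((std k : Vec F m) * sc (((c k)⁻¹ * c l : SLF) : M₂)) = (spU h : Mat) * (std l : Vec F m) := by
      rw [← Matrix.mul_assoc, he, he, Matrix.mul_assoc, hck, hkl]
    have h2 := congrArg (fun X : Vec F m => ((spU h)⁻¹ : BU F m).val * X) h1
    simp only [← Matrix.mul_assoc, ← Units.val_mul, inv_mul_cancel, Units.val_one, Matrix.one_mul] at h2
    have h3 := congrFun (congrFun h2 l) 0
    rw [mul_sc_apply, std_apply, if_neg (Ne.symm hne), zero_mul, std_apply, if_pos rfl] at h3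
    exact zero_ne_one h3
  refine ⟨Equiv.ofBijective π (Finite.injective_iff_bijective.1 hinj), rfl, spU_injective ?_⟩
  rw [map_mul, spU_pmatSp, spU_blkSp]
  refine Units.ext (Matrix.ext fun r k => ?_)
  have h1 := congrFun (congrFun (he k) r) 0
  rw [mul_std, mul_sc_apply, std_apply] at h1
  rw [h1, Units.val_mul, diagU_val, Matrix.mul_diagonal, permU_val, Equiv.ofBijective_apply]
  rcases eq_or_ne r (π k) with rfl | hr
  · simp
  · rw [if_neg hr, if_neg hr.symm]

/-- A reflection which is monomial with a square permutation is a standard one. -/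
theorem refl_monomial (h2 : (2 : F) ≠ 0) {v : Vec F m} (hv : ads v * v = 1) (d : Fin m → SLF)
    (σ : Equiv.Perm (Fin m)) (he : refl v = ((diagU d * permU (σ * σ) : BU F m) : Mat)) :
    ∃ l, ∀ i, i ≠ l → v i 0 = 0 := by
  set τ := σ * σ with hτ
  have hX : ∀ i j, (1 : Mat) i j - (2 : F) • (v i 0 * adjugate (v j 0)) =
      if τ j = i then (d i : M₂) else 0 := by
    intro i j
    have := congrFun (congrFun he i) j
    rw [refl, Matrix.sub_apply, Matrix.smul_apply, proj_apply, Units.val_mul, diagU_val, Matrix.diagonal_mul,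
      permU_val, mul_ite, mul_one, mul_zero] at this
    exact this
  have hoff : ∀ i l, l ≠ i → τ i ≠ l → v l 0 * adjugate (v i 0) = 0 := by
    intro i l hli hti
    have := hX l i
    rw [Matrix.one_apply_ne hli, if_neg hti, zero_sub, neg_eq_zero, smul_eq_zero] at this
    exact this.resolve_left h2
  have hz : ∀ i l, cc v i ≠ 0 → v l 0 * adjugate (v i 0) = 0 → v l 0 = 0 := by
    intro i l hc h
    have := congrArg (· * v i 0) h
    simp only [mul_assoc, Matrix.adjugate_mul, mul_smul_comm, mul_one, zero_mul] at this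
    exact (smul_eq_zero.1 this).resolve_left hc
  have hτ1 : τ = 1 := by
    by_contra hne
    obtain ⟨i, hi⟩ : ∃ i, τ i ≠ i := by
      by_contra hh
      push Not at hh
      exact hne (Equiv.ext hh)
    have hc : cc v i ≠ 0 := by
      intro h0
      have := hX i i
      rw [Matrix.one_apply_eq, if_neg hi, Matrix.mul_adjugate, show (v i 0).det = 0 from h0] at this
      simp at this
    have hzero : ∀ l, l ≠ i → l ≠ τ i → v l 0 = 0 := fun l h h' => hz i l hc (hoff i l h h'.symm)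
    have hfix : ∀ l, l ≠ i → l ≠ τ i → τ l = l := by
      intro l h h'
      by_contra hl
      have := hX l l
      rw [Matrix.one_apply_eq, if_neg hl, hzero l h h'] at this
      simp at this
    have hsw : τ = Equiv.swap i (τ i) := by
      have h2' : τ (τ i) = i := by
        by_contra hne'
        have hne2 : τ (τ i) ≠ τ i := fun e => hi (τ.injective e)
        exact hne2 (τ.injective (hfix _ hne' hne2))
      refine Equiv.ext fun l => ?_
      rcases eq_or_ne l i with rfl | h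
      · rw [Equiv.swap_apply_left]
      rcases eq_or_ne l (τ i) with rfl | h'
      · rw [Equiv.swap_apply_right, h2']
      rw [hfix l h h', Equiv.swap_apply_of_ne_of_ne h h']
    have h1 : Equiv.Perm.sign τ = 1 := by rw [hτ, map_mul]; exact Int.units_mul_self _
    rw [hsw, Equiv.Perm.sign_swap (Ne.symm hi)] at h1
    exact absurd h1 (by decide)
  obtain ⟨i, -, hc⟩ := Finset.exists_ne_zero_of_sum_ne_zero (by rw [sum_cc hv]; exact one_ne_zero :
    ∑ i, cc v i ≠ 0)
  exact ⟨i, fun l hl => hz i l hc (hoff i l hl (by rw [hτ1]; exact Ne.symm hl))⟩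

theorem single_conj {h : Sp} {σ : Equiv.Perm (Fin m)} {c : Fin m → SLF} (he : h = pmatSp σ * blkSp c)
    (k : Fin m) (a : SLF) :
    h * blkSp (Pi.mulSingle k a) * h⁻¹ = blkSp (Pi.mulSingle (σ k) (c k * a * (c k)⁻¹)) := by
  have e1 : (blkSp c : Sp) * blkSp (Pi.mulSingle k a) * (blkSp c)⁻¹ = blkSp (Pi.mulSingle k (c k * a * (c k)⁻¹)) := by
    rw [← map_inv, ← map_mul, ← map_mul]
    congr 1
    funext l
    rcases eq_or_ne l k with rfl | hl
    · simp
    · simp [Pi.mulSingle_eq_of_ne hl]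
  rw [he, show (pmatSp σ * blkSp c : Sp) * blkSp (Pi.mulSingle k a) * (pmatSp σ * blkSp c)⁻¹ =
    pmatSp σ * ((blkSp c : Sp) * blkSp (Pi.mulSingle k a) * (blkSp c)⁻¹) * (pmatSp σ)⁻¹ by group, e1, compat,
    mul_inv_cancel_right]
  congr 1
  funext l
  rcases eq_or_ne l (σ k) with rfl | hl
  · simp
  · rw [Pi.mulSingle_eq_of_ne hl, Pi.mulSingle_eq_of_ne fun e => hl (by rw [← e, Equiv.apply_symm_apply])]

variable {C : Sylow 2 (Equiv.Perm (Fin m))}

/-- An element normalizing the monomial Sylow subgroup is, up to it, a constant normalizing `Q`. -/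
theorem normalizer_monoQ {Q : Sylow 2 SLF} (h2 : (2 : F) ≠ 0)
    (htr : ∀ x y : Fin m, ∃ g ∈ (C : Subgroup (Equiv.Perm (Fin m))), g x = y) {h : Sp}
    (hh : h ∈ Subgroup.normalizer (monoQ Q C : Set Sp)) :
    ∃ n ∈ Subgroup.normalizer ((Q : Subgroup SLF) : Set SLF), ∃ s ∈ monoQ Q C, h = blkSp (fun _ => n) * s := by
  classical
  obtain ⟨a0, ha0, e0⟩ := exists_sq_neg_one h2 Q
  have conj_mem : ∀ {x : Sp}, x ∈ monoQ Q C → h * x * h⁻¹ ∈ monoQ Q C := fun hx =>
    (Subgroup.mem_normalizer_iff.1 hh _).1 hx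
  have hsingle : ∀ k, ∀ a ∈ (Q : Subgroup SLF), (blkSp (Pi.mulSingle k a) : Sp) ∈ monoQ Q C := fun k a ha =>
    blk_mem_monoQ Q C fun l => by
      rcases eq_or_ne l k with rfl | hl
      · rw [Pi.mulSingle_eq_same]; exact ha
      · rw [Pi.mulSingle_eq_of_ne hl]; exact one_mem _
  have key : ∀ k, ∃ l, ∃ c : SLF, (spU h : Mat) * (std k : Vec F m) = (std l : Vec F m) * sc (c : M₂) := by
    intro k
    obtain ⟨b, hb, σ, hσ, e⟩ := conj_mem (hsingle k a0 ha0)
    set v : Vec F m := (spU h : Mat) * (std k : Vec F m) with hvdef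
    have hv : ads v * v = 1 := mul_unit_vec _ (ads_spU h) (std_unit k)
    have hsq : spU h * rU (std k) (std_unit k) * (spU h)⁻¹ =
        diagU (b * fun i => b (σ.symm i)) * permU (σ * σ) := by
      have := congrArg (fun x : Sp => spU (x * x)) e
      simp only [← mul_assoc, inv_mul_cancel_right] at this
      rw [mul_assoc h (blkSp _) (blkSp _), ← map_mul, ← Pi.mulSingle_mul, e0, map_mul, map_mul, map_inv,
        spU_blkSp] at this
      rw [rU_std, this]
      simp only [map_mul, spU_blkSp, spU_pmatSp]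
      rw [mul_assoc (diagU b) (permU σ), permU_diagU]
      simp only [mul_assoc]
    rw [conj_rU _ (ads_spU h) (std_unit k)] at hsq
    obtain ⟨l, hl⟩ := refl_monomial h2 hv _ σ (congrArg Units.val hsq)
    have e1 : v = (std l : Vec F m) * sc (v l 0) := by
      refine Matrix.ext fun r s => ?_
      rw [Subsingleton.elim s 0, mul_sc_apply, std_apply]
      rcases eq_or_ne r l with rfl | hr
      · rw [if_pos rfl, one_mul]
      · rw [if_neg hr, zero_mul, hl r hr]
    have hd : (v l 0).det = 1 := by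
      have := sum_cc hv
      rwa [Finset.sum_eq_single l (fun b _ hb => by rw [cc, hl b hb]; simp) (by simp)] at this
    exact ⟨l, ⟨v l 0, hd⟩, e1⟩
  choose π c hπ using key
  obtain ⟨σ, -, he⟩ := eq_of_monomial π c hπ
  have hc : ∀ k, c k ∈ Subgroup.normalizer ((Q : Subgroup SLF) : Set SLF) := fun k =>
    CfsgLib.SymSylow.mem_normalizer_of_conj_mem fun a ha => by
      have h1 := conj_mem (hsingle k a ha)
      rw [single_conj he] at h1
      have h2 := (monoQ_dec (a := Pi.mulSingle (σ k) (c k * a * (c k)⁻¹)) (σ := 1) (Q := Q) (C := C) (by rwa [map_one, mul_one])).1 (σ k)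
      rwa [Pi.mulSingle_eq_same] at h2
  have hperm : ∀ τ ∈ (C : Subgroup (Equiv.Perm (Fin m))), σ * τ * σ⁻¹ ∈ (C : Subgroup (Equiv.Perm (Fin m))) ∧
      ∀ k, c k * (c (τ.symm k))⁻¹ ∈ (Q : Subgroup SLF) := by
    intro τ hτ
    have h1 := conj_mem (pmat_mem_monoQ Q C hτ)
    have e : h * pmatSp τ * h⁻¹ = blkSp (fun i => c (σ.symm i) * (c (τ.symm (σ.symm i)))⁻¹) * pmatSp (σ * τ * σ⁻¹) := by
      rw [he, show (pmatSp σ * blkSp c : Sp) * pmatSp τ * (pmatSp σ * blkSp c)⁻¹ =
        pmatSp σ * ((blkSp c : Sp) * (pmatSp τ * (blkSp c)⁻¹)) * (pmatSp σ)⁻¹ by group, ← map_inv blkSp, compat,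
        ← mul_assoc (blkSp c), ← map_mul, ← mul_assoc, compat, map_mul pmatSp, map_mul pmatSp, map_inv,
        mul_assoc, mul_assoc, mul_assoc]
      rfl
    rw [e] at h1
    obtain ⟨hA, hB⟩ := monoQ_dec h1
    refine ⟨hB, fun k => ?_⟩
    have := hA (σ k)
    rwa [Equiv.symm_apply_apply] at this
  have hσ : σ ∈ (C : Subgroup (Equiv.Perm (Fin m))) := by
    rw [← CfsgLib.SymSylow.normalizer_sylow_perm C]
    exact CfsgLib.SymSylow.mem_normalizer_of_conj_mem fun τ hτ => (hperm τ hτ).1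
  rcases isEmpty_or_nonempty (Fin m) with hem | ⟨⟨k0⟩⟩
  · exact ⟨1, one_mem _, h, by
      rw [he, Subsingleton.elim σ 1, Subsingleton.elim c 1, map_one, map_one, one_mul]; exact one_mem _,
      by rw [show (fun _ : Fin m => (1 : SLF)) = 1 from rfl, map_one, one_mul]⟩
  have hq : ∀ k, (c k0)⁻¹ * c k ∈ (Q : Subgroup SLF) := by
    intro k
    obtain ⟨τ, hτ, hτk⟩ := htr k0 k
    have h1 := (hperm τ hτ).2 k
    rw [← hτk, Equiv.symm_apply_apply, hτk] at h1
    have h2 := (Subgroup.mem_normalizer_iff.1 (inv_mem (hc k0)) _).1 h1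
    simpa [mul_assoc] using h2
  refine ⟨c k0, hc k0, pmatSp σ * blkSp (fun k => (c k0)⁻¹ * c k),
    mul_mem (pmat_mem_monoQ Q C hσ) (blk_mem_monoQ Q C hq), ?_⟩
  rw [he, ← mul_assoc, ← compat σ (fun _ => c k0), mul_assoc, ← map_mul]
  congr 2
  funext k
  simp

theorem const_normalizes {Q : Sylow 2 SLF} {n : SLF} (hn : n ∈ Subgroup.normalizer ((Q : Subgroup SLF) : Set SLF)) :
    (blkSp fun _ => n : Sp) ∈ Subgroup.normalizer (monoQ Q C : Set Sp) := by
  refine CfsgLib.SymSylow.mem_normalizer_of_conj_mem ?_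
  rintro _ ⟨a, ha, σ, hσ, rfl⟩
  rw [conj_const]
  exact mul_mem (blk_mem_monoQ Q C fun i => (Subgroup.mem_normalizer_iff.1 hn _).1 (ha i trivial))
    (pmat_mem_monoQ Q C hσ)

/-- Commutators of the normalizer lie in the Sylow subgroup. -/
theorem commutator_monoQ {Q : Sylow 2 SLF} (h2 : (2 : F) ≠ 0) (hab : ∀ a ∈ Subgroup.normalizer ((Q : Subgroup SLF) : Set SLF),
      ∀ b ∈ Subgroup.normalizer ((Q : Subgroup SLF) : Set SLF), ⁅a, b⁆ ∈ (Q : Subgroup SLF))
    (htr : ∀ x y : Fin m, ∃ g ∈ (C : Subgroup (Equiv.Perm (Fin m))), g x = y) {x y : Sp}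
    (hx : x ∈ Subgroup.normalizer (monoQ Q C : Set Sp)) (hy : y ∈ Subgroup.normalizer (monoQ Q C : Set Sp)) :
    ⁅x, y⁆ ∈ monoQ Q C := by
  obtain ⟨a, ha, s, hs, rfl⟩ := normalizer_monoQ h2 htr hx
  obtain ⟨b, hb, t, ht, rfl⟩ := normalizer_monoQ h2 htr hy
  set N := Subgroup.normalizer (monoQ Q C : Set Sp)
  have hK : ((monoQ Q C).subgroupOf N).Normal := inferInstance
  let π := QuotientGroup.mk' ((monoQ Q C).subgroupOf N)
  have h1 : ∀ (u : Sp) (hu : u ∈ monoQ Q C), π ⟨u, Subgroup.le_normalizer hu⟩ = 1 := fun u hu =>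
    (QuotientGroup.eq_one_iff _).2 hu
  have h3 : π ⟨⁅(blkSp fun _ => a : Sp), blkSp fun _ => b⁆, by
      rw [commutatorElement_def]
      exact mul_mem (mul_mem (mul_mem (const_normalizes ha) (const_normalizes hb)) (inv_mem (const_normalizes ha)))
        (inv_mem (const_normalizes hb))⟩ = 1 := by
    refine (QuotientGroup.eq_one_iff _).2 ?_
    show ⁅(blkSp fun _ => a : Sp), blkSp fun _ => b⁆ ∈ monoQ Q C
    rw [← map_commutatorElement]
    exact blk_mem_monoQ Q C fun _ => hab a ha b hb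
  have hX : π ⟨_, hx⟩ = π ⟨_, const_normalizes ha⟩ := by
    rw [show (⟨_, hx⟩ : N) = ⟨_, const_normalizes ha⟩ * ⟨s, Subgroup.le_normalizer hs⟩ from rfl, map_mul,
      h1 s hs, mul_one]
  have hY : π ⟨_, hy⟩ = π ⟨_, const_normalizes hb⟩ := by
    rw [show (⟨_, hy⟩ : N) = ⟨_, const_normalizes hb⟩ * ⟨t, Subgroup.le_normalizer ht⟩ from rfl, map_mul,
      h1 t ht, mul_one]
  have h4 : π ⁅(⟨_, hx⟩ : N), ⟨_, hy⟩⁆ = 1 := by
    rw [map_commutatorElement, hX, hY, ← map_commutatorElement]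
    exact h3
  exact (QuotientGroup.eq_one_iff (N := (monoQ Q C).subgroupOf N) ⁅(⟨_, hx⟩ : N), ⟨_, hy⟩⁆).1 h4

/-- A transitive Sylow 2-subgroup of `Sym(2^k)`, with a sibling transposition at every point. -/
theorem exists_perm_sylow {k : ℕ} (hm : m = 2 ^ k) :
    ∃ C : Sylow 2 (Equiv.Perm (Fin m)), (∀ x y : Fin m, ∃ g ∈ (C : Subgroup (Equiv.Perm (Fin m))), g x = y) ∧
      (2 ≤ m → ∀ i, ∃ j, j ≠ i ∧ Equiv.swap i j ∈ (C : Subgroup (Equiv.Perm (Fin m)))) := by
  haveI : Fact (Nat.Prime 2) := ⟨Nat.prime_two⟩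
  set r := finRotate m with hr
  have hrp : IsPGroup 2 (Subgroup.zpowers r) := by
    refine IsPGroup.iff_card.2 ?_
    rw [Nat.card_zpowers]
    rcases Nat.lt_or_ge m 2 with h | h
    · refine ⟨0, ?_⟩
      have : Subsingleton (Fin m) := Fin.subsingleton_iff_le_one.2 (by omega)
      rw [Subsingleton.elim r 1, orderOf_one, pow_zero]
    · obtain ⟨n, hn⟩ : ∃ n, m = n + 2 := ⟨m - 2, by omega⟩
      refine ⟨k, ?_⟩
      subst hn
      rw [hr, isCycle_finRotate.orderOf, support_finRotate, Finset.card_univ, Fintype.card_fin, hm]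
  obtain ⟨C, hC⟩ := hrp.exists_le_sylow
  have hrC : r ∈ (C : Subgroup (Equiv.Perm (Fin m))) := hC (Subgroup.mem_zpowers r)
  have htr : ∀ x y : Fin m, ∃ g ∈ (C : Subgroup (Equiv.Perm (Fin m))), g x = y := by
    intro x y
    rcases eq_or_ne x y with rfl | hxy
    · exact ⟨1, one_mem _, rfl⟩
    obtain ⟨n, rfl⟩ : ∃ n, m = n + 2 := ⟨m - 2, by
      have := x.2; have := y.2; have := Fin.val_ne_iff.2 hxy; omega⟩
    obtain ⟨e, he⟩ := isCycle_finRotate.exists_zpow_eq (x := x) (y := y) (by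
      rw [← Equiv.Perm.mem_support, support_finRotate]; exact Finset.mem_univ _)
      (by rw [← Equiv.Perm.mem_support, support_finRotate]; exact Finset.mem_univ _)
    exact ⟨r ^ e, zpow_mem hrC e, he⟩
  refine ⟨C, htr, fun h2m i => ?_⟩
  set a : Fin m := ⟨0, by omega⟩
  set b : Fin m := ⟨1, by omega⟩
  have hab : a ≠ b := by simp [a, b]
  have hsp : IsPGroup 2 (Subgroup.zpowers (Equiv.swap a b)) := by
    refine IsPGroup.iff_card.2 ⟨1, ?_⟩
    rw [Nat.card_zpowers, Equiv.Perm.IsSwap.orderOf ⟨a, b, hab, rfl⟩, pow_one]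
  obtain ⟨C', hC'⟩ := hsp.exists_le_sylow
  obtain ⟨g, hg⟩ := MulAction.exists_smul_eq (Equiv.Perm (Fin m)) C' C
  have hsw : Equiv.swap (g a) (g b) ∈ (C : Subgroup (Equiv.Perm (Fin m))) := by
    rw [Equiv.swap_apply_apply, ← hg]
    exact ⟨_, hC' (Subgroup.mem_zpowers _), rfl⟩
  obtain ⟨t, ht, hti⟩ := htr (g a) i
  refine ⟨t (g b), fun e => hab (g.injective (t.injective (hti.trans e.symm))), ?_⟩
  rw [← hti, Equiv.swap_apply_apply]
  exact mul_mem (mul_mem ht hsw) (inv_mem ht)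

/-- Transfer of a constant element through `K`, when some coordinate subgroup is bigger than `Q`. -/
theorem const_mem_sup (hq : Fintype.card F % 8 = 3 ∨ Fintype.card F % 8 = 5) {Q : Sylow 2 SLF}
    (htr : ∀ x y : Fin m, ∃ g ∈ (C : Subgroup (Equiv.Perm (Fin m))), g x = y) {K : Subgroup Sp}
    (hSK : monoQ Q C ≤ K) {i0 : Fin m} {a : SLF} (ha : blkSp (Pi.mulSingle i0 a) ∈ K)
    (haQ : a ∉ (Q : Subgroup SLF)) {n : SLF} (hn : n ∈ Subgroup.normalizer ((Q : Subgroup SLF) : Set SLF))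
    (hnQ : n ∉ (Q : Subgroup SLF)) :
    (blkSp fun _ => n : Sp) ∈ K ⊔ cj (blkSp fun _ => n) K := by
  classical
  set J := K ⊔ cj (blkSp fun _ => n : Sp) K
  let ji : Fin m → SLF →* Sp := fun i => blkSp.comp (MonoidHom.mulSingle (fun _ => SLF) i)
  have hn1 : ∀ i, (blkSp (Pi.mulSingle i n) : Sp) ∈ J := by
    intro i
    obtain ⟨t, ht, hti⟩ := htr i0 i
    have hai : a ∈ K.comap (ji i) := by
      show (blkSp (Pi.mulSingle i a) : Sp) ∈ K
      have h := K.mul_mem (K.mul_mem (hSK (pmat_mem_monoQ Q C ht)) ha) (K.inv_mem (hSK (pmat_mem_monoQ Q C ht)))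
      refine (congrArg (· ∈ K) ?_).mp h
      rw [compat, mul_inv_cancel_right]
      congr 1
      funext l
      rcases eq_or_ne l i with rfl | hl
      · simp [← hti]
      · rw [Pi.mulSingle_eq_of_ne hl, Pi.mulSingle_eq_of_ne fun e => hl (by rw [← hti, ← e, Equiv.apply_symm_apply])]
    have hQK : (Q : Subgroup SLF) ≤ K.comap (ji i) := fun x hx => hSK (blk_mem_monoQ Q C fun l => by
      rcases eq_or_ne l i with rfl | hl
      · simpa using hx
      · simp [Pi.mulSingle_eq_of_ne hl])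
    rcases overgroup_sl hq (K.comap (ji i)) Q hQK n hn hnQ with h | h
    · have hle : K.comap (ji i) ⊔ cj n (K.comap (ji i)) ≤ J.comap (ji i) := by
        refine sup_le (fun x hx => Subgroup.mem_sup_left hx) fun x hx => ?_
        obtain ⟨y, hy, rfl⟩ := hx
        refine Subgroup.mem_sup_right ⟨_, hy, ?_⟩
        show (blkSp fun _ => n : Sp) * blkSp (Pi.mulSingle i y) * (blkSp fun _ => n)⁻¹ =
          blkSp (Pi.mulSingle i (n * y * n⁻¹))
        rw [← map_inv, ← map_mul, ← map_mul]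
        congr 1
        funext l
        rcases eq_or_ne l i with rfl | hl
        · simp
        · simp [Pi.mulSingle_eq_of_ne hl]
      exact hle h
    · exact absurd (h hai) haQ
  exact (Subgroup.pi_mem_of_mulSingle_mem (H := J.comap blkSp) (fun _ => n) hn1)

set_option maxHeartbeats 400000 in
/-- When all coordinate subgroups are `Q`, either the constants lie in the overgroup, or they normalize it. -/
theorem const_cases (hq : Fintype.card F % 8 = 3 ∨ Fintype.card F % 8 = 5) {Q : Sylow 2 SLF}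
    (htr : ∀ x y : Fin m, ∃ g ∈ (C : Subgroup (Equiv.Perm (Fin m))), g x = y)
    (hsw : 2 ≤ m → ∀ i, ∃ j, j ≠ i ∧ Equiv.swap i j ∈ (C : Subgroup (Equiv.Perm (Fin m))))
    {K : Subgroup Sp} (hSK : monoQ Q C ≤ K)
    (hX : ∀ i a, blkSp (Pi.mulSingle i a) ∈ K → a ∈ (Q : Subgroup SLF))
    {n : SLF} (hn : n ∈ Subgroup.normalizer ((Q : Subgroup SLF) : Set SLF)) :
    (blkSp fun _ => n : Sp) ∈ K ∨ cj (blkSp fun _ => n : Sp) K = K := by
  classical
  haveI : Fact (Nat.Prime 2) := ⟨Nat.prime_two⟩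
  have mono : ((blkSp fun _ => n : Sp) ∈ K) ∨ ∀ h ∈ K, ∃ (σ : Equiv.Perm (Fin m)) (c : Fin m → SLF),
      (∀ k, c k ∈ Subgroup.normalizer ((Q : Subgroup SLF) : Set SLF)) ∧ h = pmatSp σ * blkSp c := by
    rcases Nat.lt_or_ge m 2 with h1 | h1
    · haveI : Subsingleton (Fin m) := Fin.subsingleton_iff_le_one.2 (by omega)
      refine Or.inr fun h hh => ?_
      have key : ∀ k, ∃ c : SLF, (spU h : Mat) * (std k : Vec F m) = (std k : Vec F m) * sc (c : M₂) := by
        intro k
        set v : Vec F m := (spU h : Mat) * (std k : Vec F m)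
        have hv : ads v * v = 1 := mul_unit_vec _ (ads_spU h) (std_unit k)
        have hd : (v k 0).det = 1 := by
          have := sum_cc hv
          rwa [Finset.sum_eq_single k (fun b _ hb => absurd (Subsingleton.elim b k) hb) (by simp)] at this
        refine ⟨⟨v k 0, hd⟩, Matrix.ext fun r s => ?_⟩
        rw [Subsingleton.elim s 0, Subsingleton.elim r k, mul_sc_apply, std_apply, if_pos rfl, one_mul]
      choose c hc using key
      obtain ⟨σ, -, e⟩ := eq_of_monomial id c hc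
      refine ⟨σ, c, fun k => ?_, e⟩
      have hσ : σ = 1 := Subsingleton.elim _ _
      rw [hσ, map_one, one_mul] at e
      have hck : blkSp (Pi.mulSingle k (c k)) ∈ K := by
        refine (congrArg (· ∈ K) ?_).mp hh
        rw [e]
        congr 1
        funext l
        rw [Subsingleton.elim l k, Pi.mulSingle_eq_same]
      exact Subgroup.le_normalizer (hX k _ hck)
    · let P := (exists_qPair hq Q).some
      let S : Setup F m :=
        { hq := hq, Q := Q, P := P, H := K.map spU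
          hU := by rintro _ ⟨x, -, rfl⟩; exact ads_spU x
          hdiag := fun a ha => ⟨blkSp a, hSK (blk_mem_monoQ Q C ha), spU_blkSp a⟩
          hX := by
            intro i a h
            rw [← spU_blkSp] at h
            exact hX i a ((Subgroup.mem_map_iff_mem spU_injective).1 h)
          hswap := fun i => by
            obtain ⟨j, hj, hjs⟩ := hsw h1 i
            exact ⟨j, hj, _, hSK (pmat_mem_monoQ Q C hjs), spU_pmatSp _⟩ }
      by_cases hW : S.NoFuse
      · refine Or.inr fun h hh => ?_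
        obtain ⟨π, c, hc, he⟩ := Setup.monomial (S := S) hW (h := spU h) ⟨h, hh, rfl⟩
        obtain ⟨σ, -, e⟩ := eq_of_monomial π c he
        exact ⟨σ, c, hc, e⟩
      · left
        have h := Setup.const_mem (S := S) hW _ C.isPGroup' htr
          (fun g hg => ⟨pmatSp g, hSK (pmat_mem_monoQ Q C hg), spU_pmatSp g⟩) hn
        rw [← spU_blkSp] at h
        exact (Subgroup.mem_map_iff_mem spU_injective).1 h
  rcases mono with h | mono
  · exact Or.inl h
  right
  refine Subgroup.eq_of_le_of_card_ge ?_ (Subgroup.card_map_of_injective (MulAut.conj _).injective).ge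
  rintro _ ⟨h, hh, rfl⟩
  show (blkSp fun _ => n : Sp) * h * (blkSp fun _ => n)⁻¹ ∈ K
  obtain ⟨σ, c, hc, rfl⟩ := mono h hh
  have e : (blkSp fun _ => n : Sp) * (pmatSp σ * blkSp c) * (blkSp fun _ => n)⁻¹ =
      (pmatSp σ * blkSp c) * blkSp (fun k => (c k)⁻¹ * n * c k * n⁻¹) := by
    rw [← map_inv, mul_assoc, mul_assoc, mul_assoc, ← map_mul, ← map_mul, ← mul_assoc, ← compat σ (fun _ => n),
      mul_assoc, ← map_mul]
    congr 2
    funext k
    simp [mul_assoc]
  rw [e]
  refine K.mul_mem hh (hSK (blk_mem_monoQ Q C fun k => ?_))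
  have := commutator_mem hq Q (inv_mem (hc k)) hn
  simpa [commutatorElement_def, mul_assoc] using this

/-- Everything about a Sylow 2-subgroup needed for pronormality. -/
theorem sylow_facts {k : ℕ} (hm : m = 2 ^ k) (hodd : Odd (Fintype.card F)) :
    ∃ S : Sylow 2 Sp, Subgroup.center Sp ≤ (S : Subgroup Sp) ∧
      (∀ a ∈ Subgroup.normalizer ((S : Subgroup Sp) : Set Sp),
        ∀ b ∈ Subgroup.normalizer ((S : Subgroup Sp) : Set Sp), ⁅a, b⁆ ∈ (S : Subgroup Sp)) ∧
      ∀ K : Subgroup Sp, (S : Subgroup Sp) ≤ K → Cfsg.IsPronormal K := by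
  classical
  haveI : Fact (Nat.Prime 2) := ⟨Nat.prime_two⟩
  have h2 : (2 : F) ≠ 0 := CfsgLib.SL2.two_ne_zero_iff_odd.2 hodd
  obtain ⟨Q⟩ : Nonempty (Sylow 2 SLF) := inferInstance
  obtain ⟨C, htr, hsw⟩ := exists_perm_sylow hm
  obtain ⟨S, hS⟩ := exists_monoSylow hodd Q C
  refine ⟨S, ?_, ?_, ?_⟩
  · intro z hz
    rw [hS]
    rcases CfsgLib.Classical.Symp.mem_center_iff.1 hz with h | h
    · rw [show z = 1 from Subtype.ext h]; exact one_mem _
    · rw [show z = blkSp (fun _ => (-1 : SLF)) from Subtype.ext (by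
        rw [h, coe_blkSp, Matrix.SpecialLinearGroup.coe_neg, Matrix.SpecialLinearGroup.coe_one,
          show (fun _ : Fin m => (-1 : M₂)) = -1 from rfl, CfsgLib.SymSylow.BlockMono.blk_apply, ← fromBlocks_one, fromBlocks_neg]
        congr 1 <;> ext i j <;> rcases eq_or_ne i j with rfl | hij <;> simp_all)]
      exact blk_mem_monoQ Q C fun _ => neg_one_mem h2 Q
  · intro a ha b hb
    rw [hS] at ha hb ⊢
    refine commutator_monoQ h2 ?_ htr ha hb
    intro a ha b hb
    by_cases hq : Fintype.card F % 8 = 3 ∨ Fintype.card F % 8 = 5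
    · exact commutator_mem hq Q ha hb
    · have ha' := normalizer_eq hodd hq Q ha
      have hb' := normalizer_eq hodd hq Q hb
      rw [commutatorElement_def]
      exact mul_mem (mul_mem (mul_mem ha' hb') (inv_mem ha')) (inv_mem hb')
  intro K hK
  by_cases hq : Fintype.card F % 8 = 3 ∨ Fintype.card F % 8 = 5
  swap
  · refine (selfNormalizing_overgroup S ?_ K hK).1
    refine le_antisymm (fun h hh => ?_) Subgroup.le_normalizer
    rw [hS] at hh ⊢
    obtain ⟨n, hn, s, hs, rfl⟩ := normalizer_monoQ h2 htr hh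
    exact mul_mem (blk_mem_monoQ Q C fun _ => normalizer_eq hodd hq Q hn) hs
  rw [isPronormal_iff]
  intro g
  have hSJ : (S : Subgroup Sp) ≤ K ⊔ cj g K := hK.trans le_sup_left
  have hgSJ : ((g • S : Sylow 2 Sp) : Subgroup Sp) ≤ K ⊔ cj g K := (cj_mono hK).trans le_sup_right
  obtain ⟨j, hj⟩ := MulAction.exists_smul_eq ↥(K ⊔ cj g K) ((g • S).subtype hgSJ) (S.subtype hSJ)
  have hjg : (j : Sp) * g ∈ Subgroup.normalizer ((S : Subgroup Sp) : Set Sp) := by
    simp_rw [Sylow.smul_subtype, Subgroup.smul_def, smul_smul] at hj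
    exact Sylow.smul_eq_iff_mem_normalizer.mp (Sylow.subtype_injective hj)
  rw [hS] at hjg hK
  obtain ⟨n, hn, s, hs, e⟩ := normalizer_monoQ h2 htr hjg
  set N : Sp := blkSp fun _ => n with hN
  have hcj : cj ((j : Sp) * g) K = cj N K := by
    rw [e, ← cj_cj, cj_of_mem (hK hs)]
  have hle : K ⊔ cj N K ≤ K ⊔ cj g K := by
    refine sup_le le_sup_left ?_
    rw [← hcj, ← cj_cj]
    exact (cj_mono le_sup_right).trans (cj_of_mem j.2).le
  suffices hkey : ∃ x ∈ K ⊔ cj N K, cj N K = cj x K by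
    obtain ⟨x, hx, he⟩ := hkey
    refine ⟨(j : Sp)⁻¹ * x, mul_mem (inv_mem j.2) (hle hx), ?_⟩
    rw [← cj_cj, ← he, ← hcj, cj_cj, inv_mul_cancel_left]
  by_cases hnQ : n ∈ (Q : Subgroup SLF)
  · exact ⟨N, Subgroup.mem_sup_left (hK (blk_mem_monoQ Q C fun _ => hnQ)), rfl⟩
  by_cases hX : ∀ i a, blkSp (Pi.mulSingle i a) ∈ K → a ∈ (Q : Subgroup SLF)
  · rcases const_cases hq htr hsw hK hX hn with h | h
    · exact ⟨N, Subgroup.mem_sup_left h, rfl⟩
    · exact ⟨1, one_mem _, by rw [cj_one]; exact h⟩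
  · push Not at hX
    obtain ⟨i, a, ha, haQ⟩ := hX
    exact ⟨N, const_mem_sup hq htr hK ha haQ hn hnQ, rfl⟩

/-- Subgroups of odd index of `PSp` are pronormal, and commutators of Sylow 2-normalizers lie in the Sylow
subgroup. -/
theorem psp_facts {k : ℕ} (hm : m = 2 ^ k) (hodd : Odd (Fintype.card F)) :
    (∀ H : Subgroup (Sp ⧸ Subgroup.center Sp), Odd H.index → Cfsg.IsPronormal H) ∧
    ∀ T : Sylow 2 (Sp ⧸ Subgroup.center Sp),
      ∀ a ∈ Subgroup.normalizer ((T : Subgroup (Sp ⧸ Subgroup.center Sp)) : Set (Sp ⧸ Subgroup.center Sp)),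
      ∀ b ∈ Subgroup.normalizer ((T : Subgroup (Sp ⧸ Subgroup.center Sp)) : Set (Sp ⧸ Subgroup.center Sp)),
        ⁅a, b⁆ ∈ (T : Subgroup (Sp ⧸ Subgroup.center Sp)) := by
  classical
  haveI : Fact (Nat.Prime 2) := ⟨Nat.prime_two⟩
  obtain ⟨S, hZ, hab, hpro⟩ := sylow_facts (F := F) hm hodd
  set π := QuotientGroup.mk' (Subgroup.center Sp)
  have hsurj : Function.Surjective π := QuotientGroup.mk'_surjective _
  constructor
  · intro H hH
    obtain ⟨S', hS'⟩ := CfsgLib.SymSylow.exists_sylow_le_of_odd_index (H.comap π)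
      (by rwa [Subgroup.index_comap_of_surjective H hsurj])
    obtain ⟨g, rfl⟩ := MulAction.exists_smul_eq Sp S S'
    have hle : (S : Subgroup Sp) ≤ cj g⁻¹ (H.comap π) := by
      have := cj_mono (g := g⁻¹) (show cj g (S : Subgroup Sp) ≤ H.comap π from hS')
      rwa [cj_cj, inv_mul_cancel, cj_one] at this
    have h1 := isPronormal_cj (hpro _ hle) g
    rw [cj_cj, mul_inv_cancel, cj_one] at h1
    have := isPronormal_map hsurj h1
    rwa [Subgroup.map_comap_eq_self_of_surjective hsurj] at this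
  · intro T a ha b hb
    obtain ⟨g, rfl⟩ := MulAction.exists_smul_eq (Sp ⧸ Subgroup.center Sp) (S.mapSurjective hsurj) T
    have lift : ∀ x ∈ Subgroup.normalizer ((g • S.mapSurjective hsurj :
        Sylow 2 (Sp ⧸ Subgroup.center Sp)) : Subgroup (Sp ⧸ Subgroup.center Sp)).carrier,
        ∃ x' ∈ Subgroup.normalizer ((S : Subgroup Sp) : Set Sp), π x' = g⁻¹ * x * g := by
      intro x hx
      have h1 : g⁻¹ * x * g ∈ Subgroup.normalizer
          (((S.mapSurjective hsurj : Sylow 2 (Sp ⧸ Subgroup.center Sp)) : Subgroup (Sp ⧸ Subgroup.center Sp)) :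
            Set (Sp ⧸ Subgroup.center Sp)) := by
        refine Sylow.smul_eq_iff_mem_normalizer.1 ?_
        rw [mul_smul, mul_smul]
        rw [show x • (g • S.mapSurjective hsurj) = g • S.mapSurjective hsurj from Sylow.smul_eq_iff_mem_normalizer.2 hx,
          inv_smul_smul]
      obtain ⟨x', hx'⟩ := hsurj (g⁻¹ * x * g)
      refine ⟨x', CfsgLib.SymSylow.mem_normalizer_of_conj_mem fun s hs => ?_, hx'⟩
      rw [← hx'] at h1
      obtain ⟨t, ht, e⟩ := (Subgroup.mem_normalizer_iff.1 h1 _).1 (⟨s, hs, rfl⟩ :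
        π s ∈ ((S.mapSurjective hsurj : Sylow 2 _) : Subgroup (Sp ⧸ Subgroup.center Sp)))
      have hz : t⁻¹ * (x' * s * x'⁻¹) ∈ (S : Subgroup Sp) :=
        hZ (QuotientGroup.eq.1 (e.trans (by simp [π])))
      have := mul_mem ht hz
      rwa [mul_inv_cancel_left] at this
    obtain ⟨a', ha', ea⟩ := lift a ha
    obtain ⟨b', hb', eb⟩ := lift b hb
    refine ⟨π ⁅a', b'⁆, ⟨_, hab a' ha' b' hb', rfl⟩, ?_⟩
    show g * π ⁅a', b'⁆ * g⁻¹ = ⁅a, b⁆
    rw [map_commutatorElement, ea, eb, commutatorElement_def, commutatorElement_def]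
    group

end CfsgLib.PronSymp
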