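import Mathlib
import Cfsg.Agent.PronormalExt.Criterion
import Cfsg.Agent.SymSylow.Pronormal

/-!
Pronormality of subgroups of odd index in a finite product of groups with abelian
quotient `N(S)/S` for their Sylow 2-subgroups `S`.
-/

set_option autoImplicit false

namespace CfsgLib.PronSymp

open CfsgLib.PronormalExt
open scoped commutatorElement

universe u v

variable {ι : Type v} [Fintype ι] {L : ι → Type u} [∀ i, Group (L i)] [∀ i, Finite (L i)]

/-- A Sylow subgroup of a product is the product of its projections, which are Sylow. -/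
theorem exists_sylow_proj {p : ℕ} [Fact p.Prime] (P : Sylow p (Π i, L i)) :
    ∃ S : ∀ i, Sylow p (L i), ∀ x, x ∈ (P : Subgroup (Π i, L i)) ↔ ∀ i, x i ∈ (S i : Subgroup (L i)) := by
  classical
  choose S hS using fun i => ((P.isPGroup'.map (Pi.evalMonoidHom L i)).exists_le_sylow)
  refine ⟨S, ?_⟩
  set R : Subgroup (Π i, L i) := Subgroup.pi Set.univ fun i => (S i : Subgroup (L i)) with hR
  have hle : (P : Subgroup (Π i, L i)) ≤ R := fun x hx i _ => hS i ⟨x, hx, rfl⟩
  have hp : IsPGroup p R := by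
    intro x
    have : ∀ i, ∃ k : ℕ, (x : Π i, L i) i ^ p ^ k = 1 := fun i => by
      obtain ⟨k, hk⟩ := (S i).isPGroup' ⟨_, x.2 i trivial⟩
      exact ⟨k, congrArg Subtype.val hk⟩
    choose k hk using this
    refine ⟨∑ i, k i, Subtype.ext (funext fun i => ?_)⟩
    obtain ⟨d, hd⟩ := pow_dvd_pow p
      (Finset.single_le_sum (fun j _ => Nat.zero_le (k j)) (Finset.mem_univ i))
    show (x : Π i, L i) i ^ p ^ (∑ j, k j) = 1
    rw [hd, pow_mul, hk, one_pow]
  have he : R = P := P.is_maximal' hp hle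
  intro x
  rw [show x ∈ (P : Subgroup (Π i, L i)) ↔ x ∈ R by rw [he], hR, Subgroup.mem_pi]
  simp

/-- Subgroups of odd index in a product are pronormal, if this holds in the factors and the
quotients `N(S)/S` of the factors are abelian. -/
theorem isPronormal_pi
    (hpro : ∀ i, ∀ K : Subgroup (L i), Odd K.index → Cfsg.IsPronormal K)
    (hab : ∀ i, ∀ S : Sylow 2 (L i), ∀ a ∈ Subgroup.normalizer ((S : Subgroup (L i)) : Set (L i)),
      ∀ b ∈ Subgroup.normalizer ((S : Subgroup (L i)) : Set (L i)), ⁅a, b⁆ ∈ (S : Subgroup (L i)))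
    (H : Subgroup (Π i, L i)) (hH : Odd H.index) : Cfsg.IsPronormal H := by
  classical
  haveI : Fact (Nat.Prime 2) := ⟨Nat.prime_two⟩
  obtain ⟨P, hPH⟩ := CfsgLib.SymSylow.exists_sylow_le_of_odd_index H hH
  obtain ⟨S, hS⟩ := exists_sylow_proj P
  rw [isPronormal_iff]
  intro g
  set J := H ⊔ cj g H with hJ
  have hPJ : (P : Subgroup (Π i, L i)) ≤ J := hPH.trans le_sup_left
  have hgPJ : ((g • P : Sylow 2 (Π i, L i)) : Subgroup (Π i, L i)) ≤ J :=
    le_trans (cj_mono hPH) le_sup_right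
  obtain ⟨j, hj⟩ := MulAction.exists_smul_eq J ((g • P).subtype hgPJ) (P.subtype hPJ)
  have hn : (j : Π i, L i) * g ∈ Subgroup.normalizer ((P : Subgroup (Π i, L i)) : Set (Π i, L i)) := by
    simp_rw [Sylow.smul_subtype, Subgroup.smul_def, smul_smul] at hj
    exact Sylow.smul_eq_iff_mem_normalizer.mp (Sylow.subtype_injective hj)
  suffices hkey : ∃ x ∈ J, cj ((j : Π i, L i) * g) H = cj x H by
    obtain ⟨x, hx, he⟩ := hkey
    refine ⟨(j : Π i, L i)⁻¹ * x, J.mul_mem (J.inv_mem j.2) hx, ?_⟩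
    rw [← cj_cj, ← he, cj_cj, inv_mul_cancel_left]
  have hnJ : cj ((j : Π i, L i) * g) H ≤ J := by
    rw [← cj_cj]
    exact (cj_mono le_sup_right).trans (cj_of_mem j.2).le
  generalize (j : Π i, L i) * g = n at hn hnJ ⊢
  clear hj hgPJ
  -- normalizer of `P`, coordinatewise
  have sgl : ∀ i (a : L i), a ∈ (S i : Subgroup (L i)) → Pi.mulSingle i a ∈ (P : Subgroup (Π i, L i)) := by
    intro i a ha
    rw [hS]
    intro l
    rcases eq_or_ne l i with rfl | h
    · rw [Pi.mulSingle_eq_same]; exact ha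
    · rw [Pi.mulSingle_eq_of_ne h]; exact one_mem _
  have conj_sgl : ∀ (x : Π i, L i) i (a : L i),
      x * Pi.mulSingle i a * x⁻¹ = Pi.mulSingle i (x i * a * (x i)⁻¹) := by
    intro x i a
    funext l
    rcases eq_or_ne l i with rfl | h
    · simp
    · simp [Pi.mulSingle_eq_of_ne h]
  have hnorm : ∀ x ∈ Subgroup.normalizer ((P : Subgroup (Π i, L i)) : Set (Π i, L i)),
      ∀ i, x i ∈ Subgroup.normalizer ((S i : Subgroup (L i)) : Set (L i)) := by
    intro x hx i
    rw [Subgroup.mem_normalizer_iff] at hx ⊢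
    intro a
    constructor
    · intro ha
      have := (hS _).1 ((hx _).1 (sgl i a ha)) i
      simpa [conj_sgl] using this
    · intro ha
      have h1 := sgl i _ ha
      rw [← conj_sgl] at h1
      have := (hS _).1 ((hx _).2 h1) i
      simpa using this
  set Hi : ∀ i, Subgroup (L i) := fun i => H.comap (MonoidHom.mulSingle L i) with hHi
  have memHi : ∀ i a, a ∈ Hi i ↔ Pi.mulSingle i a ∈ H := fun i a => Iff.rfl
  have hSH : ∀ i, (S i : Subgroup (L i)) ≤ Hi i := fun i a ha => hPH (sgl i a ha)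
  -- decomposition in each factor
  have dec : ∀ i, ∃ m ∈ Subgroup.normalizer ((S i : Subgroup (L i)) : Set (L i)),
      cj m (Hi i) = Hi i ∧ n i * m⁻¹ ∈ Hi i ⊔ cj (n i) (Hi i) := by
    intro i
    obtain ⟨x, hx, hxe⟩ := (isPronormal_iff _).1
      (hpro i (Hi i) (Odd.of_dvd_nat (Nat.odd_iff.2 (Nat.two_dvd_ne_zero.1 (S i).not_dvd_index))
        (Subgroup.index_dvd_of_le (hSH i)))) (n i)
    have hm : cj (x⁻¹ * n i) (Hi i) = Hi i := by
      rw [← cj_cj, hxe, cj_cj, inv_mul_cancel, cj_one]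
    have hS2 : (((x⁻¹ * n i) • S i : Sylow 2 (L i)) : Subgroup (L i)) ≤ Hi i :=
      (cj_mono (hSH i)).trans hm.le
    obtain ⟨h, hh⟩ := MulAction.exists_smul_eq (Hi i) (((x⁻¹ * n i) • S i).subtype hS2) ((S i).subtype (hSH i))
    rw [Sylow.smul_subtype] at hh
    have hh' := Sylow.subtype_injective hh
    rw [Subgroup.smul_def, smul_smul] at hh'
    refine ⟨(h : L i) * (x⁻¹ * n i), Sylow.smul_eq_iff_mem_normalizer.1 hh', ?_, ?_⟩
    · rw [← cj_cj, hm, cj_of_mem h.2]
    · rw [show n i * ((h : L i) * (x⁻¹ * n i))⁻¹ = x * (h : L i)⁻¹ by group]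
      exact mul_mem hx (inv_mem (Subgroup.mem_sup_left h.2))
  choose m hmN hmH hmJ using dec
  refine ⟨n * (fun i => m i)⁻¹, ?_, ?_⟩
  · refine Subgroup.pi_mem_of_mulSingle_mem _ fun i => ?_
    have h1 : (Hi i ⊔ cj (n i) (Hi i)) ≤ J.comap (MonoidHom.mulSingle L i) := by
      refine sup_le (fun a ha => ?_) fun a ha => ?_
      · exact Subgroup.mem_sup_left (show Pi.mulSingle i a ∈ H from ha)
      · show Pi.mulSingle i a ∈ J
        refine hnJ ?_
        obtain ⟨b, hb, rfl⟩ := ha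
        exact ⟨Pi.mulSingle i b, hb, conj_sgl n i b⟩
    exact h1 (hmJ i)
  have hkey : cj (fun i => m i) H = H := by
    set H0 : Subgroup (Π i, L i) := Subgroup.pi Set.univ Hi with hH0
    have memH0 : ∀ x, x ∈ H0 ↔ ∀ i, x i ∈ Hi i := fun x => by simp [hH0, Subgroup.mem_pi]
    have h0H : H0 ≤ H := fun x hx => Subgroup.pi_mem_of_mulSingle_mem _ fun i => (memH0 x).1 hx i
    have hP0 : (P : Subgroup (Π i, L i)) ≤ H0 := fun x hx => (memH0 x).2 fun i => hSH i ((hS x).1 hx i)
    refine Subgroup.eq_of_le_of_card_ge ?_ (Subgroup.card_map_of_injective (MulAut.conj _).injective).ge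
    rintro _ ⟨h, hh, rfl⟩
    show (fun i => m i) * h * (fun i => m i)⁻¹ ∈ H
    have hP2 : ((h • P : Sylow 2 (Π i, L i)) : Subgroup (Π i, L i)) ≤ H0 := by
      rintro _ ⟨y, hy, rfl⟩
      refine (memH0 _).2 fun i => ?_
      rw [memHi]
      show Pi.mulSingle i (h i * y i * (h i)⁻¹) ∈ H
      rw [← conj_sgl]
      exact H.mul_mem (H.mul_mem hh ((memH0 _).1 (hP0 hy) i)) (H.inv_mem hh)
    obtain ⟨a, ha⟩ := MulAction.exists_smul_eq H0 ((h • P).subtype hP2) (P.subtype hP0)
    rw [Sylow.smul_subtype] at ha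
    have ha' := Sylow.subtype_injective ha
    rw [Subgroup.smul_def, smul_smul] at ha'
    set u := (a : Π i, L i) * h with hu
    have huN := hnorm u (Sylow.smul_eq_iff_mem_normalizer.1 ha')
    have huH : u ∈ H := H.mul_mem (h0H a.2) hh
    have hc : (fun i => ⁅m i, u i⁆) ∈ H :=
      hPH ((hS _).2 fun i => hab i (S i) _ (hmN i) _ (huN i))
    have ha2 : (fun i => m i) * (a : Π i, L i) * (fun i => m i)⁻¹ ∈ H := by
      refine h0H ((memH0 _).2 fun i => ?_)
      show m i * (a : Π i, L i) i * (m i)⁻¹ ∈ Hi i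
      rw [← hmH i]
      exact ⟨_, (memH0 _).1 a.2 i, rfl⟩
    have := H.mul_mem (H.inv_mem ha2) (H.mul_mem hc huH)
    refine (congrArg (· ∈ H) ?_).mp this
    funext i
    simp only [hu, Pi.mul_apply, Pi.inv_apply, commutatorElement_def]
    group
  conv_rhs => rw [← cj_cj, ← hkey]
  rw [cj_cj, cj_cj]
  congr 1
  group

end CfsgLib.PronSymp
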